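/- S3235 (p-transvections): definitions.  Points, perpendicularity, root groups, polar space, linear structures. -/
import Mathlib
import Cfsg.Prelude.Def_Classical

set_option autoImplicit false

namespace CL.PT

open Subgroup

universe u

/-! ### the hypothesis and the conclusion of S3235 -/

/-- `X` is `PSL₂(p^m)` or `SL₂(p^m)` -/
def IsL2 (p : ℕ) (X : Type*) [Group X] : Prop :=
  ∃ (K : Type) (_ : Field K) (_ : Fintype K) (m : ℕ), 1 ≤ m ∧ Fintype.card K = p ^ m ∧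
    (Nonempty (X ≃* Matrix.ProjectiveSpecialLinearGroup (Fin 2) K) ∨ Nonempty (X ≃* Matrix.SpecialLinearGroup (Fin 2) K))

/-- the class `D` -/
def InD {G : Type*} [Group G] (A₀ A : Subgroup G) : Prop := ∃ g : G, A = A₀.map (MulAut.conj g).toMonoidHom

/-- the hypothesis -/
structure Hyp (p : ℕ) {G : Type*} [Group G] (A₀ : Subgroup G) : Prop where
  pr : p.Prime
  p5 : 5 ≤ p
  sol : ∀ M : Subgroup G, M.Normal → Group.IsSolvable ↥M → M = ⊥
  card : Nat.card ↥A₀ = p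
  gen : (⨆ g : G, A₀.map (MulAut.conj g).toMonoidHom) = ⊤
  pair : ∀ A B, InD A₀ A → InD A₀ B → (∀ a ∈ A, ∀ b ∈ B, Commute a b) ∨ IsL2 p ↥(A ⊔ B)

/-- the conclusion -/
def Concl (p : ℕ) (G : Type*) [Group G] : Prop :=
  ∃ (F : Type) (_ : Field F) (_ : Fintype F), ringChar F = p ∧
    ((∃ m : ℕ, 1 ≤ m ∧ Nonempty (G ≃* Cfsg.PSp m F)) ∨
      (∃ (n q : ℕ), 2 ≤ n ∧ Fintype.card F = q ^ 2 ∧ Nonempty (G ≃* Cfsg.PSU n F q)))

/-! ### points and root groups -/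

/-- points, perpendicularity, root groups -/
structure Pre (p : ℕ) (G P : Type*) [Group G] [MulAction G P] where
  perp : P → P → Prop
  E : P → Subgroup G
  pr : p.Prime
  p5 : 5 ≤ p
  refl : ∀ x, perp x x
  symm : ∀ {x y}, perp x y → perp y x
  smul : ∀ (g : G) {x y}, perp x y → perp (g • x) (g • y)
  Econj : ∀ (g : G) {x a}, a ∈ E x → g * a * g⁻¹ ∈ E (g • x)
  Ecomm : ∀ {x z a c}, perp x z → a ∈ E x → c ∈ E z → Commute a c
  Efix : ∀ {x z a}, perp x z → a ∈ E x → a • z = z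
  Epow : ∀ {x a}, a ∈ E x → a ^ p = 1
  Ene : ∀ x, ∃ a ∈ E x, a ≠ 1
  gen : ⨆ x, E x = ⊤
  faith : ∀ g : G, (∀ x : P, g • x = x) → g = 1
  nd : ∀ {x z}, x ≠ z → ∃ t, perp x t ∧ ¬ perp z t
  trans : ∀ x y : P, ∃ g : G, g • x = y
  ne : Nonempty P

/-- `S x` is the set of generators of the members of `D` inside `E x` -/
structure Br (p : ℕ) (G P : Type*) [Group G] [MulAction G P] extends Pre p G P where
  S : P → Set G
  S_E : ∀ {x a}, a ∈ S x → a ∈ E x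
  S_ne : ∀ {x a}, a ∈ S x → a ≠ 1
  S_ex : ∀ x, ∃ a, a ∈ S x
  S_gen : ∀ x, E x = closure (S x)
  S_conj : ∀ (g : G) {x a}, a ∈ S x → g * a * g⁻¹ ∈ S (g • x)
  S_zpow : ∀ {x a} {k : ℤ}, a ∈ S x → a ^ k ≠ 1 → a ^ k ∈ S x
  S_cls : ∀ {x y a b}, a ∈ S x → b ∈ S y → ∃ (g : G) (k : ℕ), b = g * a ^ k * g⁻¹
  S_perp : ∀ {x z a c}, a ∈ S x → c ∈ S z → Commute a c → perp x z
  partner : ∀ {x y a}, ¬ perp x y → a ∈ S x → ∃ b ∈ S y, a * b * a = b * a * b ∧ (a * b) ^ 6 = 1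
  b1 : ∀ {x x' s c w e}, c ∈ S x → c * w ∈ S x' → w ≠ 1 → w ^ p = 1 → Commute c w → e ∈ S s → Commute w e → perp s x
  l2 : ∀ {x y a b}, ¬ perp x y → a ∈ S x → b ∈ S y → IsL2 p ↥(zpowers a ⊔ zpowers b)
  syl : ∀ {x y a b c}, ¬ perp x y → a ∈ S x → b ∈ S y → c ∈ zpowers a ⊔ zpowers b → c ^ p = 1 → Commute a c → c ∈ E x
  sol : ∀ M : Subgroup G, M.Normal → Group.IsSolvable ↥M → M = ⊥

variable {p : ℕ} {G P : Type*} [Group G] [MulAction G P]

namespace Pre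

variable (h : Pre p G P)

/-- `w` lies on the line `{x, z}^⊥⊥` -/
def col (x z w : P) : Prop := ∀ t, h.perp t x → h.perp t z → h.perp t w

theorem smul_iff (g : G) {x y : P} : h.perp (g • x) (g • y) ↔ h.perp x y :=
  ⟨fun e => by simpa using h.smul g⁻¹ e, h.smul g⟩
theorem smul_left (g : G) {x y : P} : h.perp (g • x) y ↔ h.perp x (g⁻¹ • y) := by
  rw [← h.smul_iff g⁻¹, inv_smul_smul]
theorem smul_right (g : G) {x y : P} : h.perp x (g • y) ↔ h.perp (g⁻¹ • x) y := by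
  rw [← h.smul_iff g⁻¹, inv_smul_smul]
theorem comm {x y : P} : h.perp x y ↔ h.perp y x := ⟨h.symm, h.symm⟩
theorem ne_of {x y : P} (o : ¬ h.perp x y) : x ≠ y := fun e => o (e ▸ h.refl x)
theorem col_left (x z : P) : h.col x z x := fun _ a _ => a
theorem col_right (x z : P) : h.col x z z := fun _ _ a => a
theorem col_smul (g : G) {x z w : P} : h.col (g • x) (g • z) (g • w) ↔ h.col x z w :=
  ⟨fun c _ a b => (h.smul_iff g).1 (c _ (h.smul g a) (h.smul g b)),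
    fun c _ a b => (h.smul_right g).2 (c _ ((h.smul_right g).1 a) ((h.smul_right g).1 b))⟩

variable {h}
theorem col.swap {x z w : P} (c : h.col x z w) : h.col z x w := fun t a b => c t b a
theorem col.trans {x z u v w : P} (a : h.col x z u) (b : h.col x z v) (c : h.col u v w) : h.col x z w :=
  fun t k l => c t (a t k l) (b t k l)
theorem col.perp_left {x z w : P} (c : h.col x z w) (o : h.perp x z) : h.perp x w := c x (h.refl x) o
theorem col.perp_right {x z w : P} (c : h.col x z w) (o : h.perp x z) : h.perp z w := c z (h.symm o) (h.refl z)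
theorem col.perp {x z u w : P} (a : h.col x z u) (c : h.col x z w) (o : h.perp x z) : h.perp u w :=
  c u (h.symm (a.perp_left o)) (h.symm (a.perp_right o))
variable (h)

/-- the group generated by the root groups of the points of a line -/
def Z (x r : P) : Subgroup G := ⨆ (w : P) (_ : h.col x r w), h.E w

/-- the central elations with centre `x` -/
def C (x : P) : Subgroup G where
  carrier := {g | ∀ z, h.perp x z → g • z = z}
  mul_mem' a b z o := by rw [mul_smul, b z o, a z o]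
  one_mem' z _ := one_smul _ z
  inv_mem' a z o := by rw [inv_smul_eq_iff, a z o]

/-- the elements fixing every line on `x` -/
def J (x : P) : Subgroup G where
  carrier := {g | g • x = x ∧ ∀ z t, h.perp x z → h.perp x t → (h.perp t z ↔ h.perp t (g • z))}
  mul_mem' {a b} ha hb := ⟨by rw [mul_smul, hb.1, ha.1], fun z t o k => by
    rw [mul_smul, ← ha.2 _ t (by rw [← hb.1]; exact h.smul b o) k, hb.2 z t o k]⟩
  one_mem' := ⟨one_smul _ _, fun _ _ _ _ => by rw [one_smul]⟩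
  inv_mem' {a} ha := ⟨by rw [inv_smul_eq_iff, ha.1], fun z t o k => by
    rw [ha.2 (a⁻¹ • z) t (by rw [← h.smul_left, ha.1]; exact o) k, smul_inv_smul]⟩

/-- the unipotent radical of the stabiliser of `x` -/
def Q (x : P) : Subgroup G := ⨆ (r : P) (_ : h.perp x r ∧ r ≠ x), h.Z x r ⊓ h.J x

/-- the stabiliser of a line -/
def Ln (y r : P) : Subgroup G where
  carrier := {g | ∀ w, h.col y r w ↔ h.col y r (g • w)}
  mul_mem' {a b} ha hb w := by rw [mul_smul, ← ha, ← hb]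
  one_mem' w := by rw [one_smul]
  inv_mem' {a} ha w := by rw [ha (a⁻¹ • w), smul_inv_smul]

/-- the short root groups -/
def U (x y r : P) : Subgroup G := h.Q x ⊓ h.Ln y r

theorem mem_C {x : P} {g : G} : g ∈ h.C x ↔ ∀ z, h.perp x z → g • z = z := Iff.rfl
theorem mem_J {x : P} {g : G} :
    g ∈ h.J x ↔ g • x = x ∧ ∀ z t, h.perp x z → h.perp x t → (h.perp t z ↔ h.perp t (g • z)) := Iff.rfl
theorem mem_Ln {y r : P} {g : G} : g ∈ h.Ln y r ↔ ∀ w, h.col y r w ↔ h.col y r (g • w) := Iff.rfl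
theorem E_le_C (x : P) : h.E x ≤ h.C x := fun _ a _ o => h.Efix o a
theorem E_le_Z {x r w : P} (c : h.col x r w) : h.E w ≤ h.Z x r := le_iSup₂_of_le w c le_rfl
theorem Q_le_J (x : P) : h.Q x ≤ h.J x := iSup₂_le fun _ _ => inf_le_right
theorem le_Q {x r : P} (o : h.perp x r) (n : r ≠ x) : h.Z x r ⊓ h.J x ≤ h.Q x := le_iSup₂_of_le r ⟨o, n⟩ le_rfl

/-- the central involution `i` of `⟨E x, E y⟩` and an element `n` exchanging `x` and `y` -/
structure Inv (x y : P) (i n : G) : Prop where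
  ii : i * i = 1
  iK : i ∈ h.E x ⊔ h.E y
  nK : n ∈ h.E x ⊔ h.E y
  nx : n • x = y
  ny : n • y = x
  cm : Commute i n
  ix : i • x = x
  iy : i • y = y
  mv : ∀ z, h.perp x z → z ≠ x → ¬ h.perp y z → i • z ≠ z
  cen : ∀ g : G, (∀ a ∈ h.E x, Commute g a) → g • y = y → Commute g i
  tr : ∀ r y', h.perp x r → h.perp y r → h.col y r y' → y' ≠ r →
    ∃ g ∈ h.Z x r, g ∈ h.J x ∧ g • y = y' ∧ i * g * i⁻¹ = g⁻¹

/-- `μ = a₁ b a₂` exchanges `x` and `y` -/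
structure Mu (x y : P) (a₁ b a₂ : G) : Prop where
  m1 : a₁ ∈ h.C x
  mb : b ∈ h.C y
  m2 : a₂ ∈ h.C x
  sx : (a₁ * b * a₂) • x = y
  sy : (a₁ * b * a₂) • y = x

end Pre

/-- a polar space -/
structure Geo0 (p : ℕ) (G P : Type*) [Group G] [MulAction G P] extends Pre p G P where
  nb : ∀ x, ∃ z, perp x z ∧ z ≠ x
  two : ∀ {x z w w'}, perp x z → x ≠ z → toPre.col x z w → toPre.col x z w' → w ≠ w' → toPre.col w w' x ∧ toPre.col w w' z
  one : ∀ {x z}, perp x z → x ≠ z → ∀ y, ∃ r, toPre.col x z r ∧ perp y r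
  thick : ∀ {x z}, perp x z → x ≠ z → ∃ w, toPre.col x z w ∧ w ≠ x ∧ w ≠ z

/-- a polar space with the involutions -/
structure Geo (p : ℕ) (G P : Type*) [Group G] [MulAction G P] extends Geo0 p G P where
  inv : ∀ {x y}, ¬ perp x y → ∃ i n, toPre.Inv x y i n

/-! ### linear structures -/

/-- `V = Q x / C x` is a vector space over `K ≅ C x`; `hh t` is the torus -/
structure Mod0 (h : Geo p G P) (x y : P) (K V : Type*) [Field K] [AddCommGroup V] [Module K V] where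
  opp : ¬ h.perp x y
  π : G → V
  χ : K → G
  hh : K → G
  π_mul : ∀ {g g'}, g ∈ h.Q x → g' ∈ h.Q x → π (g * g') = π g + π g'
  π_ker : ∀ {g}, g ∈ h.Q x → (π g = 0 ↔ g ∈ h.C x)
  π_surj : ∀ v, ∃ g ∈ h.Q x, π g = v
  χ_add : ∀ c d, χ (c + d) = χ c * χ d
  χ_inj : Function.Injective χ
  χ_mem : ∀ c, χ c ∈ h.C x
  χ_surj : ∀ a ∈ h.C x, ∃ c, χ c = a
  hK : ∀ t, hh t ∈ h.C x ⊔ h.C y
  hx : ∀ t, hh t • x = x
  hy : ∀ t, hh t • y = y
  hπ : ∀ {t g}, t ≠ 0 → g ∈ h.Q x → π (hh t * g * (hh t)⁻¹) = t • π g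
  hχ : ∀ {t} c, t ≠ 0 → hh t * χ c * (hh t)⁻¹ = χ (t * t * c)
  sq : ∀ (g : G) {t c c₀ c₁}, g • x = x → g * χ c * g⁻¹ = χ c₀ → g * χ (t * t * c) * g⁻¹ = χ c₁ → ∃ s, c₁ = s * s * c₀

/-- the commutator form and the section -/
structure Mod1 (h : Geo p G P) (x y : P) (K V : Type*) [Field K] [AddCommGroup V] [Module K V] extends Mod0 h x y K V where
  β : V →ₗ[K] V →ₗ[K] K
  ex : V → G
  char : ringChar K = p
  alt : ∀ v, β v v = 0
  β_comm : ∀ {g g'}, g ∈ h.Q x → g' ∈ h.Q x → g * g' = g' * g * χ (β (π g) (π g'))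
  ex_mem : ∀ v, ex v ∈ h.Q x
  π_ex : ∀ v, π (ex v) = v
  ex_zero : ex 0 = 1
  ex_mul : ∀ u v, ex u * ex v = ex (u + v) * χ (2⁻¹ * β u v)
  ex_U : ∀ {r g}, h.perp x r → h.perp y r → g ∈ h.U x y r → ex (π g) = g
  ex_conj : ∀ {e : G} v, e • x = x → e • y = y → (∀ a ∈ h.C x, Commute e a) → e * ex v * e⁻¹ = ex (π (e * ex v * e⁻¹))

/-- the subspaces `L r = π (U x y r)` and the maps `δ e` -/
structure Lin (h : Geo p G P) (x y : P) (K V : Type*) [Field K] [AddCommGroup V] [Module K V] extends Mod1 h x y K V where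
  L : P → Submodule K V
  δ : G → V →ₗ[K] V
  mem_L : ∀ {r v}, h.perp x r → h.perp y r → (v ∈ L r ↔ ex v ∈ h.U x y r)
  span : ⨆ (r : P) (_ : h.perp x r ∧ h.perp y r), L r = ⊤
  nondeg : ∀ v, (∀ u, β u v = 0) → v = 0
  fix : ∀ {r} v, h.perp x r → h.perp y r → (ex v • r = r ↔ ∀ ρ ∈ L r, β ρ v = 0)
  L_perp : ∀ {r s}, h.perp x r → h.perp y r → h.perp x s → h.perp y s → h.perp r s → ∀ ρ ∈ L r, ∀ σ ∈ L s, β ρ σ = 0
  L_opp : ∀ {r s}, h.perp x r → h.perp y r → h.perp x s → h.perp y s → ¬ h.perp r s → ∀ σ ∈ L s, σ ≠ 0 → ∃ ρ ∈ L r, β ρ σ ≠ 0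
  L_ne : ∀ {r}, h.perp x r → h.perp y r → L r ≠ ⊥
  δ_def : ∀ {r e g}, h.perp x r → h.perp y r → e ∈ h.C r → g ∈ h.Q x → π (e * g * e⁻¹) = π g + δ e (π g)
  δ_mem : ∀ {r e} v, h.perp x r → h.perp y r → e ∈ h.C r → δ e v ∈ L r
  δ_symm : ∀ {r e} u v, h.perp x r → h.perp y r → e ∈ h.C r → β (δ e u) v = β (δ e v) u
  δ_an : ∀ {r e} v, h.perp x r → h.perp y r → e ∈ h.C r → e ≠ 1 → β (δ e v) v = 0 → ∀ ρ ∈ L r, β ρ v = 0
  δ_inv : ∀ {r s e}, h.perp x r → h.perp y r → h.perp x s → h.perp y s → ¬ h.perp r s → e ∈ h.C r → e ≠ 1 →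
    ∃ e' ∈ h.C s, (∀ ρ ∈ L r, δ e (δ e' ρ) = -ρ) ∧ ∀ σ ∈ L s, δ e' (δ e σ) = -σ
  δ_ω : ∀ {r} v, h.perp x r → h.perp y r → ex v • r ≠ r →
    ∃ ω : G, ω • x = r ∧ ∀ e ∈ h.C r, ω⁻¹ * e * ω = χ (2⁻¹ * β (δ e v) v)
  δ_L : ∀ {t r e}, h.perp x t → h.perp y t → h.perp x r → h.perp y r → e ∈ h.C t → ∀ ρ ∈ L r, ρ + δ e ρ ∈ L (e • r)

/-- the sesquilinear form on `V` -/
structure Sq {h : Geo p G P} {x y : P} {K V : Type*} [Field K] [AddCommGroup V] [Module K V] (l : Lin h x y K V)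
    (F : Type*) [Field F] [Module F V] where
  ι : K →+* F
  σ : F →+* F
  H : V → V → F
  σσ : ∀ a, σ (σ a) = a
  fix_iff : ∀ a, σ a = a ↔ ∃ c, ι c = a
  ι_smul : ∀ (c : K) (v : V), ι c • v = c • v
  H_add : ∀ u v w, H (u + v) w = H u w + H v w
  H_smul : ∀ (a : F) u w, H (a • u) w = a * H u w
  H_skew : ∀ u w, H w u = -σ (H u w)
  H_re : ∀ u w, H u w + σ (H u w) = ι (2 * l.β u w)
  line : ∀ {r}, h.perp x r → h.perp y r → ∃ ρ, ρ ≠ 0 ∧ ∀ v, v ∈ l.L r ↔ ∃ a : F, v = a • ρ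

/-- the embedding of the polar space -/
structure Emb (h : Geo p G P) (F W : Type*) [Field F] [AddCommGroup W] [Module F W] where
  σ : F →+* F
  H : W → W → F
  ψ : P → W
  σσ : ∀ a, σ (σ a) = a
  H_add : ∀ u v w, H (u + v) w = H u w + H v w
  H_smul : ∀ (a : F) u w, H (a • u) w = a * H u w
  H_skew : ∀ u w, H w u = -σ (H u w)
  nondeg : ∀ w, (∀ u, H u w = 0) → w = 0
  ψ_ne : ∀ z, ψ z ≠ 0
  perp_iff : ∀ z w, h.perp z w ↔ H (ψ z) (ψ w) = 0
  onto : ∀ w, w ≠ 0 → H w w = 0 → ∃ z, ∃ a : F, w = a • ψ z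
  span : Submodule.span F (Set.range ψ) = ⊤
  cardC : ∀ z, Nat.card (h.C z) = Nat.card {a : F // σ a = a}

end CL.PT
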