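/- S3235: facts on PSL2 and SL2. -/
import Mathlib
import Cfsg.Agent.CHEV.PT.Defs

set_option autoImplicit false

namespace CL.PT

open Subgroup

variable {p : ℕ} {X : Type*} [Group X]

namespace L2x

open Matrix

variable {K : Type} [Field K]

/-- upper unitriangular -/
def uu (t : K) : SpecialLinearGroup (Fin 2) K := ⟨!![1, t; 0, 1], by simp [det_fin_two]⟩
/-- lower unitriangular -/
def ll (t : K) : SpecialLinearGroup (Fin 2) K := ⟨!![1, 0; t, 1], by simp [det_fin_two]⟩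
/-- diagonal -/
def dd (s : K) (hs : s ≠ 0) : SpecialLinearGroup (Fin 2) K := ⟨!![s, 0; 0, s⁻¹], by simp [det_fin_two, hs]⟩

theorem uu_val (t : K) : (uu t).1 = !![1, t; 0, 1] := rfl
theorem ll_val (t : K) : (ll t).1 = !![1, 0; t, 1] := rfl
theorem dd_val (s : K) (hs : s ≠ 0) : (dd s hs).1 = !![s, 0; 0, s⁻¹] := rfl

theorem ext2 {A B : SpecialLinearGroup (Fin 2) K} (h0 : A.1 0 0 = B.1 0 0) (h1 : A.1 0 1 = B.1 0 1)
    (h2 : A.1 1 0 = B.1 1 0) (h3 : A.1 1 1 = B.1 1 1) : A = B := by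
  apply Subtype.ext
  ext i j
  fin_cases i <;> fin_cases j <;> assumption

theorem mul_ap (A B : SpecialLinearGroup (Fin 2) K) (i j : Fin 2) :
    (A * B).1 i j = A.1 i 0 * B.1 0 j + A.1 i 1 * B.1 1 j := by
  show (A.1 * B.1) i j = _
  simp [mul_apply, Fin.sum_univ_two]

theorem det2 (A : SpecialLinearGroup (Fin 2) K) : A.1 0 0 * A.1 1 1 - A.1 0 1 * A.1 1 0 = 1 := by
  have := A.2
  rwa [det_fin_two] at this

theorem uu_add (s t : K) : uu (s + t) = uu s * uu t := by
  apply ext2 <;> simp [mul_ap, uu_val, add_comm]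

theorem ll_add (s t : K) : ll (s + t) = ll s * ll t := by
  apply ext2 <;> simp [mul_ap, ll_val]

theorem uu_zero : uu (0 : K) = 1 := by
  apply ext2 <;> simp [uu_val]

theorem ll_zero : ll (0 : K) = 1 := by
  apply ext2 <;> simp [ll_val]

theorem uu_neg (t : K) : uu (-t) = (uu t)⁻¹ := by
  rw [eq_inv_iff_mul_eq_one, ← uu_add, neg_add_cancel, uu_zero]

theorem ll_neg (t : K) : ll (-t) = (ll t)⁻¹ := by
  rw [eq_inv_iff_mul_eq_one, ← ll_add, neg_add_cancel, ll_zero]

theorem uu_pow (t : K) (n : ℕ) : uu t ^ n = uu (n * t) := by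
  induction n with
  | zero => simp [uu_zero]
  | succ n ih => rw [pow_succ, ih, ← uu_add]; push_cast; ring_nf

theorem ll_pow (t : K) (n : ℕ) : ll t ^ n = ll (n * t) := by
  induction n with
  | zero => simp [ll_zero]
  | succ n ih => rw [pow_succ, ih, ← ll_add]; push_cast; ring_nf

theorem dd_uu (s : K) (hs : s ≠ 0) (t : K) : dd s hs * uu t * (dd s hs)⁻¹ = uu (s * s * t) := by
  rw [mul_inv_eq_iff_eq_mul]
  apply ext2 <;> simp [mul_ap, uu_val, dd_val]
  field_simp

theorem dd_ll (s : K) (hs : s ≠ 0) (t : K) : (dd s hs)⁻¹ * ll t * dd s hs = ll (s * s * t) := by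
  rw [mul_assoc, inv_mul_eq_iff_eq_mul]
  apply ext2 <;> simp [mul_ap, ll_val, dd_val]
  field_simp

theorem eq_uu {A : SpecialLinearGroup (Fin 2) K} (tr : A.1 0 0 + A.1 1 1 = 2) (c0 : A.1 1 0 = 0) : A = uu (A.1 0 1) := by
  have d := det2 A
  rw [c0, mul_zero, sub_zero] at d
  have a1 : A.1 0 0 = 1 := by
    have : (A.1 0 0 - 1) ^ 2 = 0 := by linear_combination A.1 0 0 * tr - d
    exact sub_eq_zero.1 (pow_eq_zero_iff two_ne_zero |>.1 this)
  have d1 : A.1 1 1 = 1 := by linear_combination tr - a1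
  apply ext2 <;> simp [uu_val, a1, d1, c0]

theorem eq_ll {A : SpecialLinearGroup (Fin 2) K} (tr : A.1 0 0 + A.1 1 1 = 2) (c0 : A.1 1 0 ≠ 0) :
    A = uu ((A.1 0 0 - 1) / A.1 1 0) * ll (A.1 1 0) * (uu ((A.1 0 0 - 1) / A.1 1 0))⁻¹ := by
  have d := det2 A
  rw [eq_mul_inv_iff_mul_eq]
  apply ext2 <;> simp [mul_ap, uu_val, ll_val] <;> field_simp
  · ring
  · linear_combination A.1 0 0 * tr - d
  · linear_combination tr

theorem decomp {A : SpecialLinearGroup (Fin 2) K} (c0 : A.1 1 0 ≠ 0) :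
    A = uu ((A.1 0 0 - 1) / A.1 1 0) * ll (A.1 1 0) * uu ((A.1 1 1 - 1) / A.1 1 0) := by
  have d := det2 A
  apply ext2 <;> simp [mul_ap, uu_val, ll_val] <;> field_simp
  · ring
  · linear_combination -d
  · ring

theorem gen_top (H : Subgroup (SpecialLinearGroup (Fin 2) K)) (hu : ∀ t, uu t ∈ H) (hl : ∀ t, ll t ∈ H) : H = ⊤ := by
  have k : ∀ A : SpecialLinearGroup (Fin 2) K, A.1 1 0 ≠ 0 → A ∈ H := fun A c0 => by
    rw [decomp c0]
    exact H.mul_mem (H.mul_mem (hu _) (hl _)) (hu _)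
  rw [eq_top_iff]
  intro A _
  by_cases c0 : A.1 1 0 = 0
  · have d := det2 A
    rw [c0, mul_zero, sub_zero] at d
    have : (ll 1 * A).1 1 0 ≠ 0 := by
      rw [mul_ap, c0]
      simpa [ll_val] using left_ne_zero_of_mul_eq_one d
    exact (H.mul_mem_cancel_left (hl 1)).1 (k _ this)
  · exact k A c0

/-- the Weyl element -/
def ww : SpecialLinearGroup (Fin 2) K := ⟨!![0, -1; 1, 0], by simp [det_fin_two]⟩

theorem ww_val : (ww (K := K)).1 = !![0, -1; 1, 0] := rfl

theorem ww_uu (t : K) : ll t = ww * uu (-t) * ww⁻¹ := by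
  rw [eq_mul_inv_iff_mul_eq]
  apply ext2 <;> simp [mul_ap, uu_val, ll_val, ww_val]

theorem conj_uu {A : SpecialLinearGroup (Fin 2) K} (tr : A.1 0 0 + A.1 1 1 = 2) :
    ∃ g t, A = g * uu t * g⁻¹ := by
  by_cases c0 : A.1 1 0 = 0
  · exact ⟨1, A.1 0 1, by simpa using eq_uu tr c0⟩
  · refine ⟨uu ((A.1 0 0 - 1) / A.1 1 0) * ww, -A.1 1 0, ?_⟩
    conv_lhs => rw [eq_ll tr c0, ww_uu]
    group

variable {p : ℕ}

theorem trace_two [CharP K p] (hp : p.Prime) {A : SpecialLinearGroup (Fin 2) K} (h : A ^ p = 1) :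
    A.1 0 0 + A.1 1 1 = 2 := by
  have := Fact.mk hp
  have e : A.1 ^ p = 1 := by
    have := congrArg Subtype.val h
    simpa using this
  have n : IsNilpotent (A.1 - 1) := ⟨p, by
    rw [sub_pow_char_of_commute _ (Commute.one_right _), e, one_pow, sub_self]⟩
  have t := (isNilpotent_trace_of_isNilpotent n).eq_zero
  rw [trace_fin_two] at t
  simp at t
  linear_combination t

theorem cast_ne [CharP K p] (hp : p.Prime) (p5 : 5 ≤ p) : (2 : K) ≠ 0 ∧ (3 : K) ≠ 0 := by
  constructor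
  · intro e
    have := (CharP.cast_eq_zero_iff K p 2).1 (by exact_mod_cast e)
    have := Nat.le_of_dvd (by norm_num) this
    omega
  · intro e
    have := (CharP.cast_eq_zero_iff K p 3).1 (by exact_mod_cast e)
    have := Nat.le_of_dvd (by norm_num) this
    omega

theorem neg_one_ne (h2 : (2 : K) ≠ 0) : (-1 : SpecialLinearGroup (Fin 2) K) ≠ 1 := by
  intro e
  have := congrArg (fun A : SpecialLinearGroup (Fin 2) K => A.1 0 0) e
  simp at this
  exact h2 (by linear_combination -this)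

variable {X : Type*} [Group X]

/-- the model -/
theorem mdl (hp : p.Prime) (h : IsL2 p X) : ∃ (K : Type) (_ : Field K) (_ : CharP K p)
    (φ : SpecialLinearGroup (Fin 2) K →* X), Function.Surjective φ ∧ ∀ g, φ g = 1 → g = 1 ∨ g = -1 := by
  obtain ⟨K, _, _, m, -, hc, h⟩ := h
  have := Fact.mk hp
  refine ⟨K, inferInstance, charP_of_card_eq_prime_pow hc, ?_⟩
  rcases h with ⟨⟨e⟩⟩ | ⟨⟨e⟩⟩
  · refine ⟨e.symm.toMonoidHom.comp (QuotientGroup.mk' _), e.symm.surjective.comp (QuotientGroup.mk'_surjective _), ?_⟩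
    intro g hg
    have : (QuotientGroup.mk' (Subgroup.center (SpecialLinearGroup (Fin 2) K)) g) = 1 := by
      apply e.symm.injective
      rw [map_one]
      exact hg
    rw [QuotientGroup.mk'_apply, QuotientGroup.eq_one_iff, Matrix.SpecialLinearGroup.mem_center_iff] at this
    obtain ⟨r, r2, hr⟩ := this
    rw [Fintype.card_fin, sq, mul_self_eq_one_iff] at r2
    rcases r2 with rfl | rfl
    · left
      apply Subtype.ext
      rw [← hr]
      simp
    · right
      apply Subtype.ext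
      rw [← hr, map_neg, map_one]
      simp
  · refine ⟨e.symm.toMonoidHom, e.symm.surjective, fun g hg => Or.inl ?_⟩
    apply e.symm.injective
    rw [map_one]
    exact hg

variable {φ : SpecialLinearGroup (Fin 2) K →* X}

theorem lift (hp : p.Prime) (p5 : 5 ≤ p) (hs : Function.Surjective φ) (hk : ∀ g, φ g = 1 → g = 1 ∨ g = -1) {a : X}
    (ha : a ^ p = 1) : ∃ A, φ A = a ∧ A ^ p = 1 := by
  obtain ⟨A, rfl⟩ := hs a
  rw [← map_pow] at ha
  rcases hk _ ha with e | e
  · exact ⟨A, rfl, e⟩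
  · refine ⟨-A, ?_, ?_⟩
    · rw [← neg_one_mul, map_mul, ← e, ha, one_mul]
    · rw [(hp.odd_of_ne_two (by omega)).neg_pow, e, neg_neg]

theorem comm_lift [CharP K p] (hp : p.Prime) (p5 : 5 ≤ p) (hk : ∀ g, φ g = 1 → g = 1 ∨ g = -1)
    {A B : SpecialLinearGroup (Fin 2) K} (hA : A ^ p = 1) (c : Commute (φ A) (φ B)) : Commute A B := by
  have e : φ (B * A * B⁻¹ * A⁻¹) = 1 := by
    rw [map_mul, map_mul, map_mul, map_inv, map_inv, ← c.eq]
    group
  rcases hk _ e with e | e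
  · rw [mul_inv_eq_one, mul_inv_eq_iff_eq_mul] at e
    exact e.symm
  · exfalso
    rw [mul_inv_eq_iff_eq_mul, neg_one_mul] at e
    have k : (B * A * B⁻¹) ^ p = 1 := by rw [conj_pow, hA]; group
    rw [e, (hp.odd_of_ne_two (by omega)).neg_pow, hA] at k
    exact neg_one_ne (cast_ne hp p5).1 k

theorem low_zero {C : SpecialLinearGroup (Fin 2) K} {t : K} (ht : t ≠ 0) (c : Commute (uu t) C) : C.1 1 0 = 0 := by
  have := congrArg (fun A : SpecialLinearGroup (Fin 2) K => A.1 0 0) c.eq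
  simp only [mul_ap, uu_val] at this
  simpa [ht] using this

/-- the Sylow subgroup of `a`, parametrised by the field -/
theorem par (hp : p.Prime) (p5 : 5 ≤ p) (h : IsL2 p X) {a : X} (ha : a ^ p = 1) (a1 : a ≠ 1) :
    ∃ (K : Type) (_ : Field K) (ψ : K → X), (2 : K) ≠ 0 ∧ (3 : K) ≠ 0 ∧ ψ 1 = a ∧ (∀ s t, ψ (s + t) = ψ s * ψ t) ∧
      (∀ t, ψ t = 1 → t = 0) ∧ (∀ t, ψ t ^ p = 1) ∧ (∀ s, s ≠ 0 → ∃ g, ψ (s * s) = g * a * g⁻¹) ∧
      ∀ c, c ^ p = 1 → Commute a c → ∃ t, ψ t = c := by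
  obtain ⟨K, _, _, φ, hs, hk⟩ := mdl hp h
  obtain ⟨A, rfl, hA⟩ := lift hp p5 hs hk ha
  obtain ⟨g, t₀, rfl⟩ := conj_uu (trace_two hp hA)
  have t0 : t₀ ≠ 0 := by
    rintro rfl
    simp [uu_zero] at a1
  refine ⟨K, inferInstance, fun t => φ (g * uu (t * t₀) * g⁻¹), (cast_ne hp p5).1, (cast_ne hp p5).2, by simp, ?_, ?_, ?_, ?_, ?_⟩
  · intro s t
    simp only
    rw [add_mul, uu_add, ← map_mul]
    congr 1
    group
  · intro t e
    have k : (uu (t * t₀)).1 0 1 = 0 := by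
      rcases hk _ e with e | e
      · have : uu (t * t₀) = 1 := by
          have := congrArg (fun x => g⁻¹ * x * g) e
          simpa [mul_assoc] using this
        rw [this]; simp
      · have : uu (t * t₀) = -1 := by
          have := congrArg (fun x => g⁻¹ * x * g) e
          simpa [mul_assoc] using this
        rw [this]; simp
    simpa [uu_val, t0] using k
  · intro t
    simp only
    rw [← map_pow, conj_pow, uu_pow, CharP.cast_eq_zero, zero_mul, uu_zero]
    simp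
  · intro s s0
    refine ⟨φ (g * dd s s0 * g⁻¹), ?_⟩
    simp only
    rw [← dd_uu s s0, ← map_inv, ← map_mul, ← map_mul]
    congr 1
    group
  · intro c hc ac
    obtain ⟨C, rfl, hC⟩ := lift hp p5 hs hk hc
    have k := comm_lift hp p5 hk hA ac
    have k2 : Commute (uu t₀) (g⁻¹ * C * g) := by
      have := congrArg (fun x => g⁻¹ * x * g) k.eq
      simp only [Commute, SemiconjBy]
      simpa [mul_assoc] using this
    have p2 : (g⁻¹ * C * g) ^ p = 1 := by
      have := conj_pow (a := g⁻¹) (b := C) (i := p)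
      rw [inv_inv] at this
      rw [this, hC]
      group
    have e := eq_uu (trace_two hp p2) (low_zero t0 k2)
    refine ⟨(g⁻¹ * C * g).1 0 1 / t₀, ?_⟩
    simp only
    rw [div_mul_cancel₀ _ t0, ← e]
    congr 1
    group

theorem par_neg {ψ : K → X} (ad : ∀ s t, ψ (s + t) = ψ s * ψ t) : ψ 0 = 1 ∧ ∀ t, ψ (-t) = (ψ t)⁻¹ := by
  have z : ψ 0 = 1 := by
    have := ad 0 0
    rw [add_zero] at this
    exact (mul_eq_left.1 this.symm)
  exact ⟨z, fun t => by rw [eq_inv_iff_mul_eq_one, ← ad, neg_add_cancel, z]⟩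

end L2x

open L2x
open scoped commutatorElement

/-- Tip for the whole file: first get `K`, `φ : SL(2, K) →* X` onto with `φ.ker ≤ center` (both cases), `|K| = p ^ m ≥ 5`, char `p`; an element `a` with `a ^ p = 1` has a unique lift with the same property, commuting lifts to commuting; a non-trivial such lift is conjugate to `!![1, t; 0, 1]`, `t ≠ 0` (cf search `upper`, `CL.SL2Hom`, `CL.SL`).
`SL₂(K)` is perfect for `|K| ≥ 4`. -/
theorem IsL2.perfect (hp : p.Prime) (p5 : 5 ≤ p) (h : IsL2 p X) : commutator X = ⊤ := by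
  obtain ⟨K, _, _, φ, hs, -⟩ := mdl hp h
  have h3 := (cast_ne (K := K) hp p5).2
  have h2 := (cast_ne (K := K) hp p5).1
  have k : (commutator X).comap φ = ⊤ := by
    apply gen_top
    · intro t
      have e : uu t = ⁅dd 2 h2, uu (t / 3)⁆ := by
        rw [commutatorElement_def, dd_uu, ← uu_neg, ← uu_add]
        congr 1
        field_simp
        ring
      rw [mem_comap, e, map_commutatorElement]
      exact commutator_mem_commutator (mem_top _) (mem_top _)
    · intro t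
      have e : ll t = ⁅(dd 2 h2)⁻¹, ll (t / 3)⁆ := by
        rw [commutatorElement_def, inv_inv, dd_ll, ← ll_neg, ← ll_add]
        congr 1
        field_simp
        ring
      rw [mem_comap, e, map_commutatorElement]
      exact commutator_mem_commutator (mem_top _) (mem_top _)
  rw [eq_top_iff]
  intro x _
  obtain ⟨A, rfl⟩ := hs x
  exact (show A ∈ (commutator X).comap φ from k ▸ mem_top A)

/-- `Z(SL₂) = ±1`, `Z(PSL₂) = 1` (simple, or lift: a perfect group has `Z₂ = Z`). -/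
theorem IsL2.center_sq (hp : p.Prime) (p5 : 5 ≤ p) (h : IsL2 p X) {z : X} (hz : z ∈ center X) : z * z = 1 := by
  obtain ⟨K, _, _, φ, hs, hk⟩ := mdl hp h
  obtain ⟨Z, rfl⟩ := hs z
  have c1 : Commute (uu (1 : K)) Z := comm_lift hp p5 hk
    (by rw [uu_pow, CharP.cast_eq_zero, zero_mul, uu_zero]) (mem_center_iff.1 hz _)
  have c2 : Commute (ll (1 : K)) Z := comm_lift hp p5 hk
    (by rw [ll_pow, CharP.cast_eq_zero, zero_mul, ll_zero]) (mem_center_iff.1 hz _)
  have e1 := low_zero one_ne_zero c1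
  have e2 := congrArg (fun A : Matrix.SpecialLinearGroup (Fin 2) K => A.1 0 1) c1.eq
  have e3 := congrArg (fun A : Matrix.SpecialLinearGroup (Fin 2) K => A.1 0 0) c2.eq
  simp only [mul_ap, uu_val, ll_val] at e2 e3
  simp at e2 e3
  have d := det2 Z
  have e4 : Z.1 1 1 = Z.1 0 0 := by linear_combination e2
  rw [e1, e4, mul_zero, sub_zero] at d
  have : Z * Z = 1 := by
    apply ext2 <;> simp [mul_ap, e1, e3, e4, d]
  rw [← map_mul, this, map_one]

/-- Lift; conjugate so that `a = !![1, s; 0, 1]` and `b = !![1, 0; t, 1]` (the two fixed points on the projective line are different as `a`, `b` do not commute; `SL₂` is 2-transitive on it).  Take `b' = !![1, 0; -s⁻¹, 1]`, `g = a b'`: `a b' a = b' a b' = !![0, s; -s⁻¹, 0]`, whose square is `-1`. -/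
theorem IsL2.partner (hp : p.Prime) (p5 : 5 ≤ p) (h : IsL2 p X) {a b : X} (ha : a ^ p = 1) (hb : b ^ p = 1) (n : ¬ Commute a b) :
    ∃ b' : X, Commute b b' ∧ a * b' * a = b' * a * b' ∧ (a * b') ^ 6 = 1 := by
  obtain ⟨K, _, _, φ, hs, hk⟩ := mdl hp h
  obtain ⟨A, rfl, hA⟩ := lift hp p5 hs hk ha
  obtain ⟨B, rfl, hB⟩ := lift hp p5 hs hk hb
  obtain ⟨g, s, rfl⟩ := conj_uu (trace_two hp hA)
  have s0 : s ≠ 0 := by
    rintro rfl
    simp [uu_zero] at n
  obtain ⟨C, rfl⟩ : ∃ C, B = g * C * g⁻¹ := ⟨g⁻¹ * B * g, by group⟩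
  have hC : C ^ p = 1 := by
    rw [conj_pow] at hB
    have := congrArg (fun x => g⁻¹ * x * g) hB
    simpa [mul_assoc] using this
  have tr := trace_two hp hC
  have c0 : C.1 1 0 ≠ 0 := by
    intro c0
    apply n
    apply Commute.map
    rw [eq_uu tr c0]
    simp only [Commute, SemiconjBy]
    rw [conj_mul, conj_mul, ← uu_add, ← uu_add, add_comm]
  obtain ⟨r, t, rfl⟩ : ∃ r t, C = uu r * ll t * (uu r)⁻¹ := ⟨_, _, eq_ll tr c0⟩
  have ea : g * uu s * g⁻¹ = (g * uu r) * uu s * (g * uu r)⁻¹ := by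
    rw [mul_assoc g (uu r), ← uu_add, add_comm, uu_add]
    group
  have eb : g * (uu r * ll t * (uu r)⁻¹) * g⁻¹ = (g * uu r) * ll t * (g * uu r)⁻¹ := by group
  rw [ea, eb]
  generalize g * uu r = k
  refine ⟨φ (k * ll (-s⁻¹) * k⁻¹), ?_, ?_, ?_⟩
  · apply Commute.map
    simp only [Commute, SemiconjBy]
    rw [conj_mul, conj_mul, ← ll_add, ← ll_add, add_comm]
  · simp only [← map_mul, conj_mul]
    congr 3
    apply ext2 <;> simp [mul_ap, uu_val, ll_val, s0]
  · rw [← map_mul, conj_mul, ← map_pow, conj_pow]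
    have e : (uu s * ll (-s⁻¹)) ^ 3 = -1 := by
      rw [pow_succ, pow_two]
      apply ext2 <;> simp [mul_ap, uu_val, ll_val, s0]
    rw [show 6 = 3 * 2 by norm_num, pow_mul, e]
    simp

/-- Lift, `a = u(t₀)`, `{c | c ^ p = 1, Commute a c} = {u(t)}`, `q = |K|`.  `T' = {t | u(t) ∈ T}` is an additive subgroup containing `t₀`, of order `n ≥ p`.  The `(q - 1) / 2` elements `s² t₀` give conjugates of `a`.
If `T' ≠ K`, `m = q / n ≥ p`; a coset `c + T' ≠ T'` contains at most one `s² t₀` (hypothesis `cl`), `T'` at most `n - 1`: `(n m - 1) / 2 ≤ (m - 1) + (n - 1)`, false for `m, n ≥ 5`. -/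
theorem IsL2.syl (hp : p.Prime) (p5 : 5 ≤ p) (h : IsL2 p X) {a : X} (ha : a ^ p = 1) (a1 : a ≠ 1) (T : Subgroup X) (aT : a ∈ T)
    (cl : ∀ c w g g' : X, c = g * a * g⁻¹ → c * w = g' * a * g'⁻¹ → Commute a c → Commute a w → Commute c w → w ^ p = 1 → w ∈ T → w ≠ 1 → c ∈ T) :
    ∀ c : X, c ^ p = 1 → Commute a c → c ∈ T := by
  obtain ⟨K, _, ψ, h2, h3, e1, ad, inj, pw, cj, sj⟩ := par hp p5 h ha a1
  obtain ⟨z, ng⟩ := par_neg ad
  have cm : ∀ s t, Commute (ψ s) (ψ t) := fun s t => by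
    simp only [Commute, SemiconjBy]
    rw [← ad, ← ad, add_comm]
  let S : AddSubgroup K :=
    { carrier := {t | ψ t ∈ T}
      add_mem' := fun {s t} hs ht => by
        show ψ (s + t) ∈ T
        rw [ad]
        exact T.mul_mem hs ht
      zero_mem' := by
        show ψ 0 ∈ T
        rw [z]
        exact T.one_mem
      neg_mem' := fun {t} ht => by
        show ψ (-t) ∈ T
        rw [ng]
        exact T.inv_mem ht }
  have mS : ∀ t, t ∈ S ↔ ψ t ∈ T := fun _ => Iff.rfl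
  have s1 : (1 : K) ∈ S := by rw [mS, e1]; exact aT
  have k1 : ∀ s s' t : K, t ∈ S → t ≠ 0 → s * s + t = s' * s' → s * s ∈ S := by
    intro s s' t ht t0 e
    by_cases s0 : s = 0
    · rw [s0, mul_zero]; exact S.zero_mem
    by_cases s0' : s' = 0
    · have : s * s = -t := by rw [s0'] at e; linear_combination e
      rw [this]; exact S.neg_mem ht
    obtain ⟨g, hg⟩ := cj s s0
    obtain ⟨g', hg'⟩ := cj s' s0'
    exact cl _ (ψ t) g g' hg (by rw [← ad, e, hg']) (e1 ▸ cm _ _) (e1 ▸ cm _ _) (cm _ _) (pw t) ht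
      (fun e => t0 (inj t e))
  have k2 : ∀ l t : K, l ≠ 0 → t ∈ S → t ≠ 0 → t * t * (l * l) + l⁻¹ * l⁻¹ ∈ S := by
    intro l t l0 ht t0
    have m := k1 ((t * l - l⁻¹) / 2) ((t * l + l⁻¹) / 2) t ht t0 (by field_simp; ring)
    have := S.add_mem (S.add_mem (S.add_mem m m) (S.add_mem m m)) (S.add_mem ht ht)
    convert this using 1
    field_simp
    ring
  have k3 : ∀ l : K, 3 * (l * l) ∈ S := by
    intro l
    by_cases l0 : l = 0
    · rw [l0, mul_zero, mul_zero]; exact S.zero_mem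
    have := S.sub_mem (k2 l (1 + 1) l0 (S.add_mem s1 s1) (by rwa [one_add_one_eq_two])) (k2 l 1 l0 s1 one_ne_zero)
    convert this using 1
    ring
  intro c hc ac
  obtain ⟨t, rfl⟩ := sj c hc ac
  have := S.sub_mem (k3 ((t / 3 + 1) / 2)) (k3 ((t / 3 - 1) / 2))
  rw [← mS]
  convert this using 1
  field_simp
  ring

/-- The elements `u(t)` are products of conjugates of `a` commuting with `a` (`t = s₁² t₀ - s₂² t₀`). -/
theorem IsL2.syl_gen (hp : p.Prime) (p5 : 5 ≤ p) (h : IsL2 p X) {a : X} (ha : a ^ p = 1) (a1 : a ≠ 1) {c : X} (hc : c ^ p = 1)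
    (ac : Commute a c) : c ∈ closure {d : X | Commute a d ∧ ∃ g : X, d = g * a * g⁻¹} := by
  obtain ⟨K, _, ψ, h2, h3, e1, ad, inj, pw, cj, sj⟩ := par hp p5 h ha a1
  obtain ⟨z, ng⟩ := par_neg ad
  have cm : ∀ s t, Commute (ψ s) (ψ t) := fun s t => by
    simp only [Commute, SemiconjBy]
    rw [← ad, ← ad, add_comm]
  have k : ∀ s : K, ψ (s * s) ∈ closure {d : X | Commute a d ∧ ∃ g : X, d = g * a * g⁻¹} := by
    intro s
    by_cases s0 : s = 0
    · rw [s0, mul_zero, z]; exact one_mem _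
    · exact subset_closure ⟨e1 ▸ cm _ _, cj s s0⟩
  obtain ⟨t, rfl⟩ := sj c hc ac
  have e : t = (t + 1) / 2 * ((t + 1) / 2) + -((t - 1) / 2 * ((t - 1) / 2)) := by
    field_simp
    ring
  rw [e, ad, ng]
  exact mul_mem (k _) (inv_mem (k _))

end CL.PT
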