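/- S3235: points and root groups from the hypothesis. -/
import Mathlib
import Cfsg.Agent.CHEV.PT.L2
import Cfsg.Agent.SOLV.Core

set_option autoImplicit false
set_option linter.unusedSectionVars false

namespace CL.PT

open Subgroup
open scoped commutatorElement Pointwise

universe u

variable {p : ℕ} {G : Type u} [Group G] [Finite G] {A₀ : Subgroup G}

/-- generators of members of `D` -/
def S0 (A₀ : Subgroup G) : Set G := {a | InD A₀ (zpowers a)}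

namespace Bas

variable {a b c d e : G}

theorem ord (H : Hyp p A₀) (ha : a ∈ S0 A₀) : orderOf a = p := by
  obtain ⟨g, e⟩ := ha
  rw [← Nat.card_zpowers, e, card_map_of_injective (MulAut.conj g).injective, H.card]

theorem pw (H : Hyp p A₀) (ha : a ∈ S0 A₀) : a ^ p = 1 := ord H ha ▸ pow_orderOf_eq_one a

theorem ne1 (H : Hyp p A₀) (ha : a ∈ S0 A₀) : a ≠ 1 := fun e => by
  have := ord H ha
  rw [e, orderOf_one] at this
  exact H.pr.ne_one this.symm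

theorem cj (ha : a ∈ S0 A₀) (g : G) : g * a * g⁻¹ ∈ S0 A₀ := by
  obtain ⟨k, e⟩ := ha
  exact ⟨g * k, by rw [map_mul, MulAut.mul_def, MulEquiv.toMonoidHom_eq_coe, MulEquiv.coe_monoidHom_trans, ← map_map,
    ← MulEquiv.toMonoidHom_eq_coe, ← MulEquiv.toMonoidHom_eq_coe, ← e, MonoidHom.map_zpowers]; rfl⟩

theorem zp (H : Hyp p A₀) (ha : a ∈ S0 A₀) (hb : b ∈ zpowers a) (b1 : b ≠ 1) : zpowers b = zpowers a := by
  refine eq_of_le_of_card_ge (zpowers_le.2 hb) ?_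
  rw [Nat.card_zpowers, Nat.card_zpowers, ord H ha]
  exact ((H.pr.eq_one_or_self_of_dvd _ (ord H ha ▸ orderOf_dvd_of_mem_zpowers hb)).resolve_left
    (mt orderOf_eq_one_iff.1 b1)).ge

theorem mem_zp (H : Hyp p A₀) (ha : a ∈ S0 A₀) (hb : b ∈ zpowers a) (b1 : b ≠ 1) : b ∈ S0 A₀ := by
  rw [S0, Set.mem_ofPred_eq, zp H ha hb b1]; exact ha

theorem cls (ha : a ∈ S0 A₀) (hb : b ∈ S0 A₀) : ∃ (g : G) (k : ℕ), b = g * a ^ k * g⁻¹ := by
  obtain ⟨g, e⟩ := ha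
  obtain ⟨g', e'⟩ := hb
  obtain ⟨x, hx, q⟩ := e' ▸ mem_zpowers b
  obtain ⟨k, hk⟩ := (mem_powers_iff_mem_zpowers.2 (e ▸ mem_map_of_mem _ hx : (MulAut.conj g).toMonoidHom x ∈ zpowers a))
  exact ⟨g' * g⁻¹, k, by rw [← q, show a ^ k = g * x * g⁻¹ from hk]; simp [mul_assoc]⟩

theorem isl (H : Hyp p A₀) (ha : a ∈ S0 A₀) (hb : b ∈ S0 A₀) (n : ¬ Commute a b) : IsL2 p ↥(zpowers a ⊔ zpowers b) :=
  (H.pair _ _ ha hb).resolve_left fun k => n (k _ (mem_zpowers a) _ (mem_zpowers b))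

theorem ex (H : Hyp p A₀) : ∃ a ∈ S0 A₀, zpowers a = A₀ := by
  have := Fact.mk H.pr
  obtain ⟨a, ha⟩ := (Subgroup.isCyclic_iff_exists_zpowers_eq_top A₀).1 (isCyclic_of_prime_card H.card)
  exact ⟨a, ⟨1, by rw [ha]; ext; simp⟩, ha⟩

theorem gen' (H : Hyp p A₀) {K : Subgroup G} (h : ∀ a ∈ S0 A₀, a ∈ K) : K = ⊤ := by
  obtain ⟨a, ha, e⟩ := ex H
  rw [eq_top_iff, ← H.gen]
  exact iSup_le fun g => by rw [← e, MonoidHom.map_zpowers, zpowers_le]; exact h _ (cj ha g)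

theorem cen (h1 : Commute a e) (h2 : Commute b e) (hc : c ∈ zpowers a ⊔ zpowers b) : Commute c e :=
  mem_centralizer_singleton_iff.1 (sup_le (zpowers_le.2 (mem_centralizer_singleton_iff.2 h1))
    (zpowers_le.2 (mem_centralizer_singleton_iff.2 h2)) hc)

end Bas
open Bas

theorem Hyp.b1 (H : Hyp p A₀) {c w e : G} (hc : c ∈ S0 A₀) (hw : c * w ∈ S0 A₀) (w1 : w ≠ 1) (wp : w ^ p = 1) (cw : Commute c w)
    (he : e ∈ S0 A₀) (we : Commute w e) : Commute c e := by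
  by_contra n
  have cm {x : G} (hx : x ∈ zpowers e ⊔ zpowers c) : Commute x w := cen we.symm cw hx
  have pf := (isl H he hw fun k => n (by simpa using (k.mul_right we.symm.inv_right).symm)).perfect H.pr H.p5
  let M : Subgroup G :=
    { carrier := {g | ∃ x ∈ zpowers e ⊔ zpowers c, ∃ k : ℤ, g = x * w ^ k}
      one_mem' := ⟨1, one_mem _, 0, by simp⟩
      mul_mem' := by
        rintro _ _ ⟨x, hx, k, rfl⟩ ⟨y, hy, l, rfl⟩
        exact ⟨x * y, mul_mem hx hy, k + l, by rw [zpow_add, ((cm hy).zpow_right k).symm.mul_mul_mul_comm]⟩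
      inv_mem' := by
        rintro _ ⟨x, hx, k, rfl⟩
        exact ⟨x⁻¹, inv_mem hx, -k, by rw [mul_inv_rev, zpow_neg, ((cm hx).zpow_right k).inv_inv.eq]⟩ }
  have le : zpowers e ⊔ zpowers (c * w) ≤ M := sup_le (zpowers_le.2 ⟨e, mem_sup_left (mem_zpowers e), 0, by simp⟩)
    (zpowers_le.2 ⟨c, mem_sup_right (mem_zpowers c), 1, by simp⟩)
  have k : ⁅M, M⁆ ≤ zpowers e ⊔ zpowers c := commutator_le.2 (by
    rintro _ ⟨x, hx, k, rfl⟩ _ ⟨y, hy, l, rfl⟩
    have : ⁅x * w ^ k, y * w ^ l⁆ = ⁅x, y⁆ := by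
      rw [commutatorElement_def, mul_assoc (_ * _), ← mul_inv_rev, ((cm hy).zpow_right k).symm.mul_mul_mul_comm,
        ((cm hx).zpow_right l).symm.mul_mul_mul_comm, ← zpow_add, ← zpow_add, add_comm l]
      simp [commutatorElement_def, mul_assoc]
    exact this ▸ mul_mem (mul_mem (mul_mem hx hy) (inv_mem hx)) (inv_mem hy))
  have m : c * w ∈ zpowers e ⊔ zpowers c := by
    refine k (commutator_mono le le ?_)
    rw [← map_subtype_commutator, pf, ← MonoidHom.range_eq_map, range_subtype]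
    exact mem_sup_right (mem_zpowers _)
  have m' : w ∈ zpowers e ⊔ zpowers c := (mul_mem_cancel_left (mem_sup_right (mem_zpowers c))).1 m
  have s : w * w = 1 := congrArg Subtype.val ((isl H he hc fun k => n k.symm).center_sq H.pr H.p5 (z := ⟨w, m'⟩)
    (mem_center_iff.2 fun x => Subtype.ext (cm x.2)))
  obtain ⟨j, hj⟩ := H.pr.odd_of_ne_two (by have := H.p5; omega)
  rw [hj, pow_succ, pow_mul, pow_two, s, one_pow, one_mul] at wp
  exact w1 wp

theorem Hyp.b2 (H : Hyp p A₀) {a b c e : G} (ha : a ∈ S0 A₀) (hb : b ∈ S0 A₀) (n : ¬ Commute a b) (hc : c ∈ zpowers a ⊔ zpowers b)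
    (cp : c ^ p = 1) (ac : Commute a c) (he : e ∈ S0 A₀) (ae : Commute a e) : Commute c e :=
  mem_centralizer_singleton_iff.1 ((isl H ha hb n).syl H.pr H.p5 (a := ⟨a, mem_sup_left (mem_zpowers a)⟩) (Subtype.ext (pw H ha))
    (fun k => ne1 H ha (congrArg Subtype.val k)) ((centralizer {e}).subgroupOf _) (mem_centralizer_singleton_iff.2 ae)
    (fun c w g g' h1 h2 _ _ h3 h4 h5 h6 => mem_centralizer_singleton_iff.2 (H.b1 (w := w) (h1 ▸ cj ha g)
      (show (c * w).1 ∈ _ from h2 ▸ cj ha g') (fun k => h6 (Subtype.ext k)) (congrArg Subtype.val h4) (congrArg Subtype.val h3) he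
      (mem_centralizer_singleton_iff.1 h5))) ⟨c, hc⟩ (Subtype.ext cp) (Subtype.ext ac))

theorem Hyp.perp_eq (H : Hyp p A₀) {a c : G} (ha : a ∈ S0 A₀) (hc : c ∈ S0 A₀) (h : ∀ e ∈ S0 A₀, Commute a e → Commute c e) :
    ∀ e ∈ S0 A₀, Commute c e → Commute a e := by
  obtain ⟨g, k, q⟩ := cls ha hc
  have k1 : a ∈ zpowers (a ^ k) := by
    rw [zp H ha (pow_mem (mem_zpowers a) k) fun o => ne1 H hc (by rw [q, o]; simp)]
    exact mem_zpowers a
  have := Set.eq_of_subset_of_ncard_le (s := {e | e ∈ S0 A₀ ∧ Commute a e}) (t := {e | e ∈ S0 A₀ ∧ Commute c e})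
    (fun e he => ⟨he.1, h e he.1 he.2⟩) (Set.ncard_le_ncard_of_injOn (fun e => g⁻¹ * e * g⁻¹⁻¹) (fun e he => ⟨cj he.1 _, by
      have : Commute (a ^ k) (g⁻¹ * e * g⁻¹⁻¹) := by simpa [q, mul_assoc] using he.2.map (MulAut.conj g⁻¹)
      exact cen this this (mem_sup_left k1)⟩) fun _ _ _ _ o => mul_left_cancel (mul_right_cancel o))
  exact fun e he o => (this.ge ⟨he, o⟩).2

namespace Bas

variable {a b c d e : G}

/-- the root group of `a` -/
def E (A₀ : Subgroup G) (a : G) : Subgroup G := closure {c | c ∈ S0 A₀ ∧ ∀ e ∈ S0 A₀, Commute c e ↔ Commute a e}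

theorem k0 (ha : a ∈ S0 A₀) : a ∈ E A₀ a := subset_closure ⟨ha, fun _ _ => Iff.rfl⟩

theorem k1 (hd : d ∈ E A₀ a) (he : e ∈ S0 A₀) (h : Commute a e) : Commute d e :=
  mem_centralizer_singleton_iff.1 ((closure_le _).2 (fun _ k => mem_centralizer_singleton_iff.2 ((k.2 e he).2 h)) hd)

theorem k2 (H : Hyp p A₀) (ha : a ∈ S0 A₀) (hc : c ∈ S0 A₀) (h : ∀ e ∈ S0 A₀, Commute a e → Commute c e) : c ∈ E A₀ a :=
  subset_closure ⟨hc, fun e he => ⟨H.perp_eq ha hc h e he, h e he⟩⟩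

theorem k3 (H : Hyp p A₀) (ha : a ∈ S0 A₀) (hc : c ∈ S0 A₀) (h : c ∈ E A₀ a) : E A₀ a = E A₀ c := by
  have k : ∀ e ∈ S0 A₀, Commute a e ↔ Commute c e := fun e he =>
    ⟨k1 h he, H.perp_eq ha hc (fun _ => k1 h) e he⟩
  exact congrArg Subgroup.closure (Set.ext fun x => and_congr_right fun _ => forall₂_congr fun e he => iff_congr Iff.rfl (k e he))

theorem k4 (ha : a ∈ S0 A₀) (h : Commute a c) (hd : d ∈ E A₀ a) (he : e ∈ E A₀ c) : Commute d e :=
  (mem_centralizer_singleton_iff.1 ((closure_le _).2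
    (fun _ k => mem_centralizer_singleton_iff.2 (k1 hd k.1 ((k.2 a ha).2 h.symm).symm).symm) he)).symm

theorem k5 (H : Hyp p A₀) (ha : a ∈ S0 A₀) (hd : d ∈ E A₀ a) : d ^ p = 1 := by
  induction hd using closure_induction with
  | mem x hx => exact pw H hx.1
  | one => exact one_pow p
  | mul x y hx hy h1 h2 => rw [(k4 ha (Commute.refl a) hx hy).mul_pow, h1, h2, one_mul]
  | inv x _ h => rw [inv_pow, h, inv_one]

theorem k6 (g : G) (hd : d ∈ E A₀ a) : g * d * g⁻¹ ∈ E A₀ (g * a * g⁻¹) := by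
  have k {x e : G} : Commute (g * x * g⁻¹) e ↔ Commute x (g⁻¹ * e * g⁻¹⁻¹) :=
    ⟨fun h => by simpa [mul_assoc] using h.map (MulAut.conj g⁻¹), fun h => by simpa [mul_assoc] using h.map (MulAut.conj g)⟩
  exact (closure_le ((E A₀ (g * a * g⁻¹)).comap (MulAut.conj g).toMonoidHom)).2 (fun c hc => subset_closure ⟨cj hc.1 g,
    fun e he => k.trans ((hc.2 _ (cj he _)).trans k.symm)⟩) hd

/-- the points -/
def Pt (A₀ : Subgroup G) : Type u := {x : Subgroup G // ∃ a ∈ S0 A₀, x = E A₀ a}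

theorem smul_E (g a : G) : MulAut.conj g • E A₀ a = E A₀ (g * a * g⁻¹) := by
  ext x
  rw [mem_pointwise_smul_iff_inv_smul_mem]
  exact ⟨fun h => by simpa [mul_assoc] using k6 g h, fun h => by simpa [mul_assoc] using k6 g⁻¹ h⟩

instance : MulAction G (Pt A₀) where
  smul g x := ⟨MulAut.conj g • x.1, let ⟨a, ha, e⟩ := x.2; ⟨_, cj ha g, e ▸ smul_E g a⟩⟩
  one_smul x := Subtype.ext (show MulAut.conj (1 : G) • x.1 = x.1 by simp)
  mul_smul g h x := Subtype.ext (show MulAut.conj (g * h) • x.1 = MulAut.conj g • MulAut.conj h • x.1 by rw [map_mul, mul_smul])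

theorem mem_smul {g : G} {x : Pt A₀} : a ∈ (g • x).1 ↔ g⁻¹ * a * g ∈ x.1 :=
  mem_pointwise_smul_iff_inv_smul_mem.trans (by simp)

theorem cj_mem (g : G) {x : Pt A₀} (h : a ∈ x.1) : g * a * g⁻¹ ∈ (g • x).1 := mem_smul.2 (by simpa [mul_assoc] using h)

theorem pt (H : Hyp p A₀) {x : Pt A₀} (ha : a ∈ S0 A₀ ∧ a ∈ x.1) : x.1 = E A₀ a :=
  let ⟨_, hb, e⟩ := x.2
  e.trans (k3 H hb ha.1 (e ▸ ha.2))

theorem exS (x : Pt A₀) : ∃ a, a ∈ S0 A₀ ∧ a ∈ x.1 := let ⟨a, ha, e⟩ := x.2; ⟨a, ha, e ▸ k0 ha⟩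

theorem prp (H : Hyp p A₀) {x z : Pt A₀} (ha : a ∈ S0 A₀ ∧ a ∈ x.1) (hc : c ∈ S0 A₀ ∧ c ∈ z.1) (h : Commute a c) :
    ∀ d ∈ x.1, ∀ e ∈ z.1, Commute d e := fun _ hd _ he => k4 ha.1 h (pt H ha ▸ hd) (pt H hc ▸ he)

theorem faith' (H : Hyp p A₀) (g : G) (h : ∀ x : Pt A₀, g • x = x) : g = 1 := by
  have := Fact.mk H.pr
  let N := (MulAction.toPermHom G (Pt A₀)).ker
  have mN {n : G} (hn : n ∈ N) (x : Pt A₀) : n • x = x := congrArg (· x) (MonoidHom.mem_ker.1 hn)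
  have k (x : Pt A₀) : N ⊓ x.1 ≤ ⊥ := by
    obtain ⟨a, ha, e⟩ := x.2
    rw [← H.sol (Cfsg.pCore p G) inferInstance (haveI := (isPGroup_pCore p G).isNilpotent; inferInstance)]
    refine (le_map_pCore inf_le_left (fun n hn => mem_normalizer_fintype fun y hy => ⟨N.mul_mem (N.mul_mem hn hy.1) (N.inv_mem hn),
      mN hn x ▸ cj_mem n hy.2⟩) fun y => ⟨1, Subtype.ext ?_⟩).trans (map_pCore_le_of_isSubnormal (Normal.isSubnormal inferInstance))
    rw [pow_one]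
    exact k5 H ha (e ▸ y.2.2)
  have c : N ≤ center G := fun n hn => by
    refine centralizer_eq_top_iff_subset.1 (gen' H (K := centralizer {n}) fun a ha => ?_) rfl
    refine mem_centralizer_singleton_iff.2 (commutatorElement_eq_one_iff_mul_comm.1 (mem_bot.1 (k ⟨_, a, ha, rfl⟩ ⟨?_, ?_⟩)))
    · exact N.mul_mem (Normal.conj_mem inferInstance n hn a) (N.inv_mem hn)
    · rw [commutatorElement_def, mul_assoc, mul_assoc, ← mul_assoc n]
      exact mul_mem (k0 ha) (mN hn ⟨_, a, ha, rfl⟩ ▸ cj_mem n (inv_mem (k0 ha)))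
  exact mem_bot.1 (H.sol (center G) inferInstance (Group.isSolvable_of_comm fun a b => Subtype.ext (mem_center_iff.1 b.2 a)) ▸ c (Equiv.ext h))

end Bas

theorem Hyp.exists_br (H : Hyp p A₀) : ∃ (P : Type u) (_ : MulAction G P) (_ : Finite P), Nonempty (Br p G P) := by
  have nc {x y : Pt A₀} {a b : G} (o : ¬ ∀ d ∈ x.1, ∀ e ∈ y.1, Commute d e) (ha : a ∈ S0 A₀ ∧ a ∈ x.1) (hb : b ∈ S0 A₀ ∧ b ∈ y.1) :
    ¬ Commute a b := fun k => o (prp H ha hb k)
  refine ⟨Pt A₀, inferInstance, Subtype.finite, ⟨{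
    perp := fun x z => ∀ d ∈ x.1, ∀ e ∈ z.1, Commute d e
    E := fun x => x.1
    pr := H.pr
    p5 := H.p5
    refl := fun x => let ⟨a, ha⟩ := exS x; prp H ha ha (Commute.refl a)
    symm := fun h d hd e he => (h e he d hd).symm
    smul := fun g _ _ h d hd e he => by simpa [mul_assoc] using (h _ (mem_smul.1 hd) _ (mem_smul.1 he)).map (MulAut.conj g)
    Econj := fun g _ _ h => cj_mem g h
    Ecomm := fun h ha hc => h _ ha _ hc
    Efix := fun {x z a} h ha => Subtype.ext (eq_of_le_of_card_ge (fun d hd => ?_) ?_).symm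
    Epow := fun {x _} h => let ⟨_, hb, e⟩ := x.2; k5 H hb (e ▸ h)
    Ene := fun x => let ⟨a, ha⟩ := exS x; ⟨a, ha.2, ne1 H ha.1⟩
    gen := gen' H fun a ha => mem_iSup_of_mem (⟨_, a, ha, rfl⟩ : Pt A₀) (k0 ha)
    faith := faith' H
    nd := fun {x z} n => ?_
    trans := fun x y => ?_
    ne := let ⟨a, ha, _⟩ := ex H; ⟨⟨_, a, ha, rfl⟩⟩
    S := fun x => {a | a ∈ S0 A₀ ∧ a ∈ x.1}
    S_E := fun h => h.2
    S_ne := fun h => ne1 H h.1
    S_ex := exS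
    S_gen := fun x => le_antisymm ?_ ((closure_le _).2 fun _ h => h.2)
    S_conj := fun g _ _ h => ⟨cj h.1 g, cj_mem g h.2⟩
    S_zpow := fun h k => ⟨mem_zp H h.1 (zpow_mem (mem_zpowers _) _) k, zpow_mem h.2 _⟩
    S_cls := fun ha hb => cls ha.1 hb.1
    S_perp := prp H
    partner := fun {x y a} o ha => ?_
    b1 := fun hc hw w1 wp cw he we => prp H he hc (H.b1 hc.1 hw.1 w1 wp cw he.1 we).symm
    l2 := fun o ha hb => isl H ha.1 hb.1 (nc o ha hb)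
    syl := fun {x y a b c} o ha hb hc cp ac => ?_
    sol := H.sol }⟩⟩
  · exact mem_smul.2 (by rw [mul_assoc, ← (h a ha d hd).eq, inv_mul_cancel_left]; exact hd)
  · exact (card_map_of_injective (MulAut.conj a).injective).le
  · by_contra! k
    obtain ⟨a, ha⟩ := exS x
    obtain ⟨c, hc⟩ := exS z
    have := k2 H ha.1 hc.1 fun e he o => k ⟨_, e, he, rfl⟩ (prp H ha ⟨he, k0 he⟩ o) c hc.2 e (k0 he)
    exact n (Subtype.ext ((pt H ⟨hc.1, pt H ha ▸ this⟩).trans (pt H hc).symm))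
  · obtain ⟨a, ha⟩ := exS x
    obtain ⟨b, hb⟩ := exS y
    obtain ⟨g, k, q⟩ := cls ha.1 hb.1
    exact ⟨g, Subtype.ext ((pt H ⟨hb.1, q ▸ cj_mem g (pow_mem ha.2 k)⟩).trans (pt H hb).symm)⟩
  · obtain ⟨a, ha, e⟩ := x.2
    exact e.le.trans (closure_mono fun c hc => ⟨hc.1, e ▸ subset_closure hc⟩)
  · obtain ⟨b, hb⟩ := exS y
    have n := nc o ha hb
    obtain ⟨c, h1, h2, h3⟩ := (isl H ha.1 hb.1 n).partner H.pr H.p5 (a := ⟨a, mem_sup_left (mem_zpowers a)⟩)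
      (b := ⟨b, mem_sup_right (mem_zpowers b)⟩) (Subtype.ext (pw H ha.1)) (Subtype.ext (pw H hb.1)) fun k => n (congrArg Subtype.val k)
    have e : a * c * a = c * a * c := congrArg Subtype.val h2
    have m : (c : G) ∈ S0 A₀ := by simpa [e, mul_assoc] using cj ha.1 (a * c)
    exact ⟨c, ⟨m, pt H hb ▸ k2 H hb.1 m fun e he => H.b2 hb.1 ha.1 (fun k => n k.symm) (sup_comm (zpowers a) _ ▸ c.2) (pw H m)
      (congrArg Subtype.val h1) he⟩, e, congrArg Subtype.val h3⟩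
  · have n := nc o ha hb
    refine (closure_le (x.1.subgroupOf _)).2 ?_ ((isl H ha.1 hb.1 n).syl_gen H.pr H.p5 (a := ⟨a, mem_sup_left (mem_zpowers a)⟩)
      (c := ⟨c, hc⟩) (Subtype.ext (pw H ha.1)) (fun k => ne1 H ha.1 (congrArg Subtype.val k)) (Subtype.ext cp) (Subtype.ext ac))
    rintro d ⟨h1, g, h2⟩
    have m : (d : G) ∈ S0 A₀ := h2 ▸ cj ha.1 g
    exact show d.1 ∈ x.1 from pt H ha ▸ k2 H ha.1 m fun e he => H.b2 ha.1 hb.1 n d.2 (pw H m) (congrArg Subtype.val h1) he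

end CL.PT
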