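/- S3235: chains of three root elements. -/
import Mathlib
import Cfsg.Agent.CHEV.PT.Defs

set_option autoImplicit false

namespace CL.PT

open Subgroup

section alg

variable {G : Type*} [Group G] {a b c : G}

/-- `u = a c⁻¹`, `v = b u b⁻¹`, `ζ = v u⁻¹ v⁻¹ u`, `i = (a b)³`, `n = a b a` -/
structure Ch (a b c : G) : Prop where
  ab : a * b * a = b * a * b
  cb : c * b * c = b * c * b
  ac : Commute a c
  six : (a * b) ^ 6 = 1

/-- the commutator -/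
def zt (a b c : G) : G := (b * (a * c⁻¹) * b⁻¹) * (a * c⁻¹)⁻¹ * (b * (a * c⁻¹) * b⁻¹)⁻¹ * (a * c⁻¹)

theorem braid_cj (h : a * b * a = b * a * b) : a⁻¹ * b * a = b * a * b⁻¹ := by
  calc _ = a⁻¹ * (b * a * b) * b⁻¹ := by group
    _ = _ := by rw [← h]; group

theorem braid_cj' (h : a * b * a = b * a * b) : a⁻¹ * b⁻¹ * a = b * a⁻¹ * b⁻¹ := by
  calc _ = (a⁻¹ * b * a)⁻¹ := by group
    _ = _ := by rw [braid_cj h]; group

theorem Ch.au (h : Ch a b c) : Commute a (a * c⁻¹) := (Commute.refl a).mul_right h.ac.inv_right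

theorem Ch.av (h : Ch a b c) : a * (b * (a * c⁻¹) * b⁻¹) * a⁻¹ = (b * (a * c⁻¹) * b⁻¹) * (a * c⁻¹)⁻¹ := by
  calc _ = (a * b * a) * c⁻¹ * b⁻¹ * a⁻¹ := by group
    _ = b * a * (b * c⁻¹ * b⁻¹) * a⁻¹ := by rw [h.ab]; group
    _ = _ := by rw [← braid_cj' h.cb]; group

theorem Ch.bv (h : Ch a b c) : b * (b * (a * c⁻¹) * b⁻¹) * b⁻¹ =
    (b * (a * c⁻¹) * b⁻¹) * (a * c⁻¹)⁻¹ * (b * (a * c⁻¹) * b⁻¹) := by
  symm
  calc _ = b * a * (c⁻¹ * b⁻¹ * c) * (a⁻¹ * b * a) * c⁻¹ * b⁻¹ := by group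
    _ = b * a * b * (c⁻¹ * a) * b⁻¹ * c⁻¹ * b⁻¹ * (b * b⁻¹) := by rw [braid_cj' h.cb, braid_cj h.ab]; group
    _ = b * (a * b * a) * (c * b * c)⁻¹ * b⁻¹ := by rw [← h.ac.inv_right.eq]; group
    _ = _ := by rw [h.ab, h.cb]; group

theorem Ch.au' (h : Ch a b c) : a * (a * c⁻¹) * a⁻¹ = a * c⁻¹ := by rw [h.au.eq]; group

theorem comm_of_cj {x g : G} (e : g * x * g⁻¹ = x) : Commute x g := by
  rw [Commute, SemiconjBy]
  calc x * g = g * x * g⁻¹ * g := by rw [e]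
    _ = _ := by group

theorem Ch.zt_a (h : Ch a b c) : Commute (zt a b c) a := by
  refine comm_of_cj ?_
  calc _ = (a * (b * (a * c⁻¹) * b⁻¹) * a⁻¹) * (a * (a * c⁻¹) * a⁻¹)⁻¹ * (a * (b * (a * c⁻¹) * b⁻¹) * a⁻¹)⁻¹ *
        (a * (a * c⁻¹) * a⁻¹) := by unfold zt; group
    _ = _ := by rw [h.av, h.au']; unfold zt; group

theorem Ch.zt_b (h : Ch a b c) : Commute (zt a b c) b := by
  refine comm_of_cj ?_
  calc _ = (b * (b * (a * c⁻¹) * b⁻¹) * b⁻¹) * (b * (a * c⁻¹) * b⁻¹)⁻¹ * (b * (b * (a * c⁻¹) * b⁻¹) * b⁻¹)⁻¹ *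
        (b * (a * c⁻¹) * b⁻¹) := by unfold zt; group
    _ = _ := by rw [h.bv]; unfold zt; group

theorem braid_sq (h : a * b * a = b * a * b) : (a * b * a) * (a * b * a) = (a * b) ^ 3 := by
  calc _ = (a * b * a) * (b * a * b) := by rw [← h]
    _ = _ := by simp only [pow_succ, pow_zero]; group

theorem braid_ib (h : a * b * a = b * a * b) : Commute ((a * b) ^ 3) b := by
  rw [← braid_sq h, Commute, SemiconjBy]
  calc _ = a * b * a * a * (b * a * b) := by group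
    _ = (a * b * a) * a * (a * b * a) := by rw [← h]
    _ = b * (a * b * a) * (a * b * a) := by nth_rw 1 [h]; group
    _ = _ := by group

theorem braid_ia (h : a * b * a = b * a * b) : Commute ((a * b) ^ 3) a := by
  rw [← braid_sq h, h, braid_sq h.symm]
  exact braid_ib h.symm

theorem Ch.iu (h : Ch a b c) : (a * b) ^ 3 * (a * c⁻¹) * ((a * b) ^ 3)⁻¹ = zt a b c * (a * c⁻¹)⁻¹ := by
  have nu : (a * b * a) * (a * c⁻¹) * (a * b * a)⁻¹ = (b * (a * c⁻¹) * b⁻¹) * (a * c⁻¹)⁻¹ := by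
    calc _ = a * (b * (a * (a * c⁻¹) * a⁻¹) * b⁻¹) * a⁻¹ := by group
      _ = _ := by rw [h.au', h.av]
  have nv : (a * b * a) * (b * (a * c⁻¹) * b⁻¹) * (a * b * a)⁻¹ = (b * (a * c⁻¹) * b⁻¹) * (a * c⁻¹)⁻¹ * (a * c⁻¹)⁻¹ := by
    calc _ = a * (b * (a * (b * (a * c⁻¹) * b⁻¹) * a⁻¹) * b⁻¹) * a⁻¹ := by group
      _ = a * ((b * (b * (a * c⁻¹) * b⁻¹) * b⁻¹) * (b * (a * c⁻¹) * b⁻¹)⁻¹) * a⁻¹ := by rw [h.av]; group
      _ = (a * (b * (a * c⁻¹) * b⁻¹) * a⁻¹) * (a * (a * c⁻¹) * a⁻¹)⁻¹ := by rw [h.bv]; group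
      _ = _ := by rw [h.av, h.au']
  rw [← braid_sq h.ab]
  calc _ = (a * b * a) * ((a * b * a) * (a * c⁻¹) * (a * b * a)⁻¹) * (a * b * a)⁻¹ := by group
    _ = (a * b * a) * ((b * (a * c⁻¹) * b⁻¹) * (a * c⁻¹)⁻¹) * (a * b * a)⁻¹ := by rw [nu]
    _ = ((a * b * a) * (b * (a * c⁻¹) * b⁻¹) * (a * b * a)⁻¹) * ((a * b * a) * (a * c⁻¹) * (a * b * a)⁻¹)⁻¹ := by group
    _ = _ := by rw [nu, nv]; unfold zt; group

theorem Ch.zt_u (h : Ch a b c) : Commute (zt a b c) (a * c⁻¹) := by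
  have zi : Commute (zt a b c) ((a * b) ^ 3) := (h.zt_a.mul_right h.zt_b).pow_right 3
  have ii : (a * b) ^ 3 * (a * b) ^ 3 = 1 := by rw [← pow_add]; exact h.six
  have iu := h.iu
  generalize (a * b) ^ 3 = i at zi ii iu
  refine (comm_of_cj ?_).symm
  calc _ = zt a b c * (zt a b c * (a * c⁻¹)⁻¹)⁻¹ := by group
    _ = (i * zt a b c * i⁻¹) * (i * (a * c⁻¹) * i⁻¹)⁻¹ := by
      rw [iu, ← zi.eq, mul_inv_cancel_right]
    _ = i * (zt a b c * (a * c⁻¹)⁻¹) * i⁻¹ := by group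
    _ = (i * i) * (a * c⁻¹) * (i * i)⁻¹ := by rw [← iu]; group
    _ = _ := by rw [ii]; group

theorem Ch.zt_c (h : Ch a b c) : Commute (zt a b c) c := by
  have := h.zt_u.inv_right.mul_right h.zt_a
  rwa [show (a * c⁻¹)⁻¹ * a = c by group] at this

/-- `a₋₁` -/
theorem Ch.ic (h : Ch a b c) : (a * b) ^ 3 * c * ((a * b) ^ 3)⁻¹ = a * (a * c⁻¹) * (zt a b c)⁻¹ := by
  have iu := h.iu
  have ia := braid_ia h.ab
  generalize (a * b) ^ 3 = i at ia iu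
  calc _ = (i * (a * c⁻¹) * i⁻¹)⁻¹ * (i * a) * i⁻¹ := by group
    _ = (a * c⁻¹) * ((zt a b c)⁻¹ * a) := by rw [iu, ia.eq]; group
    _ = ((a * c⁻¹) * a) * (zt a b c)⁻¹ := by rw [h.zt_a.inv_left.eq]; group
    _ = _ := by rw [← h.au.eq]

/-- `a₁ = c` -/
theorem Ch.va (h : Ch a b c) : (b * (a * c⁻¹) * b⁻¹)⁻¹ * a * (b * (a * c⁻¹) * b⁻¹) = c := by
  calc _ = (b * (a * c⁻¹) * b⁻¹)⁻¹ * (a * (b * (a * c⁻¹) * b⁻¹) * a⁻¹) * a := by group
    _ = _ := by rw [h.av]; group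

/-- `a₂` -/
theorem Ch.vc (h : Ch a b c) :
    (b * (a * c⁻¹) * b⁻¹)⁻¹ * c * (b * (a * c⁻¹) * b⁻¹) = a * (a * c⁻¹)⁻¹ * (a * c⁻¹)⁻¹ * (zt a b c)⁻¹ := by
  have zv : Commute (zt a b c) (b * (a * c⁻¹) * b⁻¹) := (h.zt_b.mul_right h.zt_u).mul_right h.zt_b.inv_right
  have zu := h.zt_u
  have za := h.zt_a
  have au := h.au
  have va := h.va
  have cu : c = (a * c⁻¹)⁻¹ * a := by group
  have zd : zt a b c = (b * (a * c⁻¹) * b⁻¹) * (a * c⁻¹)⁻¹ * (b * (a * c⁻¹) * b⁻¹)⁻¹ * (a * c⁻¹) := rfl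
  generalize b * (a * c⁻¹) * b⁻¹ = v at zv va zd
  generalize zt a b c = ζ at zv zu za zd
  generalize a * c⁻¹ = u at zu au cu zd
  have e : v⁻¹ * u⁻¹ * v = ζ⁻¹ * u⁻¹ := by
    calc _ = ζ⁻¹ * (ζ * v⁻¹) * u⁻¹ * v := by group
      _ = ζ⁻¹ * v⁻¹ * (ζ * u⁻¹) * v := by rw [zv.inv_right.eq]; group
      _ = _ := by nth_rw 2 [zd]; group
  calc _ = (v⁻¹ * u⁻¹ * v) * (v⁻¹ * a * v) := by rw [cu]; group
    _ = ζ⁻¹ * (u⁻¹ * u⁻¹ * a) := by rw [e, va, cu]; group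
    _ = (u⁻¹ * u⁻¹ * a) * ζ⁻¹ := ((zu.inv_right.mul_right zu.inv_right).mul_right za).inv_left.eq
    _ = _ := by rw [← (au.inv_right.mul_right au.inv_right).eq]; group

end alg

variable {p : ℕ} {G P : Type*} [Group G] [MulAction G P] (h : Br p G P)

theorem Br.S_inj {x z : P} {a : G} (ha : a ∈ h.S x) (hz : a ∈ h.S z) : x = z := by
  by_contra n
  obtain ⟨t, o, k⟩ := h.nd n
  obtain ⟨e, he⟩ := h.S_ex t
  exact k (h.S_perp hz he (h.Ecomm o (h.S_E ha) (h.S_E he)))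

theorem Br.b_x {x y : P} {a b : G} (ha : a ∈ h.S x) (hb : b ∈ h.S y) (e : a * b * a = b * a * b) : b • x = a⁻¹ • y := by
  have k := h.S_conj a⁻¹ hb
  rw [inv_inv, braid_cj e] at k
  exact h.S_inj (h.S_conj b ha) k

theorem Br.a_y {x y : P} {a b : G} (ha : a ∈ h.S x) (hb : b ∈ h.S y) (e : a * b * a = b * a * b) : a • y = b⁻¹ • x :=
  h.b_x hb ha e.symm

theorem Br.n_x {x y : P} {a b : G} (ha : a ∈ h.S x) (hb : b ∈ h.S y) (e : a * b * a = b * a * b) : (a * b * a) • x = y := by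
  rw [mul_smul, mul_smul, h.Efix (h.refl x) (h.S_E ha), h.b_x ha hb e, smul_inv_smul]

theorem Br.n_y {x y : P} {a b : G} (ha : a ∈ h.S x) (hb : b ∈ h.S y) (e : a * b * a = b * a * b) : (a * b * a) • y = x := by
  rw [e]; exact h.n_x hb ha e.symm

/-- an element of `E x ⊔ E y` exchanging opposite points -/
theorem Br.swap {x y : P} (o : ¬ h.perp x y) : ∃ n ∈ h.E x ⊔ h.E y, n • x = y ∧ n • y = x := by
  obtain ⟨a, ha⟩ := h.S_ex x
  obtain ⟨b, hb, e, -⟩ := h.partner o ha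
  have a1 : a ∈ h.E x ⊔ h.E y := mem_sup_left (h.S_E ha)
  exact ⟨_, mul_mem (mul_mem a1 (mem_sup_right (h.S_E hb))) a1, h.n_x ha hb e, h.n_y ha hb e⟩

theorem cube_ne {u : G} (pr : p.Prime) (p5 : 5 ≤ p) (n : u ≠ 1) (e : u ^ p = 1) : u ^ 3 ≠ 1 := fun k => by
  have := Fact.mk pr
  have := Nat.le_of_dvd (by norm_num) (orderOf_eq_prime e n ▸ orderOf_dvd_of_pow_eq_one k)
  omega

theorem Br.third {x y z : P} {a b : G} (xz : h.perp x z) (n : z ≠ x) (yz : ¬ h.perp y z) (ha : a ∈ h.S x) (hb : b ∈ h.S y)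
    (e : a * b * a = b * a * b) (six : (a * b) ^ 6 = 1) :
    h.col x z ((a * b) ^ 3 • z) ∧ h.col x ((a * b) ^ 3 • z) z ∧ h.col z ((a * b) ^ 3 • z) x ∧
      (a * b) ^ 3 • z ≠ z ∧ (a * b) ^ 3 • z ≠ x := by
  obtain ⟨c, hc, cb, -⟩ := h.partner yz hb
  have ac := h.Ecomm xz (h.S_E ha) (h.S_E hc)
  have k : Ch a b c := ⟨e, cb.symm, ac, six⟩
  have ap := h.Epow (h.S_E ha)
  have cp := h.Epow (h.S_E hc)
  have u1 : a * c⁻¹ ≠ 1 := fun k => n (h.S_inj hc (by rw [← mul_inv_eq_one.1 k]; exact ha))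
  have up : (a * c⁻¹) ^ p = 1 := by rw [ac.inv_right.mul_pow, inv_pow, ap, cp]; simp
  have vp : (b * (a * c⁻¹) * b⁻¹) ^ p = 1 := by rw [conj_pow, up]; simp
  have ii : (a * b) ^ 3 * (a * b) ^ 3 = 1 := by rw [← pow_add]; exact six
  have m1 := h.S_conj ((a * b) ^ 3) hc
  have m2 := h.S_conj (b * (a * c⁻¹) * b⁻¹)⁻¹ hc
  have m3 := h.S_conj (b * (a * c⁻¹) * b⁻¹)⁻¹ ha
  have ix : (a * b) ^ 3 • x = x := by
    have := h.S_conj ((a * b) ^ 3) ha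
    rw [(braid_ia e).eq, mul_inv_cancel_right] at this
    exact h.S_inj this ha
  rw [k.ic] at m1
  rw [inv_inv, k.vc] at m2
  rw [inv_inv, k.va] at m3
  have zx := h.S_inj hc m3
  have zu := k.zt_u
  have za := k.zt_a
  have zc := k.zt_c
  have au := k.au
  have cu : Commute c (a * c⁻¹) := ac.symm.mul_right (Commute.refl c).inv_right
  have uc : (a * c⁻¹) ^ 3 = a ^ 3 * (c ^ 3)⁻¹ := by rw [ac.inv_right.mul_pow, inv_pow]
  have eu : ∀ {t e}, h.perp t x → h.perp t z → e ∈ h.S t → Commute (a * c⁻¹) e := fun o o' he =>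
    (h.Ecomm (h.symm o) (h.S_E ha) (h.S_E he)).mul_left (h.Ecomm (h.symm o') (h.S_E hc) (h.S_E he)).inv_left
  generalize b * (a * c⁻¹) * b⁻¹ = v at vp m2 zx
  generalize zt a b c = ζ at zu za zc m1 m2
  generalize a * c⁻¹ = u at zu au cu m1 m2 u1 up uc eu
  generalize (a * b) ^ 3 = i at ii m1 ix
  have mu : Commute (a * u * ζ⁻¹) u := (au.mul_left (Commute.refl u)).mul_left zu.inv_left
  have e1 : a * u * ζ⁻¹ * (u ^ 3)⁻¹ = a * u⁻¹ * u⁻¹ * ζ⁻¹ := by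
    rw [mul_assoc, (zu.pow_right 3).inv_inv.eq]; group
  have c1 : h.col x z (i • z) := fun t o o' => by
    obtain ⟨e, he⟩ := h.S_ex t
    exact h.b1 m1 (e1 ▸ m2) (inv_ne_one.2 (cube_ne h.pr h.p5 u1 up)) (by rw [inv_pow, ← pow_mul, mul_comm, pow_mul, up]; simp)
      (mu.pow_right 3).inv_right he ((eu o o' he).pow_left 3).inv_left
  have c2 : h.col x (i • z) z := by
    have := (h.col_smul i).2 c1
    rwa [ix, ← mul_smul, ii, one_smul] at this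
  have a3 : (a ^ 3)⁻¹ ∈ h.S x := by
    have := h.S_zpow (k := -3) ha (by
      rw [zpow_neg]; exact inv_ne_one.2 (by exact_mod_cast cube_ne h.pr h.p5 (h.S_ne ha) ap))
    rw [zpow_neg] at this
    exact_mod_cast this
  have cm : Commute c (a * u * ζ⁻¹) := (ac.symm.mul_right cu).mul_right zc.symm.inv_right
  have e2 : (a ^ 3)⁻¹ * (c ^ 3 * (a * u * ζ⁻¹)) = a * u⁻¹ * u⁻¹ * ζ⁻¹ := by
    rw [← e1, (mu.pow_right 3).inv_right.eq, uc, mul_inv_rev, inv_inv, ← mul_assoc, ← (ac.pow_pow 3 3).inv_left.eq]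
  have w1 : c ^ 3 * (a * u * ζ⁻¹) ≠ 1 := fun w => by
    rw [w, mul_one] at e2
    have f : v⁻¹ • z = x := h.S_inj m2 (e2 ▸ a3)
    obtain ⟨m, hm⟩ := h.pr.odd_of_ne_two (by have := h.p5; omega)
    have f2 : (v⁻¹ ^ 2) ∈ MulAction.stabilizer G x := by
      rw [MulAction.mem_stabilizer_iff, pow_two, mul_smul, ← zx, f]
    have f3 : v⁻¹ ^ (2 * (m + 1)) = v⁻¹ := by
      rw [show 2 * (m + 1) = p + 1 by omega, pow_succ, inv_pow, vp]; simp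
    have f4 := pow_mem f2 (m + 1)
    rw [← pow_mul, f3] at f4
    exact n (zx.trans f4)
  have c3 : h.col z (i • z) x := fun t o o' => by
    obtain ⟨e, he⟩ := h.S_ex t
    refine h.b1 a3 (e2 ▸ m2) w1 ?_ ?_ he ?_
    · rw [(cm.pow_left 3).mul_pow, ← pow_mul, mul_comm 3, pow_mul, cp, h.Epow (h.S_E m1)]; simp
    · exact (((ac.pow_right 3).mul_right (((Commute.refl a).mul_right au).mul_right za.symm.inv_right)).pow_left 3).inv_left
    · exact ((h.Ecomm (h.symm o) (h.S_E hc) (h.S_E he)).pow_left 3).mul_left (h.Ecomm (h.symm o') (h.S_E m1) (h.S_E he))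
  refine ⟨c1, c2, c3, fun w => ?_, fun w => n (smul_left_cancel i (w.trans ix.symm))⟩
  rw [w] at c3
  obtain ⟨t, o, o'⟩ := h.nd n
  exact o' (h.symm (c3 t (h.symm o) (h.symm o)))

end CL.PT
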