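/- S3235: geometry of the polar space. -/
import Mathlib
import Cfsg.Agent.CHEV.PT.Defs

set_option autoImplicit false
set_option linter.unusedSectionVars false
set_option linter.unusedVariables false

namespace CL.PT

open Subgroup

variable {p : ℕ} {G P : Type*} [Group G] [MulAction G P] [Finite G] [Finite P]
 (h : Geo0 p G P)

namespace Geo0

/-- a point perpendicular to two points of a line is perpendicular to all (`two`) -/
theorem all {x z w w' u t : P} (o : h.perp x z) (n : x ≠ z) (c : h.col x z w) (c' : h.col x z w') (d : w ≠ w') (a : h.perp t w)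
    (a' : h.perp t w') (cu : h.col x z u) : h.perp t u :=
  let ⟨k, l⟩ := h.two o n c c' d
  cu t (k t a a') (l t a a')
theorem col_iff {x z w u : P} (o : h.perp x z) (n : x ≠ z) (c : h.col x z w) (d : w ≠ x) : h.col x w u ↔ h.col x z u :=
  ⟨(h.col_left x z).trans c, fun cu _ a b => h.all o n (h.col_left x z) c d.symm a b cu⟩
/-- the point of a line on `x` perpendicular to `y` is unique -/
theorem uniq {x z y r r' : P} (o : h.perp x z) (n : x ≠ z) (xy : ¬ h.perp x y) (c : h.col x z r) (c' : h.col x z r')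
    (a : h.perp y r) (a' : h.perp y r') : r = r' :=
  by_contra fun d => xy (h.symm (h.all o n c c' d a a' (h.col_left x z)))
/-- projection of `q` to the line `a b` -/
theorem prj {a b q : P} (o : h.perp a b) (n : a ≠ b) (k : ¬ h.perp q a) : ∃ s, h.col a b s ∧ h.perp q s ∧ h.col a s b :=
  let ⟨s, c, d⟩ := h.one o n q
  ⟨s, c, d, (h.two o n (h.col_left a b) c fun e => k (e ▸ d)).2⟩
theorem exists_opp (x : P) : ∃ y, ¬ h.perp x y :=
  let ⟨_, _, n⟩ := h.nb x
  let ⟨t, _, k⟩ := h.nd n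
  ⟨t, k⟩
/-- (T) `t ⊥ y` opposite `y'` (`nd`), `s` the point of the line `y t` perpendicular to `x` -/
theorem sep {x y y' : P} (o : h.perp y y') (n : y ≠ y') (xy : ¬ h.perp x y) : ∃ s, h.perp x s ∧ h.perp y s ∧ ¬ h.perp y' s := by
  obtain ⟨t, a, b⟩ := h.nd n
  obtain ⟨s, c, d, e⟩ := h.prj a (fun e => b (e ▸ h.symm o)) xy
  exact ⟨s, d, c.perp_left a, fun k => b (e _ (h.symm o) k)⟩
theorem sg_ex {x y : P} (xy : ¬ h.perp x y) : ∃ r, h.perp x r ∧ h.perp y r := by
  obtain ⟨z, o, n⟩ := h.nb y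
  obtain ⟨s, c, d, -⟩ := h.prj o n.symm xy
  exact ⟨s, d, c.perp_left o⟩
/-- `t ⊥ x` opposite `r`, `s` the point of the line `x t` perpendicular to `y` -/
theorem sg_opp {x y r : P} (xy : ¬ h.perp x y) (a : h.perp x r) : r ≠ x → ∃ s, h.perp x s ∧ h.perp y s ∧ ¬ h.perp r s := fun n =>
  let ⟨s, b, c, d⟩ := h.sep a n.symm fun e => xy (h.symm e)
  ⟨s, c, b, d⟩
/-- If `r` is opposite `r'` take `t = r`.  Else `t₀ ⊥ r` opposite `r'`.  First get `t₁ ⊥ x, r` opposite `r'`: if `t₀` is opposite `x`, let `u` be the point of the line `y r'` perpendicular to `t₀` (`u ≠ r'`, `u ⊥ r, r'`, `u` opposite `x`; if `u = t₀`.. impossible as `u ⊥ r'`),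
`t₁` the point of the line `t₀ u` perpendicular to `x`.  Then `t` = the point of the line `x t₁` perpendicular to `y`. -/
theorem sg_nd {x y r r' : P} (xy : ¬ h.perp x y) (a : h.perp x r) (b : h.perp y r) (a' : h.perp x r') (b' : h.perp y r') (n : r ≠ r') :
    ∃ t, h.perp x t ∧ h.perp y t ∧ h.perp r t ∧ ¬ h.perp r' t := by
  by_cases o : h.perp r' r
  swap
  · exact ⟨r, a, b, h.refl r, o⟩
  obtain ⟨t₁, k1, k2, k3⟩ : ∃ t, h.perp x t ∧ h.perp r t ∧ ¬ h.perp r' t := by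
    obtain ⟨t₀, l1, l2⟩ := h.nd n
    by_cases l3 : h.perp x t₀
    · exact ⟨t₀, l3, l1, l2⟩
    obtain ⟨u, c, d, e⟩ := h.prj (h.symm b') (fun e => xy (e ▸ a')) fun e => l2 (h.symm e)
    have m := c.perp_left (h.symm b')
    obtain ⟨t, c', d', e'⟩ := h.prj (h.symm d) (fun e => l2 (e ▸ m)) fun k => xy (e _ a' k)
    exact ⟨t, d', c' _ (c _ (h.symm o) (h.symm b)) l1, fun k => l2 (e' _ m k)⟩
  obtain ⟨t, c, d, e⟩ := h.prj k1 (fun e => k3 (e ▸ h.symm a')) fun e => xy (h.symm e)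
  exact ⟨t, c.perp_left k1, d, c _ (h.symm a) k2, fun k => k3 (e _ (h.symm a') k)⟩
/-- a point `y' ⊥ y`, opposite `x`, perpendicular to `r` and to all `t ⊥ x, y, r`, lies on the line `y r`: if `y' ≠ y` let `r₂` be the point of the line `y y'` perpendicular to `x`; `r₂ = r` by `sg_nd`. -/
theorem col_of {x y r y' : P} (xy : ¬ h.perp x y) (a : h.perp x r) (b : h.perp y r) (o : h.perp y y') (xy' : ¬ h.perp x y')
    (k : ∀ t, h.perp x t → h.perp y t → h.perp r t → h.perp y' t) : h.col y r y' := by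
  rcases eq_or_ne y y' with rfl | n
  · exact h.col_left y r
  obtain ⟨s, c, d, e⟩ := h.prj o n xy
  by_contra hc
  obtain ⟨t, k1, k2, k3, k4⟩ := h.sg_nd xy a b d (c.perp_left o) fun l => hc (l ▸ e)
  exact k4 (h.symm (c t (h.symm k2) (h.symm (k t k1 k2 k3))))
/-- The points opposite `x` are connected under `⊥`.  Suppose `Y y`, `¬ Y w`.  For all such `y, w`: a common neighbour of `y, w` is `⊥ x`; each line on `y` has one point `⊥ x` and one `⊥ w`, so `Σ(y,x) = Σ(y,w)`, also `Σ(w,x) = Σ(w,y)` (a neighbour of `w` opposite `x` which is a neighbour of `y` has `Y`, and then so has `w`).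
So `Σ(x,y) = Σ(x,w) = Σ(x,y')` for a third point `y'` of a line `y r`, against `sep`. -/
theorem conn {x : P} (Y : P → Prop) (cl : ∀ y y', Y y → ¬ h.perp x y → ¬ h.perp x y' → h.perp y y' → Y y') {y : P} (hy : Y y)
    (xy : ¬ h.perp x y) : ∀ w, ¬ h.perp x w → Y w := by
  intro w xw
  by_contra hw
  have k0 : ∀ {y s}, Y y → ¬ h.perp x y → h.perp y s → h.perp w s → h.perp x s := fun hy xy a b =>
    by_contra fun c => hw (cl _ _ (cl _ _ hy xy c a) c xw (h.symm b))
  have k1 : ∀ {u v s}, ¬ h.perp x u → (∀ s, h.perp u s → h.perp v s → h.perp x s) → h.perp x s → h.perp u s → h.perp v s :=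
    fun {u v s} xu k a b => by
      have n : u ≠ s := fun e => xu (e ▸ a)
      obtain ⟨s', c, d⟩ := h.one b n v
      rwa [h.uniq b n (fun e => xu (h.symm e)) (h.col_right u s) c a (k _ (c.perp_left b) d)]
  obtain ⟨r, a, b⟩ := h.sg_ex xy
  have b0 := b
  have n : y ≠ r := fun e => xy (e ▸ a)
  obtain ⟨y', c, n1, n2⟩ := h.thick b n
  have xy' : ¬ h.perp x y' := fun e => n2 (h.uniq b n (fun e => xy (h.symm e)) c (h.col_right y r) e a)
  obtain ⟨s, a1, a2, a3⟩ := h.sep (c.perp_left b) n1.symm xy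
  exact a3 (k1 xw (fun s a b => k0 (cl _ _ hy xy xy' (c.perp_left b0)) xy' b a) a1 (k1 xy (fun s => k0 hy xy) a1 a2))
/-- `conn` with `Y w := f w = w`: for `w ⊥ y₁`, `w ≠ y₁`, `r` the point of the line `y₁ w` perpendicular to `x`; `f w` lies on the line `y₁ r`, so `f w ⊥ w`, and `sep` gives `f w = w`. -/
theorem aut_id {x y : P} (f : Equiv.Perm P) (hf : ∀ a b, h.perp (f a) (f b) ↔ h.perp a b) (fx : ∀ z, h.perp x z → f z = z)
    (xy : ¬ h.perp x y) (fy : f y = y) : ∀ w, f w = w := fun w => by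
  by_cases xw : h.perp x w
  · exact fx w xw
  refine h.conn (fun w => f w = w) (fun y w e xy xw o => ?_) fy xy w xw
  rcases eq_or_ne y w with rfl | n
  · exact e
  obtain ⟨r, c, d, c'⟩ := h.prj o n xy
  have c'' : h.col y r (f w) := fun t a b => by
    obtain ⟨t, rfl⟩ := f.surjective t
    rw [← e, hf] at a
    rw [← fx r d, hf] at b
    exact (hf _ _).2 (c' t a b)
  by_contra k
  obtain ⟨s, a1, a2, a3⟩ := h.sep (c'.perp c'' (c.perp_left o)) (Ne.symm k) xw
  exact a3 (by rw [← fx s a1, hf]; exact a2)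
theorem C_semi {x y : P} {c : G} (hc : c ∈ h.C x) (xy : ¬ h.perp x y) (e : c • y = y) : c = 1 :=
  h.faith c (h.aut_id (MulAction.toPerm c) (fun _ _ => h.smul_iff c) hc xy e)
/-- `sep` -/
theorem C_opp {x y : P} {c : G} (hc : c ∈ h.C x) (xy : ¬ h.perp x y) (e : h.perp y (c • y)) : c = 1 := by
  refine h.C_semi hc xy (by_contra fun k => ?_)
  obtain ⟨s, a1, a2, a3⟩ := h.sep e (Ne.symm k) xy
  exact a3 (by rw [← hc s a1]; exact h.smul c a2)
/-- two neighbours of `y` in one `C x`-orbit: if `w ≠ y`, `t` the point of the line `y w` perpendicular to `x`; `c • w ⊥ t, y`, so `⊥ w` -/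
theorem C_nbr {x y w : P} {c : G} (hc : c ∈ h.C x) (xy : ¬ h.perp x y) (xw : ¬ h.perp x w) (a : h.perp y w) (b : h.perp y (c • w)) :
    c = 1 := by
  rcases eq_or_ne y w with rfl | n
  · exact h.C_opp hc xy b
  obtain ⟨t, c1, d, c2⟩ := h.prj a n xy
  exact h.C_opp hc xw (h.symm (c2 _ (h.symm b) (by rw [← hc t d]; exact h.smul c (c1.perp_right a))))
theorem C_disj {x z : P} {c : G} (hc : c ∈ h.C x) (hz : c ∈ h.C z) (n : x ≠ z) : c = 1 :=
  let ⟨t, a, b⟩ := h.nd n.symm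
  h.C_semi hc b (hz t a)
theorem C_conj (g : G) {x : P} {c : G} (hc : c ∈ h.C x) : g * c * g⁻¹ ∈ h.C (g • x) := fun z o => by
  rw [mul_smul, mul_smul, hc _ ((h.smul_left g).1 o), smul_inv_smul]
/-- the commutator lies in `C x ⊓ C z` -/
theorem C_comm {x z : P} {a c : G} (o : h.perp x z) (n : x ≠ z) (ha : a ∈ h.C x) (hc : c ∈ h.C z) : Commute a c := by
  have k1 := h.C_conj a hc
  have k2 := h.C_conj c (inv_mem ha)
  rw [ha z o] at k1
  rw [hc x (h.symm o)] at k2
  exact commutatorElement_eq_one_iff_commute.1 (h.C_disj (by simpa only [commutatorElement_def, mul_assoc] using mul_mem ha k2)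
    (mul_mem k1 (inv_mem hc)) n)
theorem K_fix {x y r : P} {g : G} (hg : g ∈ h.C x ⊔ h.C y) (a : h.perp x r) (b : h.perp y r) : g • r = r :=
  (sup_le (fun _ hc => h.mem_C.1 hc r a) (fun _ hc => h.mem_C.1 hc r b) : h.C x ⊔ h.C y ≤ MulAction.stabilizer G r) hg
theorem K_comm {x y r : P} {g e : G} (xy : ¬ h.perp x y) (hg : g ∈ h.C x ⊔ h.C y) (a : h.perp x r) (b : h.perp y r) (he : e ∈ h.C r) :
    Commute g e :=
  mem_centralizer_singleton_iff.1 ((sup_le
    (fun _ hc => mem_centralizer_singleton_iff.2 (h.C_comm a (fun e => xy (h.symm (e ▸ b))) hc he))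
    (fun _ hc => mem_centralizer_singleton_iff.2 (h.C_comm b (fun e => xy (e ▸ a)) hc he)) : _ ≤ centralizer {e}) hg)
theorem J_col {x z : P} {g : G} (hg : g ∈ h.J x) (o : h.perp x z) : h.col x z (g • z) := fun t a b =>
  (hg.2 z t o (h.symm a)).1 b
theorem J_of {x : P} {g : G} (gx : g • x = x) (k : ∀ z, h.perp x z → z ≠ x → h.col x z (g • z)) : g ∈ h.J x := by
  refine ⟨gx, fun z t a b => ?_⟩
  rcases eq_or_ne z x with rfl | n
  · rw [gx]
  exact ⟨k z a n t (h.symm b), fun c => h.all a n.symm (h.col_left x z) (k z a n)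
    (fun e => n (MulAction.injective g (e.symm.trans gx.symm))) (h.symm b) c (h.col_right x z)⟩
/-- every line on `x` has a point in `Σ(x,y)` -/
theorem J_of_fix {x y : P} {g : G} (xy : ¬ h.perp x y) (gx : g • x = x) (k : ∀ r, h.perp x r → h.perp y r → g • r = r) :
    g ∈ h.J x := by
  refine h.J_of gx fun z o n => ?_
  obtain ⟨r, c, d, e⟩ := h.prj o n.symm fun e => xy (h.symm e)
  have := (h.col_smul g).2 e
  rw [gx, k r (c.perp_left o) d] at this
  exact (h.col_left x z).trans c this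
theorem J_conj (g : G) {x : P} {c : G} (hc : c ∈ h.J x) : g * c * g⁻¹ ∈ h.J (g • x) :=
  ⟨by rw [mul_smul, mul_smul, inv_smul_smul, hc.1], fun z t a b => by
    rw [mul_smul, mul_smul, h.smul_right g, ← hc.2 _ _ ((h.smul_left g).1 a) ((h.smul_left g).1 b), h.smul_iff]⟩
/-- an element of `J x` maps `Σ(x,y)` to `Σ(x, g y)` along the lines on `x` -/
theorem J_fix {x y r : P} {g : G} (hg : g ∈ h.J x) (xy : ¬ h.perp x y) (a : h.perp x r) (b : h.perp y r) (c : h.perp (g • y) r) :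
    g • r = r :=
  h.uniq a (fun e => xy (h.symm (e ▸ b))) (fun e => xy ((h.smul_iff g).1 (hg.1.symm ▸ e))) (h.J_col hg a) (h.col_right x r)
    (h.smul g b) c
theorem Z_E' {x r t : P} {a e : G} (ha : a ∈ h.Z x r) (k : h.perp t x) (l : h.perp t r) (he : e ∈ h.E t) : Commute a e :=
  mem_centralizer_singleton_iff.1 ((iSup₂_le fun _ c _ ha => mem_centralizer_singleton_iff.2
    (h.Ecomm (h.symm (c t k l)) ha he) : _ ≤ centralizer {e}) ha)
theorem Z_comm {x r : P} {a b : G} (o : h.perp x r) (ha : a ∈ h.Z x r) (hb : b ∈ h.Z x r) : Commute a b :=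
  (mem_centralizer_singleton_iff.1 ((iSup₂_le fun _ c _ he => mem_centralizer_singleton_iff.2
    (h.Z_E' ha (h.symm (Pre.col.perp_left c o)) (h.symm (Pre.col.perp_right c o)) he).symm : _ ≤ centralizer {a}) hb)).symm
theorem Z_pow {x r : P} {a : G} (o : h.perp x r) (ha : a ∈ h.Z x r) : a ^ p = 1 := by
  let M : Subgroup G :=
    { carrier := {a | a ∈ h.Z x r ∧ a ^ p = 1}
      mul_mem' := fun ha hb => ⟨mul_mem ha.1 hb.1, by rw [(h.Z_comm o ha.1 hb.1).mul_pow, ha.2, hb.2, mul_one]⟩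
      one_mem' := ⟨one_mem _, one_pow p⟩
      inv_mem' := fun ha => ⟨inv_mem ha.1, by rw [inv_pow, ha.2, inv_one]⟩ }
  exact ((iSup₂_le fun _ c _ he => ⟨h.E_le_Z c he, h.Epow he⟩ : _ ≤ M) ha).2
theorem Z_fix {x r t : P} {a : G} (ha : a ∈ h.Z x r) (k : h.perp t x) (l : h.perp t r) : a • t = t :=
  (iSup₂_le fun _ c _ he => h.Efix (h.symm (c t k l)) he : _ ≤ MulAction.stabilizer G t) ha
theorem Z_E {x r t : P} {a e : G} (ha : a ∈ h.Z x r) (k : h.perp t x) (l : h.perp t r) (he : e ∈ h.E t) : Commute a e :=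
  h.Z_E' ha k l he
theorem Z_eq {x r r' : P} (o : h.perp x r) (n : r ≠ x) (c : h.col x r r') (n' : r' ≠ x) : h.Z x r' = h.Z x r := by
  simp only [Pre.Z, h.col_iff o n.symm c n']
theorem Z_conj (g : G) {x r : P} {a : G} (ha : a ∈ h.Z x r) : g * a * g⁻¹ ∈ h.Z (g • x) (g • r) :=
  (iSup₂_le fun _ c _ he => h.E_le_Z ((h.col_smul g).2 c) (h.Econj g he) :
    _ ≤ (h.Z (g • x) (g • r)).comap (MulAut.conj g).toMonoidHom) ha
theorem Z_J {x r : P} {g a : G} (o : h.perp x r) (n : r ≠ x) (hg : g ∈ h.J x) (ha : a ∈ h.Z x r) : g * a * g⁻¹ ∈ h.Z x r := by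
  have := h.Z_conj g ha
  rwa [hg.1, h.Z_eq o n (h.J_col hg o) fun e => n (MulAction.injective g (e.trans hg.1.symm))] at this
theorem Q_conj (g : G) {x : P} {c : G} (hc : c ∈ h.Q x) : g * c * g⁻¹ ∈ h.Q (g • x) :=
  (iSup₂_le fun _ c _ he => h.le_Q (h.smul g c.1) (fun e => c.2 (MulAction.injective g e))
    (mem_inf.2 ⟨h.Z_conj g (mem_inf.1 he).1, h.J_conj g (mem_inf.1 he).2⟩) :
    _ ≤ (h.Q (g • x)).comap (MulAut.conj g).toMonoidHom) hc
theorem Q_E {x : P} {g a : G} (hg : g ∈ h.Q x) (ha : a ∈ h.E x) : Commute g a :=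
  mem_centralizer_singleton_iff.1 ((iSup₂_le fun _ c _ he => mem_centralizer_singleton_iff.2
    (h.Z_E (mem_inf.1 he).1 (h.refl x) c.1 ha) : _ ≤ centralizer {a}) hg)
theorem U_conj (g : G) {x y r : P} {c : G} (hc : c ∈ h.U x y r) : g * c * g⁻¹ ∈ h.U (g • x) (g • y) (g • r) :=
  mem_inf.2 ⟨h.Q_conj g (mem_inf.1 hc).1, fun w => by
    rw [mul_smul, mul_smul, h.col_smul, ← (mem_inf.1 hc).2, ← h.col_smul g⁻¹, inv_smul_smul, inv_smul_smul]⟩
/-- `g • r = r` by `J_fix` (`g • y ≠ r`), so `g` maps the line `y r` to the line `(g • y) r` -/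
theorem mem_U {x y r : P} {g : G} (xy : ¬ h.perp x y) (a : h.perp x r) (b : h.perp y r) :
    g ∈ h.U x y r ↔ g ∈ h.Q x ∧ h.col y r (g • y) := by
  refine ⟨fun k => ⟨(mem_inf.1 k).1, ((mem_inf.1 k).2 y).1 (h.col_left y r)⟩, fun ⟨k, c⟩ => mem_inf.2 ⟨k, fun w => ?_⟩⟩
  have hJ := h.Q_le_J x k
  have e := h.col_iff (u := g • w) (h.symm b) (fun e => xy (e ▸ a)) c.swap fun e => xy ((h.smul_iff g).1 (by rwa [hJ.1, e]))
  rw [← h.col_smul g, h.J_fix hJ xy a b (h.symm (c.perp_right b))]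
  exact ⟨fun k => (e.1 k.swap).swap, fun k => (e.2 k.swap).swap⟩
/-- If `r = t`: `sg_opp`.  Else take a third point `w` of the line `r t` (it lies in `Σ`) and `s ∈ Σ`, `s ⊥ w`, opposite `r` (`sg_nd`); `s` is opposite `t` by `all`. -/
theorem sg_opp2 {x y r t : P} (xy : ¬ h.perp x y) (a : h.perp x r) (b : h.perp y r) (a' : h.perp x t) (b' : h.perp y t)
    (o : h.perp r t) : ∃ s, h.perp x s ∧ h.perp y s ∧ ¬ h.perp r s ∧ ¬ h.perp t s := by
  rcases eq_or_ne r t with rfl | n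
  · obtain ⟨s, k1, k2, k3⟩ := h.sg_opp xy a fun e => xy (h.symm (e ▸ b))
    exact ⟨s, k1, k2, k3, k3⟩
  obtain ⟨w, c, n1, n2⟩ := h.thick o n
  obtain ⟨s, k1, k2, k3, k4⟩ := h.sg_nd xy (c x a a') (c y b b') a b n1
  exact ⟨s, k1, k2, k4, fun k => k4 (h.symm (h.all o n c (h.col_right r t) n2 (h.symm k3) (h.symm k) (h.col_left r t)))⟩

end Geo0

end CL.PT
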