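/- S3235: the short root groups. -/
import Mathlib
import Cfsg.Agent.CHEV.PT.G0

set_option autoImplicit false

namespace CL.PT

open Subgroup

variable {p : ℕ} {G P : Type*} [Group G] [MulAction G P] [Finite G] [Finite P]
 {h : Geo0 p G P} {x y : P} {i n : G}

/-- the elements of `Z x r ⊓ J x` inverted by `i` and mapping `y` into the line `y r` -/
structure UI (h : Geo0 p G P) (x y : P) (i : G) (r : P) (g : G) : Prop where
  z : g ∈ h.Z x r
  j : g ∈ h.J x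
  inv : i * g * i⁻¹ = g⁻¹
  col : h.col y r (g • y)

namespace Qa

omit [Finite G] in
theorem odd_one (hp : p.Prime) (p5 : 5 ≤ p) {g : G} (a : g * g = 1) (b : g ^ p = 1) : g = 1 := by
  obtain ⟨k, hk⟩ := hp.odd_of_ne_two (by omega)
  rw [hk, pow_succ, pow_mul, pow_two, a, one_pow, one_mul] at b
  exact b

omit [Finite G] [Finite P] in
theorem ne_x {r : P} (xy : ¬ h.perp x y) (b : h.perp y r) : r ≠ x := fun e => xy (h.symm (e ▸ b))

omit [Finite G] [Finite P] in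
theorem ne_y {r : P} (xy : ¬ h.perp x y) (a : h.perp x r) : y ≠ r := fun e => xy (e ▸ a)

theorem J_line {r z : P} {g : G} (hg : g ∈ h.J x) (a : h.perp x r) (c : h.col x r z) : h.col x r (g • z) :=
  Pre.col.trans (h.col_left x r) c (h.J_col hg (c.perp_left a))

omit [Finite G] [Finite P] in
theorem J_ne {z : P} {g : G} (hg : g ∈ h.J x) (d : z ≠ x) : g • z ≠ x := fun e =>
  d (smul_left_cancel g (e.trans hg.1.symm))

omit [Finite G] [Finite P] in
theorem J_perp {z : P} {g : G} (hg : g ∈ h.J x) (a : h.perp x z) : h.perp x (g • z) := by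
  have := h.smul g a
  rwa [hg.1] at this

theorem kz {r s : P} {g g' : G} (xy : ¬ h.perp x y) (a : h.perp x r) (b : h.perp y r)
    (u : UI h x y i r g) (u' : UI h x y i s g') : g * g' * g⁻¹ * g'⁻¹ ∈ h.Z x r := by
  have e : g * g' * g⁻¹ * g'⁻¹ = g * (g' * g⁻¹ * g'⁻¹) := by group
  rw [e]
  exact mul_mem u.z (h.Z_J a (ne_x xy b) u'.j (inv_mem u.z))

theorem kz' {r s : P} {g g' : G} (xy : ¬ h.perp x y) (a' : h.perp x s) (b' : h.perp y s)
    (u : UI h x y i r g) (u' : UI h x y i s g') : g * g' * g⁻¹ * g'⁻¹ ∈ h.Z x s :=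
  mul_mem (h.Z_J a' (ne_x xy b') u.j u'.z) (inv_mem u'.z)

omit [Finite G] [Finite P] in
theorem kj {r s : P} {g g' : G} (u : UI h x y i r g) (u' : UI h x y i s g') : g * g' * g⁻¹ * g'⁻¹ ∈ h.J x :=
  mul_mem (mul_mem (mul_mem u.j u'.j) (inv_mem u.j)) (inv_mem u'.j)

theorem i_fix (I : h.Inv x y i n) {t : P} (a : h.perp x t) (b : h.perp y t) : i • t = t :=
  h.K_fix (sup_le_sup (h.E_le_C x) (h.E_le_C y) I.iK) a b

end Qa

open Qa

namespace UI

variable {r s : P} {g g' : G}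

theorem one (r : P) : UI h x y i r 1 :=
  ⟨one_mem _, one_mem _, by simp, by rw [one_smul]; exact h.col_left y r⟩
theorem mem_Q (xy : ¬ h.perp x y) (a : h.perp x r) (b : h.perp y r) (u : UI h x y i r g) : g ∈ h.Q x :=
  h.le_Q a (ne_x xy b) ⟨u.z, u.j⟩
theorem mem_U (xy : ¬ h.perp x y) (a : h.perp x r) (b : h.perp y r) (u : UI h x y i r g) : g ∈ h.U x y r :=
  (h.mem_U xy a b).2 ⟨u.mem_Q xy a b, u.col⟩
/-- `g` fixes `r`, `g • y ≠ r`, so `g` fixes the line `y r` (`col_iff`, `col_smul`); `Z x r` is abelian -/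
theorem mul (xy : ¬ h.perp x y) (a : h.perp x r) (b : h.perp y r) (u : UI h x y i r g) (u' : UI h x y i r g') :
    UI h x y i r (g * g') := by
  refine ⟨mul_mem u.z u'.z, mul_mem u.j u'.j, ?_, ?_⟩
  · have e : i * (g * g') * i⁻¹ = (i * g * i⁻¹) * (i * g' * i⁻¹) := by group
    rw [e, u.inv, u'.inv, (h.Z_comm a u.z u'.z).eq, mul_inv_rev]
  · rw [mul_smul]
    exact ((u.mem_U xy a b).2 _).1 u'.col
theorem inv' (xy : ¬ h.perp x y) (a : h.perp x r) (b : h.perp y r) (u : UI h x y i r g) : UI h x y i r g⁻¹ := by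
  refine ⟨inv_mem u.z, inv_mem u.j, ?_, ?_⟩
  · have e : i * g⁻¹ * i⁻¹ = (i * g * i⁻¹)⁻¹ := by group
    rw [e, u.inv]
  · exact ((inv_mem (u.mem_U xy a b)).2 _).1 (h.col_left y r)
/-- `Inv.cen`: `g` commutes with `i`, `g² = 1 = g ^ p` -/
theorem eq_one (I : h.Inv x y i n) (a : h.perp x r) (u : UI h x y i r g) (e : g • y = y) : g = 1 := by
  have c : Commute g i := I.cen g (fun _ he => h.Z_E u.z (h.refl x) a he) e
  have k := u.inv
  rw [← c.eq, mul_inv_cancel_right] at k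
  refine odd_one h.pr h.p5 ?_ (h.Z_pow a u.z)
  exact mul_eq_one_iff_eq_inv.2 k
theorem tr (I : h.Inv x y i n) (a : h.perp x r) (b : h.perp y r) {y' : P} (c : h.col y r y') (d : y' ≠ r) :
    ∃ g, UI h x y i r g ∧ g • y = y' := by
  obtain ⟨g, z, j, e, k⟩ := I.tr r y' a b c d
  exact ⟨g, ⟨z, j, k, by rw [e]; exact c⟩, e⟩
/-- if `g • y ≠ y` then `r ⊥ y, g • y`, so `r ⊥ s` -/
theorem semi (xy : ¬ h.perp x y) (I : h.Inv x y i n) (a : h.perp x s) (b : h.perp y s) (b' : h.perp y r) (rs : ¬ h.perp r s)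
    (u : UI h x y i s g) (e : g • r = r) : g = 1 := by
  by_cases d : y = g • y
  · exact u.eq_one I a d.symm
  · refine absurd (h.all b (ne_y xy a) (h.col_left y s) u.col d (h.symm b') ?_ (h.col_right y s)) rs
    have := h.smul g (h.symm b')
    rwa [e] at this
/-- `y'` the point of the line `y s` perpendicular to `z`; `g • y = y'`; `g • r` and `z` lie on the line `x r` and are `⊥ y'` (`uniq`) -/
theorem reg (xy : ¬ h.perp x y) (I : h.Inv x y i n) (a : h.perp x s) (b : h.perp y s) (a' : h.perp x r) (b' : h.perp y r)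
    (rs : ¬ h.perp r s) {z : P} (c : h.col x r z) (d : z ≠ x) : ∃ g, UI h x y i s g ∧ g • r = z := by
  obtain ⟨y', c', o⟩ := h.one b (ne_y xy a) z
  have xr : x ≠ r := (ne_x xy b').symm
  have d' : y' ≠ s := by
    rintro rfl
    exact rs (h.symm (h.all a' xr (h.col_left x r) c d.symm (h.symm a) (h.symm o) (h.col_right x r)))
  obtain ⟨g, u, e⟩ := tr I a b c' d'
  refine ⟨g, u, h.uniq a' xr (y := y') ?_ (h.J_col u.j a') c ?_ (h.symm o)⟩
  · intro k
    rw [← e, ← u.j.1] at k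
    exact xy ((h.smul_iff g).1 k)
  · rw [← e]
    exact h.smul g b'
/-- `k` commutes with the `UI s` elements, which are transitive on the line minus `x` -/
theorem act (xy : ¬ h.perp x y) (I : h.Inv x y i n) (a : h.perp x s) (b : h.perp y s) (a' : h.perp x r) (b' : h.perp y r)
    (rs : ¬ h.perp r s) {k : G} (kz : k ∈ h.Z x s) (kj : k ∈ h.J x) : ∃ g, UI h x y i s g ∧ ∀ z, h.col x r z → k • z = g • z := by
  obtain ⟨g, u, e⟩ := reg xy I a b a' b' rs (h.J_col kj a') (J_ne kj (ne_x xy b'))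
  refine ⟨g, u, fun z c => ?_⟩
  by_cases d : z = x
  · rw [d, kj.1, u.j.1]
  · obtain ⟨g₁, u₁, rfl⟩ := reg xy I a b a' b' rs c d
    rw [← mul_smul, (h.Z_comm a kz u₁.z).eq, mul_smul, ← e, ← mul_smul, ← (h.Z_comm a u.z u₁.z).eq, mul_smul]
/-- `κ = [g, g'] ∈ Z x r ⊓ Z x s ⊓ J x` (`Z_J`) commutes with `g`, `g'`, so `i κ i⁻¹ = [g⁻¹, g'⁻¹] = κ`. -/
theorem comm_i (xy : ¬ h.perp x y) (a : h.perp x r) (b : h.perp y r) (a' : h.perp x s) (b' : h.perp y s)
    (u : UI h x y i r g) (u' : UI h x y i s g') : Commute i (g * g' * g⁻¹ * g'⁻¹) := by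
  have c : Commute g (g * g' * g⁻¹ * g'⁻¹) := h.Z_comm a u.z (kz xy a b u u')
  have c' : Commute g' (g * g' * g⁻¹ * g'⁻¹) := h.Z_comm a' u'.z (kz' xy a' b' u u')
  have c2 : Commute (g' * g) (g * g' * g⁻¹ * g'⁻¹) := c'.mul_left c
  have e : i * (g * g' * g⁻¹ * g'⁻¹) * i⁻¹ =
      (i * g * i⁻¹) * (i * g' * i⁻¹) * (i * g * i⁻¹)⁻¹ * (i * g' * i⁻¹)⁻¹ := by group
  have e2 : g⁻¹ * g'⁻¹ * g⁻¹⁻¹ * g'⁻¹⁻¹ = (g' * g)⁻¹ * ((g * g' * g⁻¹ * g'⁻¹) * (g' * g)) := by group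
  rw [u.inv, u'.inv, e2, ← c2.eq, inv_mul_cancel_left] at e
  exact mul_inv_eq_iff_eq_mul.1 e
/-- Let `z ⊥ x`, `z ≠ x`, `t ∈ Σ` on the line `x z`.  If `t ⊥ r`, `κ ∈ Z x r` fixes `z`.  Else `κ` acts on the line as `g₀` with `UI r g₀` (`act`); `κ • t = i κ i⁻¹ • t = g₀⁻¹ • t` (`i` fixes `t`), so `g₀² • t = t`, `g₀² = 1` (`semi`), `g₀ = 1`. -/
theorem comm_C (xy : ¬ h.perp x y) (I : h.Inv x y i n) (a : h.perp x r) (b : h.perp y r) (a' : h.perp x s) (b' : h.perp y s)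
    (u : UI h x y i r g) (u' : UI h x y i s g') : g * g' * g⁻¹ * g'⁻¹ ∈ h.C x := by
  have hz := kz xy a b u u'
  have hj := kj u u'
  have hi := comm_i xy a b a' b' u u'
  generalize g * g' * g⁻¹ * g'⁻¹ = κ at hz hj hi
  intro z o
  by_cases d : x = z
  · rw [← d, hj.1]
  obtain ⟨t, c, yt⟩ := h.one o d y
  have xt : h.perp x t := c.perp_left o
  have cz : h.col x t z := (h.col_iff o d c (ne_x xy yt)).2 (h.col_right x z)
  by_cases rt : h.perp t r
  · exact h.Z_fix hz (h.symm o) (h.symm (cz r (h.symm a) (h.symm rt)))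
  obtain ⟨g₀, u₀, e⟩ := act xy I a b xt yt rt hz hj
  have it := i_fix I xt yt
  have e1 : κ • t = g₀ • t := e t (h.col_right x t)
  have e2 : g₀ • t = g₀⁻¹ • t := by
    calc g₀ • t = κ • i • t := by rw [it, e1]
      _ = i • g₀ • t := by rw [← mul_smul, ← hi.eq, mul_smul, e1]
      _ = (i * g₀ * i⁻¹) • i • t := by rw [← mul_smul (i * g₀ * i⁻¹), inv_mul_cancel_right, mul_smul]
      _ = g₀⁻¹ • t := by rw [u₀.inv, it]
  have e3 : g₀ * g₀ = 1 := semi xy I a b yt rt (u₀.mul xy a b u₀) (by rw [mul_smul, e2, smul_inv_smul])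
  rw [e z cz, odd_one h.pr h.p5 e3 (h.Z_pow a u₀.z), one_smul]
/-- Induction over `Q` (`iSup_induction`).  `k ∈ Z x s₂ ⊓ J x`, `s₂ ∈ Σ` after `Z_eq`: trivial on the line if `s₂ ⊥ r`; else it acts as `g₂` with `UI s₂ g₂`, which commutes on the line with all `UI s` elements (`comm_C`), these are transitive (`reg`). -/
theorem Q_act (xy : ¬ h.perp x y) (I : h.Inv x y i n) (a : h.perp x s) (b : h.perp y s) (a' : h.perp x r) (b' : h.perp y r)
    (rs : ¬ h.perp r s) {k : G} (hk : k ∈ h.Q x) : ∃ g, UI h x y i s g ∧ ∀ z, h.col x r z → k • z = g • z := by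
  let T : Subgroup G :=
    { carrier := {k | ∃ g, UI h x y i s g ∧ ∀ z, h.col x r z → k • z = g • z}
      one_mem' := ⟨1, one s, fun _ _ => rfl⟩
      mul_mem' := by
        rintro k k' ⟨g, u, e⟩ ⟨g', u', e'⟩
        exact ⟨g * g', u.mul xy a b u', fun z c => by rw [mul_smul, mul_smul, e' z c, e _ (J_line u'.j a' c)]⟩
      inv_mem' := by
        rintro k ⟨g, u, e⟩
        exact ⟨g⁻¹, u.inv' xy a b, fun z c => by
          rw [inv_smul_eq_iff, e _ (J_line (inv_mem u.j) a' c), smul_inv_smul]⟩ }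
  have : h.Q x ≤ T := by
    refine iSup₂_le ?_
    rintro s₂ ⟨o, d⟩ k ⟨hz, hj⟩
    obtain ⟨s₃, c, ys⟩ := h.one o d.symm y
    have xs : h.perp x s₃ := c.perp_left o
    have hz' : k ∈ h.Z x s₃ := by rw [h.Z_eq o d c (ne_x xy ys)]; exact hz
    by_cases q : h.perp r s₃
    · exact ⟨1, one s, fun z cz => by
        rw [one_smul]; exact h.Z_fix hz' (h.symm (cz.perp_left a')) (h.symm (cz s₃ (h.symm xs) (h.symm q)))⟩
    obtain ⟨g₂, u₂, e₂⟩ := act xy I xs ys a' b' q hz' hj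
    obtain ⟨g, u, e⟩ := reg xy I a b a' b' rs (h.J_col u₂.j a') (J_ne u₂.j (ne_x xy b'))
    refine ⟨g, u, fun z cz => ?_⟩
    rw [e₂ z cz]
    by_cases dz : z = x
    · rw [dz, u₂.j.1, u.j.1]
    obtain ⟨g₁, u₁, rfl⟩ := reg xy I a b a' b' rs cz dz
    have w := comm_C xy I xs ys a b u₂ u₁ (g₁ • g₂ • r) (J_perp u₁.j (J_perp u₂.j a'))
    rw [mul_smul, mul_smul, mul_smul, inv_smul_smul, inv_smul_smul] at w
    rw [w, ← e, ← mul_smul, ← (h.Z_comm a u.z u₁.z).eq, mul_smul]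
  exact this hk

end UI

end CL.PT
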