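/- S3235: the group Q x is regular on the points opposite x. -/
import Mathlib
import Cfsg.Agent.CHEV.PT.Qa

set_option autoImplicit false
set_option linter.unusedSectionVars false

namespace CL.PT

open Subgroup

variable {p : ℕ} {G P : Type*} [Group G] [MulAction G P] [Finite G] [Finite P]
 (h : Geo p G P) {x y r s : P} {g g' c : G}

namespace Geo

namespace Qbx

theorem nx (xy : ¬ h.perp x y) (b : h.perp y r) : r ≠ x := fun e => xy (h.symm (e ▸ b))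

theorem ny (xy : ¬ h.perp x y) (a : h.perp x r) : y ≠ r := fun e => xy (e ▸ a)

/-- the point of the line `x z` perpendicular to `y` -/
theorem line {z : P} (xy : ¬ h.perp x y) (o : h.perp x z) (n : z ≠ x) : ∃ r, h.perp x r ∧ h.perp y r ∧ h.col x r z := by
  obtain ⟨r, c, b⟩ := h.one o n.symm y
  exact ⟨r, c.perp_left o, b, (h.col_iff o n.symm c (nx h xy b)).2 (h.col_right x z)⟩

theorem line2 {z : P} (xy : ¬ h.perp x y) (o : h.perp x z) (n : z ≠ x) :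
    ∃ r s, h.perp x s ∧ h.perp y s ∧ h.perp x r ∧ h.perp y r ∧ ¬ h.perp r s ∧ h.col x r z := by
  obtain ⟨r, a, b, c⟩ := line h xy o n
  obtain ⟨s, a', b', rs⟩ := h.sg_opp xy a (nx h xy b)
  exact ⟨r, s, a', b', a, b, rs, c⟩

theorem jcol {z : P} (hg : g ∈ h.J x) (a : h.perp x r) (c : h.col x r z) : h.col x r (g • z) :=
  (h.col_left x r).trans c (h.J_col hg (c.perp_left a))

theorem qx (hg : g ∈ h.Q x) : g • x = x := (h.Q_le_J x hg).1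

theorem opp (e : g • x = x) (xy : ¬ h.perp x y) : ¬ h.perp x (g • y) := fun k => xy ((h.smul_iff g).1 (e.symm ▸ k))

theorem EK : h.E x ⊔ h.E y ≤ h.C x ⊔ h.C y := sup_le_sup (h.E_le_C x) (h.E_le_C y)

/-- a point of the line `y r` other than `y` is opposite `s` -/
theorem far {z : P} (b : h.perp y r) (n : y ≠ r) (b' : h.perp y s) (rs : ¬ h.perp r s) (c : h.col y r z) (d : z ≠ y) :
    ¬ h.perp s z := fun k =>
  rs (h.symm (h.all b n (h.col_left y r) c d.symm (h.symm b') k (h.col_right y r)))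

end Qbx

open Qbx

/-- every `z ⊥ x`, `z ≠ x` lies on a line `x r`, `r ∈ Σ`; `UI.Q_act` for `g`, `g'`, `Z_comm` -/
theorem Q_comm (hg : g ∈ h.Q x) (hg' : g' ∈ h.Q x) : g * g' * g⁻¹ * g'⁻¹ ∈ h.C x := fun z o => by
  by_cases n : z = x
  · rw [n]
    exact qx h (mul_mem (mul_mem (mul_mem hg hg') (inv_mem hg)) (inv_mem hg'))
  obtain ⟨y, xy⟩ := h.exists_opp x
  obtain ⟨i, m, I⟩ := h.inv xy
  obtain ⟨r, s, a, b, a', b', rs, c⟩ := line2 h xy o n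
  obtain ⟨k, u, e⟩ := UI.Q_act xy I a b a' b' rs hg
  obtain ⟨k', u', e'⟩ := UI.Q_act xy I a b a' b' rs hg'
  have cw := jcol h (inv_mem (h.Q_le_J x hg)) a' (jcol h (inv_mem (h.Q_le_J x hg')) a' c)
  rw [mul_smul, mul_smul, mul_smul, e _ (jcol h (h.Q_le_J x hg') a' cw), e' _ cw, ← mul_smul k,
    (h.Z_comm a u.z u'.z).eq, mul_smul, ← e' _ (jcol h u.j a' cw), ← e _ cw, smul_inv_smul, smul_inv_smul]

/-- take `y` opposite `x`, `r₀ ∈ Σ` on the line, `Q_act`: `g` acts as `g₀`; `r = g₁ • r₀` (`reg`), `g₀` commutes with `g₁`, `semi` -/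
theorem Q_fix {z : P} (hg : g ∈ h.Q x) (a : h.perp x r) (n : r ≠ x) (e : g • r = r) (k : h.col x r z) : g • z = z := by
  obtain ⟨y, xy⟩ := h.exists_opp x
  obtain ⟨i, m, I⟩ := h.inv xy
  obtain ⟨r₀, s, a1, b1, a', b', rs, c⟩ := line2 h xy a n
  obtain ⟨g₀, u, e₀⟩ := UI.Q_act xy I a1 b1 a' b' rs hg
  obtain ⟨g₁, u', e₁⟩ := UI.reg xy I a1 b1 a' b' rs c n
  rw [e₀ r c, ← e₁, ← mul_smul, (h.Z_comm a1 u.z u'.z).eq, mul_smul, smul_left_cancel_iff] at e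
  rw [e₀ z ((h.col_left x r₀).trans c k), u.semi xy I a1 b1 b' rs e, one_smul]

theorem Q_C (xy : ¬ h.perp x y) (hg : g ∈ h.Q x) (k : ∀ r, h.perp x r → h.perp y r → g • r = r) : g ∈ h.C x := fun z o => by
  by_cases n : z = x
  · rw [n]; exact qx h hg
  obtain ⟨r, a, b, c⟩ := line h xy o n
  exact h.Q_fix hg a (nx h xy b) (k r a b) c

/-- `J_fix`, `Q_C`, `C_semi` -/
theorem Q_reg (xy : ¬ h.perp x y) (hg : g ∈ h.Q x) (e : g • y = y) : g = 1 :=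
  h.C_semi (h.Q_C xy hg fun _ a b => h.J_fix (h.Q_le_J x hg) xy a b (e.symm ▸ b)) xy e

theorem Qbx.eq_of (xy : ¬ h.perp x y) (hg : g ∈ h.Q x) (hg' : g' ∈ h.Q x) (e : g • y = g' • y) : g = g' :=
  inv_mul_eq_one.1 (h.Q_reg xy (mul_mem (inv_mem hg) hg') (by rw [mul_smul, ← e, inv_smul_smul]))

theorem U_iff {i n : G} (xy : ¬ h.perp x y) (I : h.Inv x y i n) (a : h.perp x r) (b : h.perp y r) :
    g ∈ h.U x y r ↔ UI h.toGeo0 x y i r g := by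
  rw [h.mem_U xy a b]
  refine ⟨fun ⟨hg, c⟩ => ?_, fun u => ⟨u.mem_Q xy a b, u.col⟩⟩
  obtain ⟨k, u, e⟩ := UI.tr I a b c (ny h (opp h (qx h hg) xy) a)
  exact eq_of h xy (u.mem_Q xy a b) hg e ▸ u

theorem U_le_Z (xy : ¬ h.perp x y) (a : h.perp x r) (b : h.perp y r) : h.U x y r ≤ h.Z x r := fun _ hg =>
  let ⟨_, _, I⟩ := h.inv xy
  ((h.U_iff xy I a b).1 hg).z

theorem U_tr {y' : P} (xy : ¬ h.perp x y) (a : h.perp x r) (b : h.perp y r) (k : h.col y r y') (d : y' ≠ r) :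
    ∃ g ∈ h.U x y r, g • y = y' :=
  let ⟨_, _, I⟩ := h.inv xy
  let ⟨g, u, e⟩ := UI.tr I a b k d
  ⟨g, (h.U_iff xy I a b).2 u, e⟩

theorem Qbx.sup_le : (⨆ (r : P) (_ : h.perp x r ∧ h.perp y r), h.U x y r) ≤ h.Q x := iSup₂_le fun _ _ => inf_le_left

theorem Qbx.tr (xy : ¬ h.perp x y) :
    ∀ w, ¬ h.perp x w → ∃ g ∈ ⨆ (r : P) (_ : h.perp x r ∧ h.perp y r), h.U x y r, g • y = w := by
  refine h.conn _ ?_ ⟨1, one_mem _, one_smul _ _⟩ xy
  rintro _ w ⟨g, hg, rfl⟩ - xw o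
  rw [h.smul_left] at o
  have xw' := opp h (qx h (inv_mem (Qbx.sup_le h hg))) xw
  by_cases n : g⁻¹ • w = y
  · exact ⟨g, hg, by rw [← n, smul_inv_smul]⟩
  obtain ⟨r, b, a, c⟩ := line h (fun k => xy (h.symm k)) o n
  obtain ⟨k, hk, e⟩ := h.U_tr xy a b c (ny h xw' a)
  exact ⟨g * k, mul_mem hg (le_iSup₂_of_le (f := fun r (_ : h.perp x r ∧ h.perp y r) => h.U x y r) r ⟨a, b⟩ le_rfl hk),
    by rw [mul_smul, e, smul_inv_smul]⟩

/-- `conn` with `Y w := ∃ g ∈ closure {UI elements}, g • y = w`: a neighbour `w'` of `g • y` has `g⁻¹ • w' ⊥ y`, `UI.tr`.  Prove this stronger form first; it gives `Q_gen`. -/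
theorem Q_tr {y' : P} (xy : ¬ h.perp x y) (xy' : ¬ h.perp x y') : ∃ g ∈ h.Q x, g • y = y' :=
  let ⟨g, hg, e⟩ := Qbx.tr h xy y' xy'
  ⟨g, Qbx.sup_le h hg, e⟩

theorem Qbx.mouf' {w : P} (xy : ¬ h.perp x y) (xw : ¬ h.perp x w) (k : ∀ r, h.perp x r → h.perp y r → h.perp w r) :
    ∃ c ∈ h.C x, c ∈ h.Q x ∧ c • y = w :=
  let ⟨g, hg, e⟩ := h.Q_tr xy xw
  ⟨g, h.Q_C xy hg fun r a b => h.J_fix (h.Q_le_J x hg) xy a b (e.symm ▸ k r a b), hg, e⟩

/-- `Q_tr`, `J_fix`, `Q_C` -/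
theorem mouf {w : P} (xy : ¬ h.perp x y) (xw : ¬ h.perp x w) (k : ∀ r, h.perp x r → h.perp y r → h.perp w r) :
    ∃ c ∈ h.C x, c • y = w :=
  let ⟨c, hc, _, e⟩ := mouf' h xy xw k
  ⟨c, hc, e⟩

theorem C_le_Q (x : P) : h.C x ≤ h.Q x := fun c hc => by
  obtain ⟨y, xy⟩ := h.exists_opp x
  obtain ⟨k, hk, hq, e⟩ := mouf' h xy (opp h (hc x (h.refl x)) xy) fun r a b => hc r a ▸ h.smul c b
  exact inv_mul_eq_one.1 (h.C_semi (mul_mem (inv_mem hk) hc) xy (by rw [mul_smul, ← e, inv_smul_smul])) ▸ hq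

/-- for `w' ≠ w`: `C_comm`; for `w' = w`: `C_le_Q`, `Q_E` -/
theorem C_E {w w' : P} {a : G} (o : h.perp w w') (hc : c ∈ h.C w) (ha : a ∈ h.E w') : Commute c a := by
  by_cases n : w = w'
  · exact h.Q_E (h.C_le_Q w hc) (n ▸ ha)
  · exact h.C_comm o n hc (h.E_le_C _ ha)

theorem C_Z {w : P} {a : G} (o : h.perp w x) (o' : h.perp w r) (hc : c ∈ h.C w) (ha : a ∈ h.Z x r) : Commute c a :=
  (mem_centralizer_singleton_iff.1 ((iSup₂_le fun _ k _ he =>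
    mem_centralizer_singleton_iff.2 (h.C_E (k w o o') hc he).symm : h.Z x r ≤ centralizer {c}) ha)).symm

theorem C_cen (hc : c ∈ h.C x) (hg : g ∈ h.Q x) : Commute c g :=
  (mem_centralizer_singleton_iff.1 ((iSup₂_le fun _ k _ he =>
    mem_centralizer_singleton_iff.2 (h.C_Z (h.refl x) k.1 hc he.1).symm : h.Q x ≤ centralizer {c}) hg)).symm

theorem U_semi (xy : ¬ h.perp x y) (a : h.perp x s) (b : h.perp y s) (b' : h.perp y r) (rs : ¬ h.perp r s) (hg : g ∈ h.U x y s)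
    (e : g • r = r) : g = 1 :=
  let ⟨_, _, I⟩ := h.inv xy
  ((h.U_iff xy I a b).1 hg).semi xy I a b b' rs e

theorem U_reg {z : P} (xy : ¬ h.perp x y) (a : h.perp x s) (b : h.perp y s) (a' : h.perp x r) (b' : h.perp y r) (rs : ¬ h.perp r s)
    (k : h.col x r z) (d : z ≠ x) : ∃ g ∈ h.U x y s, g • r = z :=
  let ⟨_, _, I⟩ := h.inv xy
  let ⟨g, u, e⟩ := UI.reg xy I a b a' b' rs k d
  ⟨g, (h.U_iff xy I a b).2 u, e⟩

theorem U_nbr (xy : ¬ h.perp x y) (hg : g ∈ h.Q x) (o : h.perp y (g • y)) : ∃ r, h.perp x r ∧ h.perp y r ∧ g ∈ h.U x y r := by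
  by_cases n : g • y = y
  · obtain ⟨r, a, b⟩ := h.sg_ex xy
    exact ⟨r, a, b, h.Q_reg xy hg n ▸ one_mem _⟩
  obtain ⟨r, b, a, c⟩ := line h (fun k => xy (h.symm k)) o n
  exact ⟨r, a, b, (h.mem_U xy a b).2 ⟨hg, c⟩⟩

/-- `C_opp` -/
theorem U_C (xy : ¬ h.perp x y) (a : h.perp x r) (b : h.perp y r) (hg : g ∈ h.U x y r) (hc : g ∈ h.C x) : g = 1 :=
  h.C_opp hc xy (((h.mem_U xy a b).1 hg).2.perp_left b)

theorem U_ne (xy : ¬ h.perp x y) (a : h.perp x r) (b : h.perp y r) : ∃ g ∈ h.U x y r, g ∉ h.C x := by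
  obtain ⟨w, c, n, n'⟩ := h.thick b (ny h xy a)
  obtain ⟨g, hg, e⟩ := h.U_tr xy a b c n'
  exact ⟨g, hg, fun hc => n (by rw [← e, h.U_C xy a b hg hc, one_smul])⟩

theorem Q_gen (xy : ¬ h.perp x y) : h.Q x = ⨆ (r : P) (_ : h.perp x r ∧ h.perp y r), h.U x y r :=
  le_antisymm (fun _ hg =>
    let ⟨_, hk, e⟩ := Qbx.tr h xy _ (opp h (qx h hg) xy)
    eq_of h xy (Qbx.sup_le h hk) hg e ▸ hk) (Qbx.sup_le h)

/-- `Q_act`: on each line `g` acts as `g₀`, `i g i⁻¹` as `g₀⁻¹` -/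
theorem i_Q {i n : G} (xy : ¬ h.perp x y) (I : h.Inv x y i n) (hg : g ∈ h.Q x) : g * (i * g * i⁻¹) ∈ h.C x := fun z o => by
  by_cases n : z = x
  · rw [n]
    exact qx h (mul_mem hg (I.ix ▸ h.Q_conj i hg :))
  obtain ⟨r, s, a, b, a', b', rs, c⟩ := line2 h xy o n
  obtain ⟨k, u, e⟩ := UI.Q_act xy I a b a' b' rs hg
  have ci : h.col x r (i⁻¹ • z) := by
    rw [← h.col_smul i, I.ix, h.K_fix (EK h I.iK) a' b', smul_inv_smul]
    exact c
  rw [mul_smul, mul_smul, mul_smul, e _ ci, ← mul_smul i, ← mul_smul (i * k), u.inv, e _ (jcol h (inv_mem u.j) a' c),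
    smul_inv_smul]

theorem Qbx.inv_of {j : G} (xy : ¬ h.perp x y) (a : h.perp x r) (b : h.perp y r) (b' : h.perp y s) (rs : ¬ h.perp r s)
    (jj : j * j = 1) (jx : j • x = x) (jy : j • y = y) (jr : j • r = r)
    (mv : ∀ z, h.perp r z → z ≠ r → ¬ h.perp s z → j • z ≠ z) (hg : g ∈ h.U x y r) : j * g * j⁻¹ = g⁻¹ := by
  have h1 : j * g * j⁻¹ ∈ h.U x y r := by simpa only [jx, jy, jr] using h.U_conj j hg
  have hk := mul_mem hg h1
  obtain ⟨q, c⟩ := (h.mem_U xy a b).1 hk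
  have e : j * (g * (j * g * j⁻¹)) = g * (j * g * j⁻¹) * j := by
    rw [(h.Z_comm a (h.U_le_Z xy a b hg) (h.U_le_Z xy a b h1)).eq]
    conv_lhs => rw [← (h.Z_comm a (h.U_le_Z xy a b hg) (h.U_le_Z xy a b h1)).eq]
    rw [inv_eq_of_mul_eq_one_right jj]
    simp only [mul_assoc]
  refine eq_inv_of_mul_eq_one_right (h.Q_reg xy q (by_contra fun d => ?_))
  exact mv _ (c.perp_right b) (ny h (opp h (qx h q) xy) a) (far h b (ny h xy a) b' rs c d)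
    (by rw [← mul_smul, e, mul_smul, jy])

/-- Take `r, s ∈ Σ` opposite, `Inv r s i' n'`; `j = i i'` centralises `U r`, `U s` and acts on `C x` as `i`. -/
theorem i_C {i n : G} (xy : ¬ h.perp x y) (I : h.Inv x y i n) (hc : c ∈ h.C x) : Commute i c := by
  obtain ⟨r, a, b⟩ := h.sg_ex xy
  obtain ⟨s, a', b', rs⟩ := h.sg_opp xy a (nx h xy b)
  obtain ⟨j, m, J⟩ := h.inv rs
  have jx := h.K_fix (EK h J.iK) (h.symm a) (h.symm a')
  have jy := h.K_fix (EK h J.iK) (h.symm b) (h.symm b')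
  have jc := h.K_comm rs (EK h J.iK) (h.symm a) (h.symm a') hc
  obtain ⟨g₁, h1, n1⟩ := h.U_ne xy a b
  obtain ⟨q1, c1⟩ := (h.mem_U xy a b).1 h1
  have f := far h b (ny h xy a) b' rs c1 fun e => n1 (h.Q_reg xy q1 e ▸ one_mem _)
  obtain ⟨w, cw, o⟩ := h.one b' (ny h xy a') (c⁻¹ • g₁ • y)
  obtain ⟨g₂, h2, rfl⟩ := h.U_tr xy a' b' cw fun e => f (by
    rw [e, h.smul_left, inv_inv, hc s a'] at o
    exact h.symm o)
  have e1 := inv_of h xy a b b' rs J.ii jx jy J.ix J.mv h1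
  have e2 := inv_of h xy a' b' b (fun k => rs (h.symm k)) J.ii jx jy J.iy (fun z k1 k2 k3 k4 =>
    J.mv (m • z) (J.ny ▸ h.smul m k1) (fun e => k2 (smul_left_cancel m (e.trans J.ny.symm)))
      (fun e => k3 ((h.smul_iff m).1 (J.nx.symm ▸ e))) (by rw [← mul_smul, J.cm.eq, mul_smul, k4])) h2
  have i1 := ((h.U_iff xy I a b).1 (inv_mem h1)).inv
  have i2 := ((h.U_iff xy I a' b').1 (inv_mem h2)).inv
  have hd : i * c * i⁻¹ * c⁻¹ ∈ h.C x := mul_mem (I.ix ▸ h.C_conj i hc :) (inv_mem hc)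
  have o1 : h.perp y ((g₁⁻¹ * c * g₂) • y) := by
    rw [mul_smul, mul_smul, h.smul_right, h.smul_right, inv_inv]
    exact o
  have e : i * j * (g₁⁻¹ * c * g₂) = i * c * i⁻¹ * c⁻¹ * (g₁⁻¹ * c * g₂) * (i * j) := by
    calc _ = (i * (j * g₁ * j⁻¹) * i⁻¹)⁻¹ * (i * (j * c * j⁻¹) * i⁻¹) * (i * (j * g₂ * j⁻¹) * i⁻¹) * (i * j) := by group
      _ = g₁⁻¹ * (i * c * i⁻¹ * c⁻¹) * c * g₂ * (i * j) := by
        rw [e1, e2, i1, i2, jc.eq, inv_inv, inv_inv]; group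
      _ = _ := by rw [← (h.C_cen hd (inv_mem q1)).eq]; group
  have := h.C_nbr hd xy (opp h (qx h (mul_mem (mul_mem (inv_mem q1) (h.C_le_Q x hc)) h2.1)) xy) o1 (by
    have := h.smul (i * j) o1
    rwa [← mul_smul (i * j), e, mul_smul _ (i * j), mul_smul i j y, jy, I.iy, mul_smul] at this)
  exact mul_inv_eq_iff_eq_mul.1 (mul_inv_eq_one.1 this)

/-- for `w ≠ x` on the line and `e ∈ E w`: `[g, e] ∈ Q x ⊓ C w` fixes a point opposite `x` (`nd`), so is trivial (`Q_reg`); `Q_E` -/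
theorem Q_Z {a : G} (hg : g ∈ h.Q x) (o : h.perp x r) (n : r ≠ x) (e : g • r = r) (ha : a ∈ h.Z x r) : Commute g a := by
  refine (mem_centralizer_singleton_iff.1 ((iSup₂_le fun w k u hu =>
    mem_centralizer_singleton_iff.2 (Commute.symm ?_) : h.Z x r ≤ centralizer {g}) ha)).symm
  by_cases d : w = x
  · exact h.Q_E hg (d ▸ hu)
  obtain ⟨t, o1, o2⟩ := h.nd d
  have h1 : g * u * g⁻¹ ∈ h.E w := h.Q_fix hg o n e k ▸ h.Econj g hu
  have h2 : u * g⁻¹ * u⁻¹ ∈ h.Q x := h.Efix (h.symm (k.perp_left o)) hu ▸ h.Q_conj u (inv_mem hg)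
  have := h.Q_reg o2 (mul_mem hg h2) (by
    rw [← mul_assoc, ← mul_assoc]
    exact h.Efix o1 (mul_mem h1 (inv_mem hu)))
  rw [← mul_assoc, ← mul_assoc] at this
  exact mul_inv_eq_iff_eq_mul.1 (mul_inv_eq_one.1 this)

end Geo

end CL.PT
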