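/- S3235: the commutator form. -/
import Mathlib
import Cfsg.Agent.CHEV.PT.Qb

set_option autoImplicit false
set_option linter.unusedSectionVars false

namespace CL.PT

open Subgroup

variable {p : ℕ} {G P : Type*} [Group G] [MulAction G P] [Finite G] [Finite P] {h : Geo p G P} {x y : P}
  {K V : Type*} [Field K] [AddCommGroup V] [Module K V]

theorem Mod0.finK (m : Mod0 h x y K V) : Finite K := Finite.of_injective _ m.χ_inj
theorem Mod0.finV (m : Mod0 h x y K V) : Finite V :=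
  Finite.of_surjective m.π fun v => let ⟨g, _, e⟩ := m.π_surj v; ⟨g, e⟩
theorem Mod0.χ_zero (m : Mod0 h x y K V) : m.χ 0 = 1 := by
  have e := m.χ_add 0 0
  rw [add_zero] at e
  exact (mul_eq_left.1 e.symm)
theorem Mod0.χ_neg (m : Mod0 h x y K V) (c : K) : m.χ (-c) = (m.χ c)⁻¹ := by
  rw [eq_inv_iff_mul_eq_one, ← m.χ_add, neg_add_cancel, m.χ_zero]
theorem Mod0.π_one (m : Mod0 h x y K V) : m.π 1 = 0 := (m.π_ker (one_mem _)).2 (one_mem _)
theorem Mod0.π_inv (m : Mod0 h x y K V) {g : G} (hg : g ∈ h.Q x) : m.π g⁻¹ = -m.π g := by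
  rw [eq_neg_iff_add_eq_zero, ← m.π_mul (inv_mem hg) hg, inv_mul_cancel, m.π_one]
theorem Mod0.π_χ (m : Mod0 h x y K V) (c : K) : m.π (m.χ c) = 0 :=
  (m.π_ker (h.C_le_Q x (m.χ_mem c))).2 (m.χ_mem c)

theorem Mod0.md1_χ_nat (m : Mod0 h x y K V) (c : K) (n : ℕ) : m.χ (n * c) = m.χ c ^ n := by
  induction n with
  | zero => rw [Nat.cast_zero, zero_mul, m.χ_zero, pow_zero]
  | succ n ih => rw [Nat.cast_succ, add_mul, one_mul, m.χ_add, ih, pow_succ]

/-- `1 ≠ a = χ c ∈ E x`, `a ^ p = 1` -/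
theorem Mod0.ringChar_eq (m : Mod0 h x y K V) : ringChar K = p := by
  obtain ⟨a, ha, a1⟩ := h.Ene x
  obtain ⟨c, rfl⟩ := m.χ_surj a (h.E_le_C x ha)
  have c0 : c ≠ 0 := fun e => a1 (by rw [e, m.χ_zero])
  have e : (p : K) * c = 0 := m.χ_inj (by rw [m.md1_χ_nat, h.Epow ha, m.χ_zero])
  exact CharP.ringChar_of_prime_eq_zero h.pr ((mul_eq_zero.1 e).resolve_right c0)
theorem Mod0.two_ne (m : Mod0 h x y K V) : (2 : K) ≠ 0 :=
  Ring.two_ne_zero (by rw [m.ringChar_eq]; have := h.p5; omega)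
theorem Mod0.card_C (m : Mod0 h x y K V) (z : P) : Nat.card (h.C z) = Nat.card K := by
  obtain ⟨g, rfl⟩ := h.trans x z
  symm
  refine Nat.card_eq_of_bijective (fun c => ⟨g * m.χ c * g⁻¹, h.toGeo0.C_conj g (m.χ_mem c)⟩) ⟨fun c d e => ?_, fun a => ?_⟩
  · have e' := congrArg Subtype.val e
    simp only [mul_left_inj, mul_right_inj] at e'
    exact m.χ_inj e'
  · have k := h.toGeo0.C_conj g⁻¹ a.2
    rw [inv_smul_smul] at k
    obtain ⟨c, e⟩ := m.χ_surj _ k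
    exact ⟨c, Subtype.ext (by simp only [e]; group)⟩

/-- With `f u = b u w`: `b (t u) w + b u (t w) = 2 t b u w` (expand for `1 + t`), so `f (t² u) = 2 t f (t u) - t² f u`, `f (t^(n+1) u) = (n + 1) t^n f (t u) - n t^(n+1) f u`, `f (t^p u) = t^p f u`; Frobenius is onto.  Same in the second variable. -/
theorem bilin [Finite K] (b : V →+ V →+ K) (hb : ∀ (t : K) u w, b (t • u) (t • w) = t * t * b u w) (t : K) (u w : V) :
    b (t • u) w = t * b u w ∧ b u (t • w) = t * b u w := by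
  have k : ∀ u w, b (t • u) w + b u (t • w) = 2 * t * b u w := fun u w => by
    have e := hb (1 + t) u w
    simp only [add_smul, one_smul, map_add, AddMonoidHom.add_apply, hb] at e
    linear_combination e
  have D : ∀ u, b (t • t • u) w - t * b (t • u) w = t * (b (t • u) w - t * b u w) := fun u => by
    have e := k (t • u) w
    rw [hb] at e
    linear_combination e
  have D' : ∀ n : ℕ, b (t • t ^ n • u) w - t * b (t ^ n • u) w = t ^ n * (b (t • u) w - t * b u w) := fun n => by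
    induction n with
    | zero => simp
    | succ n ih => rw [pow_succ', mul_smul, D, ih, mul_assoc]
  have F : ∀ n : ℕ, b (t ^ (n + 1) • u) w = t ^ (n + 1) * b u w + ((n + 1 : ℕ) : K) * t ^ n * (b (t • u) w - t * b u w) := fun n => by
    induction n with
    | zero => simp
    | succ n ih =>
      have e := D' (n + 1)
      rw [← mul_smul, ← pow_succ', ih] at e
      push_cast at e ⊢
      linear_combination e
  have := Fintype.ofFinite K
  obtain ⟨n, hn⟩ : ∃ n, Fintype.card K = n + 1 := ⟨_, (Nat.succ_pred_eq_of_pos Fintype.card_pos).symm⟩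
  have e := F n
  rw [← hn, FiniteField.pow_card, FiniteField.cast_card_eq_zero, zero_mul, zero_mul, add_zero] at e
  exact ⟨e, by linear_combination k u w - e⟩

theorem Mod0.md1_cen (m : Mod0 h x y K V) (c : K) {g : G} (hg : g ∈ h.Q x) : m.χ c * g = g * m.χ c :=
  h.C_cen (m.χ_mem c) hg

theorem Mod0.md1_eq (m : Mod0 h x y K V) {g g' : G} (hg : g ∈ h.Q x) (hg' : g' ∈ h.Q x) (e : m.π g = m.π g') :
    ∃ c, g' = g * m.χ c := by
  have k : g⁻¹ * g' ∈ h.C x := (m.π_ker (mul_mem (inv_mem hg) hg')).1 (by rw [m.π_mul (inv_mem hg) hg', m.π_inv hg, e, neg_add_cancel])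
  obtain ⟨c, hc⟩ := m.χ_surj _ k
  exact ⟨c, by rw [hc, mul_inv_cancel_left]⟩

theorem Mod0.md1_b (m : Mod0 h x y K V) :
    ∃ b : V → V → K, ∀ {g g'}, g ∈ h.Q x → g' ∈ h.Q x → g * g' = g' * g * m.χ (b (m.π g) (m.π g')) := by
  choose s sQ sπ using m.π_surj
  have k : ∀ u v, ∃ c, s u * s v = s v * s u * m.χ c := fun u v => by
    obtain ⟨c, hc⟩ := m.χ_surj _ (h.Q_comm (inv_mem (sQ u)) (inv_mem (sQ v)))
    exact ⟨c, by rw [hc]; group⟩
  choose b hb using k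
  refine ⟨b, fun {g g'} hg hg' => ?_⟩
  obtain ⟨c, e⟩ := m.md1_eq (sQ (m.π g)) hg (sπ _)
  obtain ⟨c', e'⟩ := m.md1_eq (sQ (m.π g')) hg' (sπ _)
  generalize m.π g = u at e
  generalize m.π g' = v at e'
  subst e e'
  have a1 := m.md1_cen c (sQ v)
  have a2 := m.md1_cen c' (sQ u)
  calc s u * m.χ c * (s v * m.χ c') = s u * (m.χ c * s v) * m.χ c' := by simp only [mul_assoc]
    _ = s u * s v * (m.χ c * m.χ c') := by rw [a1]; simp only [mul_assoc]
    _ = s v * s u * (m.χ (b u v) * m.χ c * m.χ c') := by rw [hb]; simp only [mul_assoc]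
    _ = s v * s u * (m.χ c' * m.χ c * m.χ (b u v)) := by
      simp only [← m.χ_add]; congr 2; ring
    _ = s v * (s u * m.χ c') * m.χ c * m.χ (b u v) := by simp only [mul_assoc]
    _ = _ := by rw [← a2]; simp only [mul_assoc]

theorem Mod0.md1_β (m : Mod0 h x y K V) :
    ∃ β : V →ₗ[K] V →ₗ[K] K, ∀ {g g'}, g ∈ h.Q x → g' ∈ h.Q x → g * g' = g' * g * m.χ (β (m.π g) (m.π g')) := by
  obtain ⟨b, hb⟩ := m.md1_b
  have uq : ∀ {g g' c}, g ∈ h.Q x → g' ∈ h.Q x → g * g' = g' * g * m.χ c → b (m.π g) (m.π g') = c := fun hg hg' e =>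
    m.χ_inj (mul_left_cancel ((hb hg hg').symm.trans e))
  have a1 : ∀ u v w, b (u + v) w = b u w + b v w := fun u v w => by
    obtain ⟨g, hg, rfl⟩ := m.π_surj u
    obtain ⟨g', hg', rfl⟩ := m.π_surj v
    obtain ⟨k, hk, rfl⟩ := m.π_surj w
    rw [← m.π_mul hg hg']
    refine uq (mul_mem hg hg') hk ?_
    rw [mul_assoc, hb hg' hk, ← mul_assoc, ← mul_assoc, hb hg hk, mul_assoc (k * g), m.md1_cen _ hg', m.χ_add]
    simp only [mul_assoc]
  have a2 : ∀ u v w, b u (v + w) = b u v + b u w := fun u v w => by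
    obtain ⟨g, hg, rfl⟩ := m.π_surj u
    obtain ⟨g', hg', rfl⟩ := m.π_surj v
    obtain ⟨k, hk, rfl⟩ := m.π_surj w
    rw [← m.π_mul hg' hk]
    refine uq hg (mul_mem hg' hk) ?_
    rw [← mul_assoc, hb hg hg', mul_assoc (g' * g), m.md1_cen _ hk, ← mul_assoc, mul_assoc g', hb hg hk, add_comm, m.χ_add]
    simp only [mul_assoc]
  let B : V →+ V →+ K := AddMonoidHom.mk' (fun u => AddMonoidHom.mk' (b u) (a2 u)) fun u v => AddMonoidHom.ext fun w => a1 u v w
  have hB : ∀ u v, B u v = b u v := fun _ _ => rfl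
  have sc : ∀ (t : K) u w, B (t • u) (t • w) = t * t * B u w := fun t u w => by
    by_cases t0 : t = 0
    · simp [t0]
    obtain ⟨g, hg, rfl⟩ := m.π_surj u
    obtain ⟨k, hk, rfl⟩ := m.π_surj w
    have q : ∀ {g}, g ∈ h.Q x → m.hh t * g * (m.hh t)⁻¹ ∈ h.Q x := fun hg => by
      have := h.toGeo0.Q_conj (m.hh t) hg
      rwa [m.hx] at this
    rw [hB, hB, ← m.hπ t0 hg, ← m.hπ t0 hk]
    refine uq (q hg) (q hk) ?_
    rw [← m.hχ _ t0]
    calc _ = m.hh t * (g * k) * (m.hh t)⁻¹ := by group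
      _ = _ := by rw [hb hg hk]; group
  have := m.finK
  exact ⟨LinearMap.mk₂ K b a1 (fun t u w => (bilin B sc t u w).1) a2 (fun t u w => (bilin B sc t u w).2), hb⟩

theorem Mod0.md1_uq (m : Mod0 h x y K V) {i n : G} (I : h.Inv x y i n) {g g' : G} (hg : g ∈ h.Q x) (hg' : g' ∈ h.Q x)
    (e : m.π g = m.π g') (a : i * g * i⁻¹ = g⁻¹) (a' : i * g' * i⁻¹ = g'⁻¹) : g = g' := by
  obtain ⟨c, rfl⟩ := m.md1_eq hg hg' e
  have k : i * m.χ c = m.χ c * i := h.i_C m.opp I (m.χ_mem c)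
  have e1 : i * (g * m.χ c) * i⁻¹ = g⁻¹ * m.χ c := by
    calc _ = i * g * i⁻¹ * (i * m.χ c) * i⁻¹ := by group
      _ = _ := by rw [a, k]; group
  rw [e1, mul_inv_rev, ← m.χ_neg, m.md1_cen _ (inv_mem hg)] at a'
  have e2 : c = -c := m.χ_inj (mul_left_cancel a')
  have e3 : c = 0 := by
    have : 2 * c = 0 := by linear_combination e2
    exact (mul_eq_zero.1 this).resolve_left m.two_ne
  rw [e3, m.χ_zero, mul_one]

theorem Mod0.md1_ex (m : Mod0 h x y K V) {i n : G} (I : h.Inv x y i n) (v : V) :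
    ∃ g ∈ h.Q x, m.π g = v ∧ i * g * i⁻¹ = g⁻¹ := by
  obtain ⟨g, hg, rfl⟩ := m.π_surj v
  obtain ⟨c, hc⟩ := m.χ_surj _ (h.i_Q m.opp I hg)
  have q : m.χ (-(2⁻¹ * c)) ∈ h.Q x := h.C_le_Q x (m.χ_mem _)
  refine ⟨g * m.χ (-(2⁻¹ * c)), mul_mem hg q, by rw [m.π_mul hg q, m.π_χ, add_zero], ?_⟩
  have k : i * m.χ (-(2⁻¹ * c)) = m.χ (-(2⁻¹ * c)) * i := h.i_C m.opp I (m.χ_mem _)
  have e : i * g * i⁻¹ = g⁻¹ * m.χ c := by rw [hc, inv_mul_cancel_left]
  calc _ = i * g * i⁻¹ * (i * m.χ (-(2⁻¹ * c))) * i⁻¹ := by group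
    _ = g⁻¹ * (m.χ c * m.χ (-(2⁻¹ * c))) := by rw [e, k]; group
    _ = g⁻¹ * m.χ (- -(2⁻¹ * c)) := by
      rw [← m.χ_add]; congr 2; have := m.two_ne; field_simp; ring
    _ = _ := by rw [← m.md1_cen _ (inv_mem hg), m.χ_neg, mul_inv_rev]

/-- `b (π g) (π g')` is the `c` with `χ c = (g' g)⁻¹ (g g')`; well defined and biadditive as `C x` is central in `Q x` (`C_cen`, `Q_comm`); conjugation by `hh t` and `bilin`.  Fix `Inv x y i n`; `ex v` is the unique `g ∈ Q x` with `π g = v`, `i g i⁻¹ = g⁻¹`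
(`g (i g i⁻¹) = χ c` by `i_Q`, take `g χ (-c / 2)`, `i_C`).  `ex_U`: `U_iff`.  `ex_conj`: `Inv.cen`. -/
theorem Mod0.exists_mod1 (m : Mod0 h x y K V) : Nonempty (Mod1 h x y K V) := by
  obtain ⟨β, hβ⟩ := m.md1_β
  obtain ⟨i, n, I⟩ := h.inv m.opp
  choose ex exQ exπ exi using m.md1_ex I
  refine ⟨⟨m, β, ex, m.ringChar_eq, fun v => ?_, hβ, exQ, exπ, ?_, fun u v => ?_, fun {r g} a b hg => ?_, fun {e} v a b k => ?_⟩⟩
  · have e := hβ (exQ v) (exQ v)
    rw [exπ] at e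
    exact m.χ_inj (by rw [m.χ_zero]; exact (mul_eq_left.1 e.symm))
  · exact m.md1_uq I (exQ 0) (one_mem _) (by rw [exπ, m.π_one]) (exi 0) (by group)
  · have q : m.χ (-(2⁻¹ * β u v)) ∈ h.Q x := h.C_le_Q x (m.χ_mem _)
    have k : i * m.χ (-(2⁻¹ * β u v)) = m.χ (-(2⁻¹ * β u v)) * i := h.i_C m.opp I (m.χ_mem _)
    have uv := mul_mem (exQ u) (exQ v)
    have e := m.md1_uq I (exQ (u + v)) (mul_mem uv q)
      (by rw [m.π_mul uv q, m.π_mul (exQ u) (exQ v), exπ, exπ, exπ, m.π_χ, add_zero]) (exi _) (by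
        have c := hβ (inv_mem (exQ u)) (inv_mem (exQ v))
        rw [m.π_inv (exQ u), m.π_inv (exQ v), exπ, exπ, map_neg, map_neg, LinearMap.neg_apply, neg_neg] at c
        calc _ = (i * ex u * i⁻¹) * (i * ex v * i⁻¹) * (i * m.χ (-(2⁻¹ * β u v))) * i⁻¹ := by group
          _ = (ex u * ex v)⁻¹ * (m.χ (β u v) * m.χ (-(2⁻¹ * β u v))) := by rw [exi, exi, c, k]; group
          _ = (ex u * ex v)⁻¹ * m.χ (- -(2⁻¹ * β u v)) := by
            rw [← m.χ_add]; congr 2; have := m.two_ne; field_simp; ring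
          _ = _ := by rw [← m.md1_cen _ (inv_mem uv), m.χ_neg, mul_inv_rev (ex u * ex v)])
    rw [e, m.χ_neg, inv_mul_cancel_right]
  · exact m.md1_uq I (exQ _) (mem_inf.1 hg).1 (exπ _) (exi _) ((h.U_iff m.opp I a b).1 hg).inv
  · have c : e * i = i * e := I.cen e (fun a ha => k a (h.E_le_C x ha)) b
    have q : e * ex v * e⁻¹ ∈ h.Q x := by
      have := h.toGeo0.Q_conj e (exQ v)
      rwa [a] at this
    refine m.md1_uq I q (exQ _) (exπ _).symm ?_ (exi _)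
    calc _ = (i * e) * ex v * (i * e)⁻¹ := by group
      _ = e * (i * ex v * i⁻¹) * e⁻¹ := by rw [← c]; group
      _ = _ := by rw [exi]; group

end CL.PT
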