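/- S3235: the maps delta e, e in C r, are proportional. -/
import Mathlib
import Cfsg.Agent.CHEV.PT.Md1
import Cfsg.Agent.KSG.OrthHyp

set_option autoImplicit false

namespace CL.PT

open Subgroup

variable {p : ℕ} {G P : Type*} [Group G] [MulAction G P] [Finite G] [Finite P] {h : Geo p G P} {x y : P}
  {K V : Type*} [Field K] [AddCommGroup V] [Module K V]
 (l : Lin h x y K V) {r : P}

theorem Lin.prp_skew (u v : V) : l.β u v = -l.β v u := by
  have k := l.alt (u + v)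
  simp only [map_add, LinearMap.add_apply, l.alt] at k
  linear_combination k

theorem Lin.prp_nd {v : V} (k : ∀ u, l.β v u = 0) : v = 0 :=
  l.nondeg v fun u => by rw [l.prp_skew, k, neg_zero]

/-- `δ_symm`, `L_perp`, `nondeg` -/
theorem Lin.δ_zero {e : G} (a : h.perp x r) (b : h.perp y r) (he : e ∈ h.C r) {ρ : V} (hρ : ρ ∈ l.L r) : l.δ e ρ = 0 :=
  l.prp_nd fun u => by
    rw [l.δ_symm ρ u a b he]
    exact l.L_perp a b a b (h.refl r) _ (l.δ_mem u a b he) _ hρ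

theorem Lin.δ_mul {e e' : G} (a : h.perp x r) (b : h.perp y r) (he : e ∈ h.C r) (he' : e' ∈ h.C r) : l.δ (e * e') = l.δ e + l.δ e' := by
  ext v
  obtain ⟨g, hg, rfl⟩ := l.π_surj v
  have hg' : e' * g * e'⁻¹ ∈ h.Q x := by
    have k := h.toGeo0.Q_conj e' hg
    rwa [he' x (h.symm a)] at k
  have k1 := l.δ_def a b (mul_mem he he') hg
  have k2 := l.δ_def a b he hg'
  have k3 := l.δ_def a b he' hg
  have e1 : e * e' * g * (e * e')⁻¹ = e * (e' * g * e'⁻¹) * e⁻¹ := by group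
  rw [e1, k2, k3, map_add, l.δ_zero a b he (l.δ_mem _ a b he'), add_zero, add_assoc] at k1
  rw [LinearMap.add_apply, ← add_left_cancel k1, add_comm]

theorem Lin.δ_ker {e : G} (a : h.perp x r) (b : h.perp y r) (he : e ∈ h.C r) {v : V} (k : ∀ ρ ∈ l.L r, l.β ρ v = 0) : l.δ e v = 0 :=
  l.prp_nd fun u => by
    rw [l.δ_symm v u a b he]
    exact k _ (l.δ_mem u a b he)

/-- Among the `q` values of `Y` three have the same `s²` (there are `(q - 1) / 2` non-zero squares); a polynomial of degree `≤ 2` with three roots is zero. -/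
theorem pigeon [Finite K] (h2 : (2 : K) ≠ 0) {a b c a' b' c' : K}
    (k : ∀ Y : K, ∃ s : K, s ≠ 0 ∧ a' + b' * Y + c' * Y * Y = s * s * (a + b * Y + c * Y * Y)) :
    ∃ s : K, a' = s * s * a ∧ b' = s * s * b ∧ c' = s * s * c := by
  classical
  letI := Fintype.ofFinite K
  choose s s0 hs using k
  set T : Finset K := (Finset.univ.erase (0 : K)).image fun u => u * u with hT
  have hc : 2 * T.card ≤ (Finset.univ.erase (0 : K)).card := by
    apply Finset.mul_card_image_le_card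
    intro w hw
    obtain ⟨u, hu, rfl⟩ := Finset.mem_image.1 hw
    have u0 : u ≠ 0 := (Finset.mem_erase.1 hu).1
    have hne : u ≠ -u := fun e => u0 (by
      have : 2 * u = 0 := by linear_combination e
      exact (mul_eq_zero.1 this).resolve_left h2)
    have : ({u, -u} : Finset K) ⊆ (Finset.univ.erase (0 : K)).filter fun z => z * z = u * u := by
      intro z hz
      rcases Finset.mem_insert.1 hz with rfl | hz
      · simp [u0]
      · rw [Finset.mem_singleton.1 hz]; simp [u0]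
    have k := Finset.card_le_card this
    rwa [Finset.card_pair hne] at k
  have hlt : T.card * 2 < (Finset.univ : Finset K).card := by
    have := Finset.card_erase_lt_of_mem (Finset.mem_univ (0 : K))
    omega
  obtain ⟨w, -, hw⟩ := Finset.exists_lt_card_fiber_of_mul_lt_card_of_maps_to (s := Finset.univ) (t := T)
    (f := fun Y => s Y * s Y) (fun Y _ => Finset.mem_image.2 ⟨s Y, by simp [s0 Y], rfl⟩) hlt
  obtain ⟨Y₁, h1, Y₂, h2', Y₃, h3, n12, n13, n23⟩ := Finset.two_lt_card.1 hw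
  have e1 := (Finset.mem_filter.1 h1).2
  have e2 := (Finset.mem_filter.1 h2').2
  have e3 := (Finset.mem_filter.1 h3).2
  have k1 := hs Y₁
  have k2 := hs Y₂
  have k3 := hs Y₃
  rw [e1] at k1
  rw [e2] at k2
  rw [e3] at k3
  have d12 : (b' - w * b) + (c' - w * c) * (Y₁ + Y₂) = 0 := by
    apply mul_left_cancel₀ (sub_ne_zero.2 n12)
    linear_combination k1 - k2
  have d13 : (b' - w * b) + (c' - w * c) * (Y₁ + Y₃) = 0 := by
    apply mul_left_cancel₀ (sub_ne_zero.2 n13)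
    linear_combination k1 - k3
  have dc : c' - w * c = 0 := by
    apply mul_left_cancel₀ (sub_ne_zero.2 n23)
    linear_combination d12 - d13
  have db : b' - w * b = 0 := by linear_combination d12 - (Y₁ + Y₂) * dc
  refine ⟨s Y₁, ?_, ?_, ?_⟩ <;> rw [e1]
  · linear_combination k1 - Y₁ * db - Y₁ * Y₁ * dc
  · linear_combination db
  · linear_combination dc

theorem Lin.δ_one (a : h.perp x r) (b : h.perp y r) : l.δ 1 = 0 := by
  have k := l.δ_mul a b (one_mem _) (one_mem _)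
  rw [mul_one] at k
  simpa using k

theorem Lin.prp_moved (a : h.perp x r) (b : h.perp y r) : ∃ v, l.ex v • r ≠ r := by
  obtain ⟨ρ, hρ, n⟩ := (Submodule.ne_bot_iff _).1 (l.L_ne a b)
  by_contra k
  push Not at k
  exact n (l.prp_nd fun u => (l.fix u a b).1 (k u) ρ hρ)

theorem Lin.prp_sq {e e₀ : G} (a : h.perp x r) (b : h.perp y r) (he : e ∈ h.C r) (he₀ : e₀ ∈ h.C r) (n : e₀ ≠ 1)
    {v₁ : V} (m : l.ex v₁ • r ≠ r) {t : K} (k : l.β (l.δ e v₁) v₁ = t * t * l.β (l.δ e₀ v₁) v₁) :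
    l.δ e = (t * t) • l.δ e₀ := by
  haveI := l.toMod0.finK
  have h2 := l.toMod0.two_ne
  obtain ⟨ω₁, w1, hw1⟩ := l.δ_ω v₁ a b m
  have n0 : l.β (l.δ e₀ v₁) v₁ ≠ 0 := fun z => m ((l.fix v₁ a b).2 (l.δ_an v₁ a b he₀ n z))
  by_cases t0 : t = 0
  · have := hw1 e he
    rw [k, t0, zero_mul, zero_mul, mul_zero, l.toMod0.χ_zero] at this
    have e1 : e = 1 := by
      have e2 : e = ω₁ * (ω₁⁻¹ * e * ω₁) * ω₁⁻¹ := by group
      rw [e2, this]; group
    rw [e1, l.δ_one a b, t0, zero_mul, zero_smul]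
  have ne : e ≠ 1 := by
    rintro rfl
    rw [l.δ_one a b, LinearMap.zero_apply, map_zero, LinearMap.zero_apply] at k
    exact mul_ne_zero (mul_ne_zero t0 t0) n0 k.symm
  have key : ∀ v, ∃ s : K, s ≠ 0 ∧ l.β (l.δ e v) v = s * s * l.β (l.δ e₀ v) v := by
    intro v
    by_cases mv : l.ex v • r = r
    · have z := (l.fix v a b).1 mv
      exact ⟨1, one_ne_zero, by rw [z _ (l.δ_mem v a b he), z _ (l.δ_mem v a b he₀), mul_zero]⟩
    obtain ⟨ω, w, hw⟩ := l.δ_ω v a b mv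
    have gx : (ω⁻¹ * ω₁) • x = x := by rw [mul_smul, w1, inv_smul_eq_iff, w]
    have c0 : ω⁻¹ * ω₁ * l.χ (2⁻¹ * l.β (l.δ e₀ v₁) v₁) * (ω⁻¹ * ω₁)⁻¹ = l.χ (2⁻¹ * l.β (l.δ e₀ v) v) := by
      rw [← hw1 e₀ he₀, ← hw e₀ he₀]; group
    have c1 : ω⁻¹ * ω₁ * l.χ (t * t * (2⁻¹ * l.β (l.δ e₀ v₁) v₁)) * (ω⁻¹ * ω₁)⁻¹ = l.χ (2⁻¹ * l.β (l.δ e v) v) := by
      have : t * t * (2⁻¹ * l.β (l.δ e₀ v₁) v₁) = 2⁻¹ * l.β (l.δ e v₁) v₁ := by rw [k]; ring
      rw [this, ← hw1 e he, ← hw e he]; group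
    obtain ⟨s, hs⟩ := l.sq _ gx c0 c1
    have hs' : l.β (l.δ e v) v = s * s * l.β (l.δ e₀ v) v := by
      apply mul_left_cancel₀ (inv_ne_zero h2)
      rw [hs]; ring
    refine ⟨s, fun s0 => mv ((l.fix v a b).2 (l.δ_an v a b he ne ?_)), hs'⟩
    rw [hs', s0, zero_mul, zero_mul]
  have all : ∀ v, l.β (l.δ e v) v = t * t * l.β (l.δ e₀ v) v := by
    intro v
    obtain ⟨s, s1, -, s3⟩ := pigeon h2 (a := l.β (l.δ e₀ v₁) v₁) (b := 2 * l.β (l.δ e₀ v₁) v) (c := l.β (l.δ e₀ v) v)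
      (a' := l.β (l.δ e v₁) v₁) (b' := 2 * l.β (l.δ e v₁) v) (c' := l.β (l.δ e v) v) fun Y => by
        obtain ⟨s, s0, hs⟩ := key (v₁ + Y • v)
        refine ⟨s, s0, ?_⟩
        simp only [map_add, map_smul, LinearMap.add_apply, LinearMap.smul_apply, smul_eq_mul] at hs
        rw [l.δ_symm v v₁ a b he, l.δ_symm v v₁ a b he₀] at hs
        linear_combination hs
    have : s * s = t * t := mul_right_cancel₀ n0 (s1.symm.trans k)
    rw [s3, this]
  ext u
  rw [LinearMap.smul_apply, ← sub_eq_zero]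
  refine l.prp_nd fun w => ?_
  have k1 := all (u + w)
  simp only [map_add, LinearMap.add_apply] at k1
  rw [l.δ_symm w u a b he, l.δ_symm w u a b he₀, all u, all w] at k1
  rw [map_sub, map_smul, LinearMap.sub_apply, LinearMap.smul_apply, smul_eq_mul]
  apply mul_left_cancel₀ h2
  linear_combination k1

/-- `N e v = β (δ e v) v`.  Fix `v₁` with `ex v₁ • r ≠ r` (`fix`, `L_ne`, `nondeg`), `ω₁` from `δ_ω`: `e ↦ N e v₁` is a bijection `C r → K` (`C_conj`, `χ_surj`), additive.  For `t ≠ 0` let `e_t` have `N e_t v₁ = t² N e₀ v₁`.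
For any `v` with `ex v • r ≠ r`, `ω`: `g = ω⁻¹ ω₁` fixes `x`, `sq` gives `N e_t v = s² N e₀ v`, `s ≠ 0` by `δ_an`; if `ex v • r = r` both sides vanish.  `pigeon` for `v = v₁ + Y v₂`: `N e_t = t² N e₀`, so `δ e_t = t² δ e₀` (polarise, `2 ≠ 0`, `nondeg`).  Every element of `K` is a difference of two squares; `δ_mul`. -/
theorem Lin.prop {e e₀ : G} (a : h.perp x r) (b : h.perp y r) (he : e ∈ h.C r) (he₀ : e₀ ∈ h.C r) (n : e₀ ≠ 1) :
    ∃ t : K, l.δ e = t • l.δ e₀ := by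
  have h2 := l.toMod0.two_ne
  obtain ⟨v₁, m⟩ := l.prp_moved a b
  obtain ⟨ω₁, w1, hw1⟩ := l.δ_ω v₁ a b m
  have n0 : l.β (l.δ e₀ v₁) v₁ ≠ 0 := fun z => m ((l.fix v₁ a b).2 (l.δ_an v₁ a b he₀ n z))
  set N₀ := l.β (l.δ e₀ v₁) v₁ with hN
  set c := l.β (l.δ e v₁) v₁ / N₀ with hc
  have hc' : l.β (l.δ e v₁) v₁ = c * N₀ := by rw [hc, div_mul_cancel₀ _ n0]
  set u := (c - 1) / 2 with hu
  set e' := ω₁ * l.χ (2⁻¹ * (u * u * N₀)) * ω₁⁻¹ with he'
  have m' : e' ∈ h.C r := by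
    have k := h.toGeo0.C_conj ω₁ (l.χ_mem (2⁻¹ * (u * u * N₀)))
    rwa [w1] at k
  have k' : l.β (l.δ e' v₁) v₁ = u * u * N₀ := by
    have k := hw1 e' m'
    have e2 : ω₁⁻¹ * e' * ω₁ = l.χ (2⁻¹ * (u * u * N₀)) := by rw [he']; group
    rw [e2] at k
    exact (mul_left_cancel₀ (inv_ne_zero h2) (l.χ_inj k)).symm
  have d1 := l.prp_sq a b m' he₀ n m k'
  have d2 := l.prp_sq a b (mul_mem he m') he₀ n m (t := (c + 1) / 2) (by
    rw [l.δ_mul a b he m', LinearMap.add_apply, map_add, LinearMap.add_apply, k', hc', ← hN, hu]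
    field_simp
    ring)
  rw [l.δ_mul a b he m', d1] at d2
  exact ⟨(c + 1) / 2 * ((c + 1) / 2) - u * u, by rw [sub_smul, ← d2, add_sub_cancel_right]⟩

theorem Lin.rank_opp {s : P} (a : h.perp x r) (b : h.perp y r) (a' : h.perp x s) (b' : h.perp y s) (o : ¬ h.perp r s) :
    Module.finrank K (l.L r) ≤ Module.finrank K (l.L s) := by
  haveI := l.toMod0.finV
  obtain ⟨e, he, n⟩ := h.Ene r
  obtain ⟨e', he', k, -⟩ := l.δ_inv a b a' b' o (h.E_le_C r he) n
  refine LinearMap.finrank_le_finrank_of_injective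
    (f := ((l.δ e').domRestrict (l.L r)).codRestrict (l.L s) fun ρ => l.δ_mem _ a' b' he') ?_
  rw [← LinearMap.ker_eq_bot, LinearMap.ker_eq_bot']
  intro ρ z
  have z' : l.δ e' ρ = 0 := congrArg Subtype.val z
  have k1 := k ρ ρ.2
  rw [z', map_zero] at k1
  exact Subtype.ext (neg_eq_zero.1 k1.symm)

/-- `s ∈ Σ` opposite `r`, `1 ≠ e ∈ E r`; `σ ↦ β (δ e σ) σ` is an anisotropic quadratic form on `L s` (`δ_an`, `L_opp`), so `finrank ≤ 2` (Chevalley-Warning; cf search anisotropic); `δ e : L s ≃ L r` (`δ_inv`). -/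
theorem Lin.rank_le (a : h.perp x r) (b : h.perp y r) : Module.finrank K (l.L r) = 1 ∨ Module.finrank K (l.L r) = 2 := by
  haveI := l.toMod0.finV
  haveI := l.toMod0.finK
  have rx : r ≠ x := fun e => l.opp (h.symm (e ▸ b))
  obtain ⟨s, a', b', o⟩ := h.toGeo0.sg_opp l.opp a rx
  obtain ⟨e, he, n⟩ := h.Ene r
  have le2 : Module.finrank K (l.L s) ≤ 2 := by
    by_contra k
    obtain ⟨v, hv, v0, q⟩ := CL.Orth.exists_singular_mem (LinearMap.BilinMap.toQuadraticMap (l.β ∘ₗ l.δ e)) (W := l.L s) (by omega)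
    obtain ⟨ρ, hρ, z⟩ := l.L_opp a b a' b' o v hv v0
    exact z (l.δ_an v a b (h.E_le_C r he) n q ρ hρ)
  have k1 := l.rank_opp a b a' b' o
  have k2 : Module.finrank K (l.L r) ≠ 0 := fun z => l.L_ne a b (Submodule.finrank_eq_zero.1 z)
  omega

/-- `δ_inv` for opposite points, `sg_opp2` -/
theorem Lin.rank_eq {s : P} (a : h.perp x r) (b : h.perp y r) (a' : h.perp x s) (b' : h.perp y s) :
    Module.finrank K (l.L r) = Module.finrank K (l.L s) := by
  have key : ∀ {r s : P}, h.perp x r → h.perp y r → h.perp x s → h.perp y s → ¬ h.perp r s →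
      Module.finrank K (l.L r) = Module.finrank K (l.L s) := fun a b a' b' o =>
    le_antisymm (l.rank_opp a b a' b' o) (l.rank_opp a' b' a b fun e => o (h.symm e))
  by_cases o : h.perp r s
  · obtain ⟨t, c, d, o1, o2⟩ := h.toGeo0.sg_opp2 l.opp a b a' b' o
    rw [key a b c d o1, key a' b' c d o2]
  · exact key a b a' b' o

end CL.PT
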