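/- S3235: the complex structure in the unitary case. -/
import Mathlib
import Cfsg.Agent.CHEV.PT.Prp

set_option autoImplicit false

namespace CL.PT

open Subgroup

variable {p : ℕ} {G P : Type*} [Group G] [MulAction G P] [Finite G] [Finite P] {h : Geo p G P} {x y : P}
  {K V : Type*} [Field K] [AddCommGroup V] [Module K V]
 (l : Lin h x y K V)

namespace Cx

omit [Finite G] [Finite P] in
theorem sk (u v : V) : l.β u v = -l.β v u := by
  have := l.alt (u + v)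
  simp only [map_add, LinearMap.add_apply, l.alt] at this
  linear_combination this

omit [Finite G] [Finite P] in
theorem ext' {u v : V} (k : ∀ w, l.β u w = l.β v w) : u = v :=
  sub_eq_zero.1 (l.nondeg _ fun w => by rw [sk, map_sub, LinearMap.sub_apply, k, sub_self, neg_zero])

theorem basis2 {M : Submodule K V} (d : Module.finrank K M = 2) {a b : V} (ha : a ∈ M) (hb : b ∈ M)
    (i : ∀ s t : K, s • a + t • b = 0 → s = 0 ∧ t = 0) {v : V} (hv : v ∈ M) : ∃ s t : K, v = s • a + t • b := by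
  have : Module.Finite K M := Module.finite_of_finrank_pos (by omega)
  have li : LinearIndependent K ![(⟨a, ha⟩ : M), ⟨b, hb⟩] := LinearIndependent.pair_iff.2 fun s t e =>
    i s t (congrArg Subtype.val e)
  have sp := li.span_eq_top_of_card_eq_finrank' (by simp [d])
  have : (⟨v, hv⟩ : M) ∈ Submodule.span K (Set.range ![(⟨a, ha⟩ : M), ⟨b, hb⟩]) := sp ▸ trivial
  rw [Matrix.range_cons_cons_empty, Submodule.mem_span_pair] at this
  obtain ⟨s, t, e⟩ := this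
  exact ⟨s, t, (congrArg Subtype.val e).symm⟩

/-- `r ∈ Σ` -/
def Sg (h : Geo p G P) (x y r : P) : Prop := h.perp x r ∧ h.perp y r

/-- a complex structure on `L s` -/
structure Cs (ε : K) (s : P) (j : V →ₗ[K] V) : Prop where
  mem : ∀ σ ∈ l.L s, j σ ∈ l.L s
  sq : ∀ σ ∈ l.L s, j (j σ) = ε • σ
  alt : ∀ e ∈ h.C s, ∀ u v, l.β (j (l.δ e u)) v = -l.β (j (l.δ e v)) u

/-- compatible structures -/
def Cm (s t : P) (j j' : V →ₗ[K] V) : Prop := ∀ σ ∈ l.L s, ∀ θ ∈ l.L t, l.β (j' θ) σ = -l.β θ (j σ)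

variable {l} {ε : K} {r s t : P} {j j' : V →ₗ[K] V}

omit [Finite G] [Finite P] in
theorem Cm.symm (c : Cm l s t j j') : Cm l t s j' j := fun θ hθ σ hσ => by
  rw [sk l (j σ), sk l σ, c σ hσ θ hθ, neg_neg]

omit [Finite G] [Finite P] in
theorem ex_e (s : P) : ∃ e ∈ h.C s, e ≠ 1 := let ⟨e, a, b⟩ := h.Ene s; ⟨e, h.E_le_C s a, b⟩

omit [Finite G] [Finite P] in
theorem Sg.smul (a : Sg h x y s) (b : Sg h x y t) {e : G} (he : e ∈ h.C s) : Sg h x y (e • t) :=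
  ⟨by rw [← he x (h.symm a.1)]; exact h.smul e b.1, by rw [← he y (h.symm a.2)]; exact h.smul e b.2⟩

theorem transp (a : Sg h x y s) (b : Sg h x y t) (o : ¬ h.perp s t) (c : Cs l ε s j) : ∃ j', Cs l ε t j' ∧ Cm l s t j j' := by
  obtain ⟨e, he, e1⟩ := ex_e (h := h) s
  obtain ⟨e', he', i1, i2⟩ := l.δ_inv a.1 a.2 b.1 b.2 o he e1
  have m := fun v => l.δ_mem v a.1 a.2 he
  have m' := fun v => l.δ_mem v b.1 b.2 he'
  have e1' : e' ≠ 1 := fun k => by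
    obtain ⟨θ, hθ, n⟩ := (l.L t).ne_bot_iff.1 (l.L_ne b.1 b.2)
    have := l.δ_mul b.1 b.2 he' he'
    rw [k, mul_one, left_eq_add] at this
    have := i2 θ hθ
    rw [k, ‹l.δ 1 = 0›] at this
    exact n (neg_eq_zero.1 this.symm)
  refine ⟨-(l.δ e' ∘ₗ j ∘ₗ l.δ e), ⟨fun θ _ => neg_mem (m' _), fun θ hθ => ?_, fun e'' he'' u v => ?_⟩, fun σ hσ θ hθ => ?_⟩
  · simp only [LinearMap.neg_apply, LinearMap.comp_apply, map_neg, neg_neg]
    rw [i1 _ (c.mem _ (m _)), map_neg, c.sq _ (m _), map_neg, map_smul, i2 θ hθ, smul_neg, neg_neg]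
  · obtain ⟨k, e⟩ := l.prop b.1 b.2 he'' he' e1'
    simp only [e, LinearMap.neg_apply, LinearMap.comp_apply, map_neg, LinearMap.smul_apply, map_smul, smul_eq_mul]
    rw [l.δ_symm _ v b.1 b.2 he', l.δ_symm _ u b.1 b.2 he', sk l (l.δ e' v), sk l (l.δ e' u), c.alt _ he]
    ring
  · simp only [LinearMap.neg_apply, LinearMap.comp_apply, map_neg]
    rw [l.δ_symm _ σ b.1 b.2 he', sk l (l.δ e' σ), c.alt _ he, i1 σ hσ, map_neg, map_neg, LinearMap.neg_apply, sk l θ]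
    ring

omit [Finite G] [Finite P] in
theorem inter (a : Sg h x y s) (c : Cs l ε s j) (m : Cm l s t j j') {e : G} (he : e ∈ h.C s) {θ : V} (hθ : θ ∈ l.L t) :
    l.δ e (j' θ) = j (l.δ e θ) := ext' l fun v => by
  rw [l.δ_symm _ v a.1 a.2 he, sk l (l.δ e v), m _ (l.δ_mem v a.1 a.2 he) θ hθ, neg_neg, sk l θ, c.alt e he, neg_neg]

/-- the anisotropic form on `L t` -/
theorem form (b : Sg h x y t) (xy : ¬ h.perp x y) : ∃ e ∈ h.C t, e ≠ 1 ∧ ∃ D : V →ₗ[K] V, (∀ u v, l.β (D u) v = l.β (D v) u) ∧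
    (∀ θ ∈ l.L t, l.δ e (D θ) = -θ) ∧ ∀ θ ∈ l.L t, l.β (D θ) θ = 0 → θ = 0 := by
  obtain ⟨s, a1, a2, o⟩ := h.sg_opp xy b.1 fun k => xy (h.symm (k ▸ b.2))
  obtain ⟨e, he, e1⟩ := ex_e (h := h) t
  obtain ⟨e', he', i1, i2⟩ := l.δ_inv b.1 b.2 a1 a2 o he e1
  refine ⟨e, he, e1, l.δ e', fun u v => l.δ_symm u v a1 a2 he', i1, fun θ hθ k => by_contra fun n => ?_⟩
  have e1' : e' ≠ 1 := fun k => by
    have := l.δ_mul a1 a2 he' he'
    rw [k, mul_one, left_eq_add] at this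
    have := i1 θ hθ
    rw [k, ‹l.δ 1 = 0›, LinearMap.zero_apply, map_zero] at this
    exact n (neg_eq_zero.1 this.symm)
  obtain ⟨ρ, hρ, k'⟩ := l.L_opp a1 a2 b.1 b.2 (fun k => o (h.symm k)) θ hθ n
  exact k' (l.δ_an θ a1 a2 he' e1' k ρ hρ)

theorem uniq (b : Sg h x y t) (d : Module.finrank K (l.L t) = 2) (e0 : ε ≠ 0) (c : Cs l ε t j) (c' : Cs l ε t j') :
    ∃ η : K, (η = 1 ∨ η = -1) ∧ ∀ θ ∈ l.L t, j' θ = η • j θ := by
  obtain ⟨e, he, -, D, sy, i1, an⟩ := form (l := l) b l.opp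
  have h2 := l.two_ne
  have skw : ∀ {j : V →ₗ[K] V}, Cs l ε t j → ∀ u ∈ l.L t, ∀ v ∈ l.L t, l.β (D v) (j u) = -l.β (D u) (j v) := fun c u hu v hv => by
    have := c.alt e he (D u) (D v)
    rw [i1 u hu, i1 v hv, map_neg, map_neg, map_neg, map_neg, LinearMap.neg_apply, LinearMap.neg_apply] at this
    rw [sk l (D v), sk l (D u)]
    linear_combination this
  have z : ∀ {j : V →ₗ[K] V}, Cs l ε t j → ∀ u ∈ l.L t, l.β (D u) (j u) = 0 := fun c u hu => by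
    have := skw c u hu u hu
    exact mul_left_cancel₀ h2 (by linear_combination this)
  obtain ⟨θ, hθ, n⟩ := (l.L t).ne_bot_iff.1 (l.L_ne b.1 b.2)
  have nθ : l.β (D θ) θ ≠ 0 := fun k => n (an θ hθ k)
  have jn : j θ ≠ 0 := fun k => by
    have := c.sq θ hθ
    rw [k, map_zero] at this
    exact n ((smul_eq_zero.1 this.symm).resolve_left e0)
  have nj : l.β (D (j θ)) (j θ) ≠ 0 := fun k => jn (an _ (c.mem θ hθ) k)
  have ind : ∀ s t : K, s • θ + t • j θ = 0 → s = 0 ∧ t = 0 := fun s t k => by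
    have k1 := congrArg (l.β (D θ)) k
    simp only [map_add, map_smul, smul_eq_mul, z c θ hθ, map_zero, mul_zero, add_zero] at k1
    have s0 := (mul_eq_zero.1 k1).resolve_right nθ
    rw [s0, zero_smul, zero_add] at k
    exact ⟨s0, (smul_eq_zero.1 k).resolve_right jn⟩
  obtain ⟨a1, b1, k1⟩ := basis2 d hθ (c.mem θ hθ) ind (c'.mem θ hθ)
  obtain ⟨a2, b2, k2⟩ := basis2 d hθ (c.mem θ hθ) ind (c'.mem _ (c.mem θ hθ))
  have p1 := z c' θ hθ
  rw [k1] at p1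
  simp only [map_add, map_smul, smul_eq_mul, z c θ hθ, mul_zero, add_zero] at p1
  have a0 := (mul_eq_zero.1 p1).resolve_right nθ
  have p2 := z c' _ (c.mem θ hθ)
  rw [k2] at p2
  simp only [map_add, map_smul, smul_eq_mul, sy (j θ) θ, z c θ hθ, mul_zero, zero_add] at p2
  have b0 := (mul_eq_zero.1 p2).resolve_right nj
  rw [a0, zero_smul, zero_add] at k1
  rw [b0, zero_smul, add_zero] at k2
  have p3 := skw c' _ (c.mem θ hθ) θ hθ
  have p4 := skw c _ (c.mem θ hθ) θ hθ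
  rw [k1, k2] at p3
  rw [c.sq θ hθ] at p4
  simp only [map_smul, smul_eq_mul] at p3 p4
  have a2e : a2 = b1 * ε := mul_right_cancel₀ nθ (by linear_combination p3 - b1 * p4)
  have p5 := c'.sq θ hθ
  rw [k1, map_smul, k2, smul_smul, a2e] at p5
  have p6 : b1 * (b1 * ε) = ε := smul_left_injective K n p5
  refine ⟨b1, mul_self_eq_one_iff.1 (mul_right_cancel₀ e0 (by linear_combination p6)), fun v hv => ?_⟩
  obtain ⟨s, u, rfl⟩ := basis2 d hθ (c.mem θ hθ) ind hv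
  simp only [map_add, map_smul, k1, k2, c.sq θ hθ, a2e]
  module

theorem tri (d2 : ∀ r, h.perp x r → h.perp y r → Module.finrank K (l.L r) = 2) (e0 : ε ≠ 0) {jr js jt : V →ₗ[K] V}
    (a : Sg h x y r) (b : Sg h x y s) (c : Sg h x y t) (rs : ¬ h.perp r s) (rt : ¬ h.perp r t) (cr : Cs l ε r jr) (cs : Cs l ε s js)
    (ct : Cs l ε t jt) (m1 : Cm l r s jr js) (m2 : Cm l r t jr jt) : Cm l s t js jt := by
  have h2 := l.two_ne
  by_cases st : h.perp s t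
  · intro σ hσ θ hθ
    rw [l.L_perp c.1 c.2 b.1 b.2 (h.symm st) _ (ct.mem θ hθ) σ hσ, l.L_perp c.1 c.2 b.1 b.2 (h.symm st) θ hθ _ (cs.mem σ hσ), neg_zero]
  obtain ⟨j', c', m'⟩ := transp b c st cs
  obtain ⟨η, hη, k⟩ := uniq c (d2 t c.1 c.2) e0 c' ct
  rcases hη with rfl | rfl
  · intro σ hσ θ hθ
    rw [k θ hθ, one_smul, m' σ hσ θ hθ]
  exfalso
  have pl : ∀ σ ∈ l.L s, ∀ θ ∈ l.L t, l.β (jt θ) σ = l.β θ (js σ) := fun σ hσ θ hθ => by
    rw [k θ hθ, neg_one_smul, map_neg, LinearMap.neg_apply, m' σ hσ θ hθ, neg_neg]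
  obtain ⟨e, he, e1⟩ := ex_e (h := h) t
  have a' := c.smul a he
  have tr' : ¬ h.perp t (e • r) := fun o => rt (h.symm ((h.smul_iff e).1 (by rwa [he t (h.refl t)])))
  obtain ⟨j4, c4, m4⟩ := transp c a' tr' ct
  have dm := fun v => l.δ_mem v c.1 c.2 he
  have tt := l.L_perp c.1 c.2 c.1 c.2 (h.refl t)
  have EL := l.δ_L c.1 c.2 a.1 a.2 he
  have q : ∀ ρ ∈ l.L r, j4 (ρ + l.δ e ρ) = jr ρ + l.δ e (jr ρ) := fun ρ hρ => by
    by_contra n
    obtain ⟨θ, hθ, k⟩ := l.L_opp c.1 c.2 a'.1 a'.2 tr' _ (sub_mem (c4.mem _ (EL ρ hρ)) (EL _ (cr.mem ρ hρ))) (sub_ne_zero.2 n)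
    apply k
    have k1 := m4 θ hθ _ (EL ρ hρ)
    have k2 := m2 ρ hρ θ hθ
    simp only [map_add, LinearMap.add_apply, tt _ (dm ρ) _ (ct.mem θ hθ), add_zero] at k1
    rw [map_sub, sk l θ (j4 _), map_add, map_add, LinearMap.add_apply, k1, map_add, tt θ hθ _ (dm _), sk l ρ, k2]
    ring
  have w : ∃ η : K, (η = 1 ∨ η = -1) ∧ ∀ σ ∈ l.L s, ∀ ρ ∈ l.L (e • r), l.β (j4 ρ) σ = η * l.β ρ (js σ) := by
    by_cases o : h.perp s (e • r)
    · exact ⟨1, .inl rfl, fun σ hσ ρ hρ => by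
        rw [l.L_perp a'.1 a'.2 b.1 b.2 (h.symm o) _ (c4.mem ρ hρ) σ hσ,
          l.L_perp a'.1 a'.2 b.1 b.2 (h.symm o) ρ hρ _ (cs.mem σ hσ), mul_zero]⟩
    · obtain ⟨j3, c3, m3⟩ := transp b a' o cs
      obtain ⟨η, hη, k⟩ := uniq a' (d2 _ a'.1 a'.2) e0 c3 c4
      refine ⟨-η, by rcases hη with rfl | rfl <;> simp, fun σ hσ ρ hρ => ?_⟩
      rw [k ρ hρ, map_smul, LinearMap.smul_apply, m3 σ hσ ρ hρ, smul_eq_mul]; ring
  obtain ⟨η, hη, w⟩ := w
  obtain ⟨σ, hσ, n⟩ := (l.L s).ne_bot_iff.1 (l.L_ne b.1 b.2)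
  have jn : js σ ≠ 0 := fun k => by
    have := cs.sq σ hσ
    rw [k, map_zero] at this
    exact n ((smul_eq_zero.1 this.symm).resolve_left e0)
  have key : ∀ ρ ∈ l.L r, -l.β ρ (js σ) + l.β (l.δ e ρ) (js σ) = η * (l.β ρ (js σ) + l.β (l.δ e ρ) (js σ)) := fun ρ hρ => by
    have k1 := w σ hσ _ (EL ρ hρ)
    rw [q ρ hρ, inter c ct m2.symm he hρ] at k1
    simp only [map_add, LinearMap.add_apply] at k1
    rw [pl σ hσ _ (dm ρ), m1.symm σ hσ ρ hρ] at k1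
    exact k1
  rcases hη with rfl | rfl
  · obtain ⟨ρ, hρ, k⟩ := l.L_opp a.1 a.2 b.1 b.2 rs _ (cs.mem σ hσ) jn
    exact k (mul_left_cancel₀ h2 (by linear_combination -key ρ hρ))
  · obtain ⟨θ, hθ, k⟩ := l.L_opp c.1 c.2 b.1 b.2 (fun o => st (h.symm o)) _ (cs.mem σ hσ) jn
    obtain ⟨e', he', i1, -⟩ := l.δ_inv c.1 c.2 a.1 a.2 (fun o => rt (h.symm o)) he e1
    have := key _ (l.δ_mem θ a.1 a.2 he')
    rw [i1 θ hθ, map_neg, LinearMap.neg_apply] at this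
    exact k (mul_left_cancel₀ h2 (by linear_combination -this))

theorem base (b : Sg h x y t) (d : Module.finrank K (l.L t) = 2) : ∃ (ε : K) (j : V →ₗ[K] V), ¬ IsSquare ε ∧ Cs l ε t j := by
  obtain ⟨e, he, e1, D, sy, i1, an⟩ := form (l := l) b l.opp
  obtain ⟨a, ha, n⟩ := (l.L t).ne_bot_iff.1 (l.L_ne b.1 b.2)
  have na : l.β (D a) a ≠ 0 := fun k => n (an a ha k)
  obtain ⟨c, hc, nc, ac⟩ : ∃ c ∈ l.L t, c ≠ 0 ∧ l.β (D a) c = 0 := by
    have : Module.Finite K (l.L t) := Module.finite_of_finrank_pos (by omega)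
    have := LinearMap.ker_ne_bot_of_finrank_lt (f := (l.β (D a)).domRestrict (l.L t)) (by simp [d])
    obtain ⟨c, hc, n⟩ := (Submodule.ne_bot_iff _).1 this
    exact ⟨c, c.2, fun k => n (Subtype.ext k), hc⟩
  have ca : l.β (D c) a = 0 := by rw [sy, ac]
  have nc' : l.β (D c) c ≠ 0 := fun k => nc (an c hc k)
  have ind : ∀ s t : K, s • a + t • c = 0 → s = 0 ∧ t = 0 := fun s t k => by
    have k1 := congrArg (l.β (D a)) k
    have k2 := congrArg (l.β (D c)) k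
    simp only [map_add, map_smul, smul_eq_mul, ac, ca, map_zero, mul_zero, add_zero, zero_add] at k1 k2
    exact ⟨(mul_eq_zero.1 k1).resolve_right na, (mul_eq_zero.1 k2).resolve_right nc'⟩
  refine ⟨-(l.β (D a) a * l.β (D c) c), (l.β (D a)).smulRight c - (l.β (D c)).smulRight a, fun ⟨k, hk⟩ => ?_,
    fun σ _ => sub_mem (Submodule.smul_mem _ _ hc) (Submodule.smul_mem _ _ ha), fun σ hσ => ?_, fun e' he' u v => ?_⟩
  · have := an (k • a + l.β (D a) a • c) (add_mem (Submodule.smul_mem _ _ ha) (Submodule.smul_mem _ _ hc)) (by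
      simp only [map_add, map_smul, LinearMap.add_apply, LinearMap.smul_apply, smul_eq_mul, ac, ca]
      linear_combination (-l.β (D a) a) * hk)
    exact na (ind _ _ this).2
  · obtain ⟨s, u, rfl⟩ := basis2 d ha hc ind hσ
    simp only [LinearMap.sub_apply, LinearMap.smulRight_apply, map_add, map_sub, map_smul, ac, ca]
    module
  · obtain ⟨k, e⟩ := l.prop b.1 b.2 he' he e1
    have q : ∀ a ∈ l.L t, ∀ u, l.β (D a) (l.δ _ u) = l.β a u := fun a ha u => by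
      rw [sk l (D a), l.δ_symm u _ b.1 b.2 he, i1 a ha, map_neg, LinearMap.neg_apply, neg_neg]
    simp only [e, LinearMap.sub_apply, LinearMap.smulRight_apply, LinearMap.smul_apply, map_sub, map_smul, smul_eq_mul,
      q a ha, q c hc]
    ring

/-- moving a point `t ⊥ r` to a point opposite `r` -/
theorem move (l : Lin h x y K V) (a : Sg h x y r) (c : Sg h x y t) (o : h.perp r t) :
    ∃ s e, Sg h x y s ∧ ¬ h.perp r s ∧ e ∈ h.C s ∧ ¬ h.perp r (e • t) := by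
  obtain ⟨s, b1, b2, rs, ts⟩ := h.sg_opp2 l.opp a.1 a.2 c.1 c.2 o
  obtain ⟨e, he, e1⟩ := ex_e (h := h) s
  refine ⟨s, e, ⟨b1, b2⟩, rs, he, fun k => ?_⟩
  have t' := Sg.smul ⟨b1, b2⟩ c he
  obtain ⟨θ, hθ, n⟩ := (l.L t).ne_bot_iff.1 (l.L_ne c.1 c.2)
  obtain ⟨e', -, -, i2⟩ := l.δ_inv b1 b2 c.1 c.2 (fun k => ts (h.symm k)) he e1
  have dn : l.δ e θ ≠ 0 := fun k => by
    have := i2 θ hθ
    rw [k, map_zero] at this
    exact n (neg_eq_zero.1 this.symm)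
  obtain ⟨ρ, hρ, k'⟩ := l.L_opp a.1 a.2 b1 b2 rs _ (l.δ_mem θ b1 b2 he) dn
  have := l.L_perp a.1 a.2 t'.1 t'.2 k ρ hρ _ (l.δ_L b1 b2 c.1 c.2 he θ hθ)
  rw [map_add, l.L_perp a.1 a.2 c.1 c.2 o ρ hρ θ hθ, zero_add] at this
  exact k' this

end Cx

open Cx in
/-- Fix `r₀ ∈ Σ`, `s₀` opposite, `1 ≠ e₀ ∈ C r₀`, `B₀ u v = β (δ e₀ u) v` anisotropic symmetric on `L s₀` (dimension 2): orthogonal basis `σ₁, σ₂` with values `α, γ`; `j σ₁ = α σ₂`, `j σ₂ = -γ σ₁` is skew for `B₀`, `j² = ε = -α γ`, a non-square.  `j₀ = δ e₀ j (δ e₀)⁻¹` on `L r₀`; `β (j₀ ρ) σ = -β ρ (j σ)`.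
For `s ∈ Σ` opposite `r₀`, `β` is a perfect pairing of `L r₀` and `L s`; `J_s` on `L s` is defined by `β ρ (J_s σ) = -β (j₀ ρ) σ`, `J_s² = ε`.
(1) `δ e J_s = j₀ δ e` on `L s` for `e ∈ C r₀` (`prop`; for `e₀`: `β (j₀ δu) v` is alternating in `u, v ∈ V`: write `u = σ + u'`, `u' ∈ (L r₀)^⊥`), hence `δ e' j₀ = J_s δ e'` on `L r₀` for `e' ∈ C s` (`δ_inv`, `prop`).  So `J_s` is skew for the form `n_s (δ e' u, δ e' v) = β (δ e' u) v` on `L s`; a skew map with square `ε` on an anisotropic plane is unique up to sign.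
(2) For `s, t` opposite `r₀`: `β (J_t θ) σ = -β θ (J_s σ)`.  If `s ⊥ t` both sides vanish.  Else by the uniqueness up to sign (the transpose of `J_s` through the pairing `L t × L s` is skew for `n_t` by (1) applied to the pair `s, t`) the identity holds with a sign `±`; suppose `+`.  Take `1 ≠ e ∈ C t`, `r' = e • r₀`, `L r' = {ρ + δ e ρ}`, `J' (ρ + δ e ρ) = j₀ ρ + δ e (j₀ ρ)`;
the pairing `β₀ + β₁`, `β₀ = β ρ σ`, `β₁ = β (δ e ρ) σ`, of `L r'` with `L s` is zero or `±`-compatible with `J', J_s`; `β₀` is `-`-compatible, `β₁` is `+`-compatible, both are non-zero: contradiction (`2 ≠ 0`).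
(3) The `L s`, `s = r₀` or opposite `r₀`, span `V`: for `t ⊥ r₀`, `t ≠ r₀` take `s` opposite both (`sg_opp2`), `1 ≠ e ∈ C s`; `t' = e • t` is opposite `r₀` and `L t ≤ L t' ⊔ L s`.  `J v` is the unique `w` with `β w θ = -β v (J_t θ)` for all `θ ∈ L t`, `t` in the family (exists on generators by (2), so for all `v`; unique by `nondeg`).  `J` commutes with `δ e`, `e ∈ C s`, so `L t` is `J`-invariant.
TIP: formalise the local structures as predicates on linear maps `j : V →ₗ V` considered only on `L s` (`Cx s j := maps L s to L s ∧ j² = ε on L s ∧ skew for n_s`). -/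
theorem Lin.exists_J (d2 : ∀ r, h.perp x r → h.perp y r → Module.finrank K (l.L r) = 2) :
    ∃ (ε : K) (J : V →ₗ[K] V), ¬ IsSquare ε ∧ (∀ v, J (J v) = ε • v) ∧ (∀ u v, l.β (J u) v = -l.β u (J v)) ∧
      ∀ r, h.perp x r → h.perp y r → ∀ ρ ∈ l.L r, J ρ ∈ l.L r := by
  obtain ⟨r, a1, a2⟩ := h.sg_ex l.opp
  have a : Sg h x y r := ⟨a1, a2⟩
  obtain ⟨ε, j0, ns, c0⟩ := base (l := l) a (d2 r a1 a2)
  have e0 : ε ≠ 0 := fun k => ns (k ▸ IsSquare.zero)
  have ex : ∀ s, ∃ j : V →ₗ[K] V, (s = r → j = j0) ∧ (Sg h x y s → ¬ h.perp r s → Cs l ε s j ∧ Cm l r s j0 j) := fun s => by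
    by_cases k : Sg h x y s ∧ ¬ h.perp r s
    · obtain ⟨j, c⟩ := transp a k.1 k.2 c0
      exact ⟨j, fun e => absurd (e ▸ h.refl s) k.2, fun _ _ => c⟩
    · exact ⟨j0, fun _ => rfl, fun b c => absurd ⟨b, c⟩ k⟩
  choose j jr js using ex
  let Fm : P → Prop := fun s => Sg h x y s ∧ (s = r ∨ ¬ h.perp r s)
  have cs : ∀ s, Fm s → Cs l ε s (j s) := fun s ⟨b, k⟩ => k.elim (fun e => by rw [jr s e, e]; exact c0) fun o => (js s b o).1
  have cm : ∀ s t, Fm s → Fm t → Cm l s t (j s) (j t) := fun s t fs ft => by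
    rcases fs.2 with rfl | o
    · rcases ft.2 with rfl | o'
      · intro σ hσ θ hθ
        rw [l.L_perp a1 a2 a1 a2 (h.refl _) _ ((cs _ fs).mem θ hθ) σ hσ,
          l.L_perp a1 a2 a1 a2 (h.refl _) θ hθ _ ((cs _ fs).mem σ hσ), neg_zero]
      · rw [jr s rfl]; exact (js t ft.1 o').2
    · rcases ft.2 with rfl | o'
      · rw [jr t rfl]; exact (js s fs.1 o).2.symm
      · exact tri d2 e0 a fs.1 ft.1 o o' c0 (cs s fs) (cs t ft) (js s fs.1 o).2 (js t ft.1 o').2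
  have gen : ∀ M : Submodule K V, (∀ s, Fm s → l.L s ≤ M) → ∀ v, v ∈ M := fun M hM v => by
    have : (⊤ : Submodule K V) ≤ M := l.span ▸ iSup₂_le fun t c => by
      by_cases o : h.perp r t
      · obtain ⟨s, e, b, rs, he, o'⟩ := move l a c o
        intro θ hθ
        have := sub_mem (hM _ ⟨b.smul c he, .inr o'⟩ (l.δ_L b.1 b.2 c.1 c.2 he θ hθ)) (hM s ⟨b, .inr rs⟩ (l.δ_mem θ b.1 b.2 he))
        rwa [add_sub_cancel_right] at this
      · exact hM t ⟨c, .inr o⟩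
    exact this trivial
  have un : ∀ w w', (∀ s, Fm s → ∀ θ ∈ l.L s, l.β w θ = l.β w' θ) → w = w' := fun w w' k =>
    ext' l fun v => gen (LinearMap.eqLocus (l.β w) (l.β w')) (fun s fs θ hθ => k s fs θ hθ) v
  have exJ : ∀ v, ∃ w, ∀ s, Fm s → ∀ θ ∈ l.L s, l.β w θ = -l.β v (j s θ) := fun v => gen
    { carrier := {v | ∃ w, ∀ s, Fm s → ∀ θ ∈ l.L s, l.β w θ = -l.β v (j s θ)}
      add_mem' := fun ⟨w, a⟩ ⟨w', b⟩ => ⟨w + w', fun s fs θ hθ => by
        simp only [map_add, LinearMap.add_apply, a s fs θ hθ, b s fs θ hθ]; ring⟩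
      zero_mem' := ⟨0, fun _ _ _ _ => by simp⟩
      smul_mem' := fun c _ ⟨w, a⟩ => ⟨c • w, fun s fs θ hθ => by
        simp only [map_smul, LinearMap.smul_apply, a s fs θ hθ, smul_eq_mul]; ring⟩ }
    (fun t ft θ hθ => ⟨j t θ, fun s fs σ hσ => cm s t fs ft σ hσ θ hθ⟩) v
  choose f hf using exJ
  let J : V →ₗ[K] V :=
    { toFun := f
      map_add' := fun u v => un _ _ fun s fs θ hθ => by
        simp only [map_add, LinearMap.add_apply, hf _ s fs θ hθ]; ring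
      map_smul' := fun c v => un _ _ fun s fs θ hθ => by
        simp only [map_smul, LinearMap.smul_apply, hf _ s fs θ hθ, smul_eq_mul, RingHom.id_apply]; ring }
  have hJ : ∀ v s, Fm s → ∀ θ ∈ l.L s, l.β (J v) θ = -l.β v (j s θ) := hf
  have Jj : ∀ t, Fm t → ∀ θ ∈ l.L t, J θ = j t θ := fun t ft θ hθ => un _ _ fun s fs σ hσ => by
    rw [hJ θ s fs σ hσ, cm s t fs ft σ hσ θ hθ]
  have skJ : ∀ u v, l.β (J u) v = -l.β u (J v) := fun u v =>
    gen (LinearMap.eqLocus (l.β (J u)) (-(l.β u ∘ₗ J))) (fun s fs θ hθ => by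
      rw [LinearMap.mem_eqLocus, hJ u s fs θ hθ, LinearMap.neg_apply, LinearMap.comp_apply, Jj s fs θ hθ]) v
  have JL : ∀ t, Fm t → ∀ θ ∈ l.L t, J θ ∈ l.L t := fun t ft θ hθ => Jj t ft θ hθ ▸ (cs t ft).mem θ hθ
  refine ⟨ε, J, ns, fun v => LinearMap.mem_eqLocus.1 (gen (LinearMap.eqLocus (J ∘ₗ J) (ε • (LinearMap.id : V →ₗ[K] V)))
    (fun s fs θ hθ => ?_) v), skJ, fun t c1 c2 θ hθ => ?_⟩
  · rw [LinearMap.mem_eqLocus, LinearMap.comp_apply, Jj s fs _ (JL s fs θ hθ), Jj s fs θ hθ, (cs s fs).sq θ hθ]; rfl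
  · by_cases o : h.perp r t
    · obtain ⟨s, e, b, rs, he, o'⟩ := move l a ⟨c1, c2⟩ o
      have fs : Fm s := ⟨b, .inr rs⟩
      have t' := b.smul ⟨c1, c2⟩ he
      have dm := fun v => l.δ_mem v b.1 b.2 he
      have cJ : l.δ e (J θ) = J (l.δ e θ) := ext' l fun v => by
        rw [l.δ_symm _ v b.1 b.2 he, sk l (l.δ e v), skJ, neg_neg, Jj s fs _ (dm _), Jj s fs _ (dm _), sk l θ, (cs s fs).alt e he, neg_neg]
      have k1 := JL _ ⟨t', .inr o'⟩ _ (l.δ_L b.1 b.2 c1 c2 he θ hθ)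
      have k2 := l.δ_L b.1 b.2 t'.1 t'.2 (inv_mem he) _ k1
      have d1 := l.δ_mul b.1 b.2 (one_mem _) (one_mem _)
      rw [mul_one, left_eq_add] at d1
      have d3 := l.δ_mul b.1 b.2 he (inv_mem he)
      rw [mul_inv_cancel, d1, eq_comm, add_eq_zero_iff_neg_eq] at d3
      rw [inv_smul_smul, ← d3, map_add, ← cJ, LinearMap.neg_apply, map_add, l.δ_zero b.1 b.2 he (dm _)] at k2
      simpa using k2
    · exact JL t ⟨⟨c1, c2⟩, .inr o⟩ θ hθ

end CL.PT
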