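/- S3235: quadratic action, the elements mu. -/
import Mathlib
import Cfsg.Agent.CHEV.PT.Qb

set_option autoImplicit false

namespace CL.PT

open Subgroup

variable {p : ℕ} {G P : Type*} [Group G] [MulAction G P] [Finite G] [Finite P]
 (h : Geo p G P) {x y r s : P}

namespace Geo

namespace Dl

theorem pf {g : G} {t : P} (e : g • t = t) (o : h.perp y t) : h.perp (g • y) t := by
  have := h.smul g o; rwa [e] at this

theorem Qx {g : G} (hg : g ∈ h.Q x) : g • x = x := (h.Q_le_J x hg).1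

theorem ne (xy : ¬ h.perp x y) (b : h.perp y r) : r ≠ x := fun e => xy (h.symm (e ▸ b))

/-- `C x` and `C w` commute for `w ⊥ x` -/
theorem cc {w : P} {a c : G} (o : h.perp x w) (ha : a ∈ h.C x) (hc : c ∈ h.C w) : Commute a c := by
  by_cases e : x = w
  · subst e; exact h.C_cen ha (h.C_le_Q x hc)
  · exact h.C_comm o e ha hc

theorem UQ {g : G} (hg : g ∈ h.U x y r) : g ∈ h.Q x := hg.1

theorem Ufix {g : G} (xy : ¬ h.perp x y) (a : h.perp x r) (b : h.perp y r) (hg : g ∈ h.U x y r) : g • r = r :=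
  h.Z_fix (h.U_le_Z xy a b hg) (h.symm a) (h.refl r)

theorem Uy {g : G} (xy : ¬ h.perp x y) (a : h.perp x r) (b : h.perp y r) (hg : g ∈ h.U x y r) : h.perp y (g • y) :=
  ((h.mem_U xy a b).1 hg).2.perp_left b

theorem CU {e u : G} (xy : ¬ h.perp x y) (a : h.perp x r) (b : h.perp y r) (he : e ∈ h.C r) (hu : u ∈ h.U x y r) : Commute e u :=
  h.C_Z (h.symm a) (h.refl r) he (h.U_le_Z xy a b hu)

theorem opp {g : G} (xy : ¬ h.perp x y) (a : h.perp x r) (b : h.perp y r) (hg : g ∈ h.Q x) (n : g • r ≠ r) : ¬ h.perp y (g • r) :=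
  fun o => n (by
    have := h.J_fix ((h.J x).inv_mem (h.Q_le_J x hg)) xy a b ((h.smul_right g).1 o)
    rwa [inv_smul_eq_iff, eq_comm] at this)

theorem kQ {e g : G} (a : h.perp x r) (he : e ∈ h.C r) (hg : g ∈ h.Q x) : g * (e * g⁻¹ * e⁻¹) ∈ h.Q x := by
  have := h.Q_conj e ((h.Q x).inv_mem hg)
  rw [he x (h.symm a)] at this
  exact (h.Q x).mul_mem hg this

theorem ky {e : G} (g : G) (b : h.perp y r) (he : e ∈ h.C r) : (g * (e * g⁻¹ * e⁻¹)) • y = (g * e * g⁻¹) • y := by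
  simp only [mul_smul, (h.C r).inv_mem he y (h.symm b)]

end Dl

/-- `b ∈ C y` with `b • x = a⁻¹ • y` (`mouf` for `y, x`; `a⁻¹ • y` is opposite `y` by `C_opp`), `a₂ ∈ C x` with `a₂ • y = b⁻¹ • x` (`b ≠ 1`) -/
theorem mu_ex {a : G} (xy : ¬ h.perp x y) (ha : a ∈ h.C x) (a1 : a ≠ 1) : ∃ b a₂, h.Mu x y a b a₂ := by
  have yx : ¬ h.perp y x := fun e => xy (h.symm e)
  obtain ⟨b, hb, e⟩ := h.mouf (w := a⁻¹ • y) yx (fun o => a1 (inv_eq_one.1 (h.C_opp ((h.C x).inv_mem ha) xy o)))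
    fun r k l => Dl.pf h ((h.C x).inv_mem ha r l) k
  have b1 : b⁻¹ ≠ 1 := fun k => xy (by
    rw [inv_eq_one.1 k, one_smul, eq_inv_smul_iff, ha x (h.refl x)] at e; rw [← e]; exact h.refl x)
  obtain ⟨c, hc, e'⟩ := h.mouf (w := b⁻¹ • x) xy (fun o => b1 (h.C_opp ((h.C y).inv_mem hb) yx o))
    fun r k l => Dl.pf h ((h.C y).inv_mem hb r l) k
  exact ⟨b, c, ha, hb, hc, by rw [mul_smul, mul_smul, hc x (h.refl x), e, smul_inv_smul],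
    by rw [mul_smul, mul_smul, e', smul_inv_smul, ha x (h.refl x)]⟩
theorem mu_uniq {a b a₂ b' a₂' : G} (xy : ¬ h.perp x y) (m : h.Mu x y a b a₂) (m' : h.Mu x y a b' a₂') : b = b' ∧ a₂ = a₂' := by
  have yx : ¬ h.perp y x := fun e => xy (h.symm e)
  have e1 : b = b' := by
    have k := m.sx.trans m'.sx.symm
    rw [mul_smul, mul_smul, mul_smul, mul_smul, m.m2 x (h.refl x), m'.m2 x (h.refl x), smul_left_cancel_iff] at k
    exact inv_mul_eq_one.1 (h.C_semi ((h.C y).mul_mem ((h.C y).inv_mem m.mb) m'.mb) yx (by rw [mul_smul, ← k, inv_smul_smul]))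
  subst e1
  have k := m.sy.trans m'.sy.symm
  rw [mul_smul _ a₂, mul_smul _ a₂', smul_left_cancel_iff] at k
  exact ⟨rfl, inv_mul_eq_one.1 (h.C_semi ((h.C x).mul_mem ((h.C x).inv_mem m.m2) m'.m2) xy (by rw [mul_smul, ← k, inv_smul_smul]))⟩
theorem mu_ne {a b a₂ : G} (xy : ¬ h.perp x y) (m : h.Mu x y a b a₂) : a ≠ 1 ∧ b ≠ 1 ∧ a₂ ≠ 1 := by
  have n := h.ne_of xy
  have sx := m.sx
  have sy := m.sy
  refine ⟨fun e => n ?_, fun e => n ?_, fun e => n ?_⟩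
  · rw [e, one_mul, mul_smul, m.m2 x (h.refl x), ← m.mb y (h.refl y), smul_left_cancel_iff] at sx; exact sx
  · rw [e, mul_one, mul_smul, m.m2 x (h.refl x), m.m1 x (h.refl x)] at sx; exact sx
  · rw [e, mul_one, mul_smul, m.mb y (h.refl y), ← m.m1 x (h.refl x), smul_left_cancel_iff] at sy; exact sy.symm
theorem mu_conj (g : G) {a b a₂ : G} (m : h.Mu x y a b a₂) : h.Mu (g • x) (g • y) (g * a * g⁻¹) (g * b * g⁻¹) (g * a₂ * g⁻¹) := by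
  have k : g * a * g⁻¹ * (g * b * g⁻¹) * (g * a₂ * g⁻¹) = g * (a * b * a₂) * g⁻¹ := by group
  exact ⟨h.C_conj g m.m1, h.C_conj g m.mb, h.C_conj g m.m2, by rw [k, mul_smul, inv_smul_smul, mul_smul, m.sx],
    by rw [k, mul_smul, inv_smul_smul, mul_smul, m.sy]⟩
theorem mu_inv {a b a₂ : G} (m : h.Mu x y a b a₂) : h.Mu x y a₂⁻¹ b⁻¹ a⁻¹ := by
  have k : a₂⁻¹ * b⁻¹ * a⁻¹ = (a * b * a₂)⁻¹ := by group
  exact ⟨(h.C x).inv_mem m.m2, (h.C y).inv_mem m.mb, (h.C x).inv_mem m.m1, by rw [k, inv_smul_eq_iff, m.sy],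
    by rw [k, inv_smul_eq_iff, m.sx]⟩
/-- `b₃ = μ⁻¹ a μ ∈ C y`, `μ = b a₂ b₃` -/
theorem mu_swap {a b a₂ : G} (m : h.Mu x y a b a₂) : ∃ b₃, h.Mu y x b a₂ b₃ ∧ b * a₂ * b₃ = a * b * a₂ := by
  have k : b * a₂ * ((a * b * a₂)⁻¹ * a * (a * b * a₂)⁻¹⁻¹) = a * b * a₂ := by group
  have c := h.C_conj (a * b * a₂)⁻¹ m.m1
  rw [show (a * b * a₂)⁻¹ • x = y by rw [inv_smul_eq_iff, m.sy]] at c
  exact ⟨_, ⟨m.mb, m.m2, c, by rw [k, m.sy], by rw [k, m.sx]⟩, k⟩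

/-- `z = g • r`, `c = g e g⁻¹ ∈ C z`, `κ = g (e g⁻¹ e⁻¹) ∈ Q x`, `c • y = κ • y`.  `v ∈ Q y` with `v • x = z` (`z` is opposite `y`), `ω = g⁻¹ v`, `a = v⁻¹ c v = ω⁻¹ e ω ∈ C x`.  If `e = 1` trivial.  Else `b ∈ C y` with `b • x = a • y` (`mouf`), `b • z = v b • x = c • y`,
so `a • y ⊥ c • y`, `y' = a⁻¹ κ • y ⊥ y`; `col_of` (a point `t ⊥ x, y, r` is `⊥ z`, fixed by `a` and `c`), `mem_U`. -/
theorem dl_om {g : G} (xy : ¬ h.perp x y) (a : h.perp x r) (b : h.perp y r) (hg : g ∈ h.Q x) (n : g • r ≠ r) :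
    ∃ ω : G, ω • x = r ∧ ∀ e ∈ h.C r, (ω⁻¹ * e * ω)⁻¹ * (g * (e * g⁻¹ * e⁻¹)) ∈ h.U x y r := by
  have yx : ¬ h.perp y x := fun e => xy (h.symm e)
  have yz := Dl.opp h xy a b hg n
  obtain ⟨v, hv, vx⟩ := h.Q_tr yx yz
  have ωx : (g⁻¹ * v) • x = r := by rw [mul_smul, vx, inv_smul_smul]
  refine ⟨g⁻¹ * v, ωx, fun e he => ?_⟩
  have ha := h.C_conj (g⁻¹ * v)⁻¹ he
  rw [inv_inv, show (g⁻¹ * v)⁻¹ • r = x by rw [inv_smul_eq_iff, ωx]] at ha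
  have hc := h.C_conj g he
  have va : v * ((g⁻¹ * v)⁻¹ * e * (g⁻¹ * v)) = g * e * g⁻¹ * v := by group
  have e1 : e = 1 → (g⁻¹ * v)⁻¹ * e * (g⁻¹ * v) = 1 := fun k => by rw [k]; group
  have e2 : (g⁻¹ * v)⁻¹ * e * (g⁻¹ * v) = 1 → e = 1 := fun k => by
    rw [show e = (g⁻¹ * v) * ((g⁻¹ * v)⁻¹ * e * (g⁻¹ * v)) * (g⁻¹ * v)⁻¹ by group, k]; group
  generalize (g⁻¹ * v)⁻¹ * e * (g⁻¹ * v) = A at ha va e1 e2
  have hq : A⁻¹ * (g * (e * g⁻¹ * e⁻¹)) ∈ h.Q x := (h.Q x).mul_mem (h.C_le_Q x ((h.C x).inv_mem ha)) (Dl.kQ h a he hg)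
  refine (h.mem_U xy a b).2 ⟨hq, h.col_of xy a b ?_ (fun o => xy ?_) fun t k l m => ?_⟩
  · rw [mul_smul, Dl.ky h g b he, h.smul_right, inv_inv]
    by_cases k : e = 1
    · rw [e1 k, k, mul_one, mul_inv_cancel]; exact h.refl _
    obtain ⟨c, hc', cx⟩ := h.mouf (w := A • y) yx (fun o => k (e2 (h.C_opp ha xy o))) fun t k l => Dl.pf h (ha t l) k
    have : c • g • r = (g * e * g⁻¹) • y := by
      rw [← vx, ← mul_smul, (h.C_cen hc' hv).eq, mul_smul, cx, ← mul_smul, va, mul_smul, Dl.Qx h hv]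
    rw [← this, ← cx, h.smul_iff]
    have := h.smul g a
    rwa [Dl.Qx h hg] at this
  · rwa [h.smul_right, show (A⁻¹ * (g * (e * g⁻¹ * e⁻¹)))⁻¹ • x = x from Dl.Qx h ((h.Q x).inv_mem hq)] at o
  · rw [mul_smul, Dl.ky h g b he, ← mul_smul]
    refine Dl.pf h ?_ l
    rw [mul_smul, hc t (h.symm (((h.Q_le_J x hg).2 r t a k).1 (h.symm m))), (h.C x).inv_mem ha t k]
/-- if `g • r = r` then `κ` fixes `y`, `κ = 1`; else `dl_om`; elements of `Q x` commute modulo the central `C x` -/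
theorem dl {e g : G} (xy : ¬ h.perp x y) (a : h.perp x r) (b : h.perp y r) (he : e ∈ h.C r) (hg : g ∈ h.Q x) :
    ∃ u ∈ h.U x y r, ∃ c ∈ h.C x, e * g * e⁻¹ = g * u * c := by
  by_cases n : g • r = r
  · have hc := h.C_conj g he
    rw [n] at hc
    have k := h.Q_reg xy (Dl.kQ h a he hg) (by rw [Dl.ky h g b he, hc y (h.symm b)])
    refine ⟨1, one_mem _, 1, one_mem _, ?_⟩
    rw [mul_one, mul_one, show e * g * e⁻¹ = (g * (e * g⁻¹ * e⁻¹))⁻¹ * g by group, k, inv_one, one_mul]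
  obtain ⟨ω, ωx, k⟩ := h.dl_om xy a b hg n
  have ha := h.C_conj ω⁻¹ he
  rw [inv_inv, show ω⁻¹ • r = x by rw [inv_smul_eq_iff, ωx]] at ha
  have hu := k e he
  generalize ω⁻¹ * e * ω = A at ha hu
  have e1 : e * g * e⁻¹ = (A⁻¹ * (g * (e * g⁻¹ * e⁻¹)))⁻¹ * (A⁻¹ * g) := by group
  generalize A⁻¹ * (g * (e * g⁻¹ * e⁻¹)) = u at hu e1
  refine ⟨u⁻¹, inv_mem hu, u * g⁻¹ * u⁻¹ * g⁻¹⁻¹ * A⁻¹, mul_mem (h.Q_comm (Dl.UQ h hu) (inv_mem hg)) (inv_mem ha), ?_⟩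
  rw [e1, (h.C_cen (inv_mem ha) hg).eq]; group
/-- anisotropy: `c • y = κ • y ⊥ y`, `c ∈ C z`, `C_opp` -/
theorem dl_an {e g : G} (xy : ¬ h.perp x y) (a : h.perp x r) (b : h.perp y r) (he : e ∈ h.C r) (hg : g ∈ h.Q x)
    (k : g * (e * g⁻¹ * e⁻¹) ∈ h.U x y r) : e = 1 ∨ g • r = r := by
  refine or_iff_not_imp_right.2 fun n => ?_
  have o := Dl.Uy h xy a b k
  rw [Dl.ky h g b he] at o
  have := h.C_opp (h.C_conj g he) (fun o => Dl.opp h xy a b hg n (h.symm o)) o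
  rw [show e = g⁻¹ * (g * e * g⁻¹) * g by group, this]; group
/-- `μ = e₁ b e₂` fixes `x, y`, so maps `U r` to `U s`.  `e₂` centralises `U r` (`C_Z`); `b u b⁻¹ = u σ c`, `e₁ σ e₁⁻¹ = σ ρ c'`; `μ u μ⁻¹ = u σ ρ c c' ∈ U s`.  So `u ρ ∈ U r` differs from an element `k` of `U s` by an element of `C x` (commute modulo `C x`); `k` fixes `r`, `k = 1` (`U_semi`), `u ρ = 1` (`U_C`). -/
theorem mu_a {e₁ b e₂ u σ c : G} (xy : ¬ h.perp x y) (a : h.perp x r) (a' : h.perp y r) (d : h.perp x s) (d' : h.perp y s)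
    (rs : ¬ h.perp r s) (m : h.Mu r s e₁ b e₂) (hu : u ∈ h.U x y r) (hσ : σ ∈ h.U x y s) (hc : c ∈ h.C x) (e : b * u * b⁻¹ = u * σ * c) :
    ∃ c' ∈ h.C x, e₁ * σ * e₁⁻¹ = σ * u⁻¹ * c' := by
  have k0 := h.U_conj (e₁ * b * e₂) hu
  rw [m.sx, show (e₁ * b * e₂) • x = x by rw [mul_smul, mul_smul, m.m2 x (h.symm a), m.mb x (h.symm d), m.m1 x (h.symm a)],
    show (e₁ * b * e₂) • y = y by rw [mul_smul, mul_smul, m.m2 y (h.symm a'), m.mb y (h.symm d'), m.m1 y (h.symm a')]] at k0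
  obtain ⟨ρ, hρ, c', hc', e'⟩ := h.dl xy a a' m.m1 (Dl.UQ h hσ)
  have hd := h.Q_comm (inv_mem (Dl.UQ h hu)) (inv_mem (Dl.UQ h hσ))
  have hD : (u⁻¹ * σ⁻¹ * u⁻¹⁻¹ * σ⁻¹⁻¹) * c' * c ∈ h.C x := mul_mem (mul_mem hd hc') hc
  have k1 : σ⁻¹ * (e₁ * b * e₂ * u * (e₁ * b * e₂)⁻¹) = u * ρ * ((u⁻¹ * σ⁻¹ * u⁻¹⁻¹ * σ⁻¹⁻¹) * c' * c) := by
    have h1 : e₂ * u * e₂⁻¹ = u := by rw [(Dl.CU h xy a a' m.m2 hu).eq, mul_inv_cancel_right]
    have h2 : e₁ * u * e₁⁻¹ = u := by rw [(Dl.CU h xy a a' m.m1 hu).eq, mul_inv_cancel_right]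
    have h3 : e₁ * c * e₁⁻¹ = c := by rw [← (Dl.cc h a hc m.m1).eq, mul_inv_cancel_right]
    calc _ = σ⁻¹ * (e₁ * (b * (e₂ * u * e₂⁻¹) * b⁻¹) * e₁⁻¹) := by group
      _ = σ⁻¹ * ((e₁ * u * e₁⁻¹) * (e₁ * σ * e₁⁻¹) * (e₁ * c * e₁⁻¹)) := by rw [h1, e]; group
      _ = u * ((u⁻¹ * σ⁻¹ * u⁻¹⁻¹ * σ⁻¹⁻¹) * ρ) * c' * c := by rw [h2, e', h3]; group
      _ = _ := by rw [(h.C_cen hd (Dl.UQ h hρ)).eq]; group
  have k2 := mul_mem (inv_mem hσ) k0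
  rw [k1] at k2
  have k3 := h.U_semi xy d d' a' rs k2 (by rw [mul_smul, hD r a, Dl.Ufix h xy a a' (mul_mem hu hρ)])
  have k4 := h.U_C xy a a' (mul_mem hu hρ) (by rw [eq_inv_of_mul_eq_one_left k3]; exact inv_mem hD)
  exact ⟨c', hc', by rw [e', eq_inv_of_mul_eq_one_right k4]⟩
/-- Take `1 ≠ u' ∈ U s`, `e₂ u' e₂⁻¹ = u' ρ c` (`dl`).  `mu_swap`, `mu_a` for `(s, r)`: `b ρ b⁻¹ = ρ u'⁻¹ c'`.  `mu_a`: `e₁ u'⁻¹ e₁⁻¹ = u'⁻¹ ρ⁻¹ c''`.  So `e = e₂⁻¹ e₁ ∈ C r` has `e u' e⁻¹ = u' c₃`, `c₃ ∈ C x` (`e₁, e₂` centralise `U r` and `C x`);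
`e u' • y = c₃ u' • y ⊥ y`, `C_nbr` gives `c₃ = 1`; `e` fixes `u' • y`, which is opposite `r`; `C_semi`. -/
theorem special_aux {e₁ b e₂ : G} (xy : ¬ h.perp x y) (a : h.perp x r) (a' : h.perp y r) (d : h.perp x s) (d' : h.perp y s)
    (rs : ¬ h.perp r s) (m : h.Mu r s e₁ b e₂) : e₁ = e₂ := by
  obtain ⟨u, hu, nu⟩ := h.U_ne xy d d'
  obtain ⟨ρ, hρ, c, hc, e⟩ := h.dl xy a a' m.m2 (Dl.UQ h hu)
  obtain ⟨b₃, m', -⟩ := h.mu_swap m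
  obtain ⟨c', hc', e'⟩ := h.mu_a xy d d' a a' (fun o => rs (h.symm o)) m' hu hρ hc e
  obtain ⟨c'', hc'', e''⟩ := h.mu_a xy a a' d d' rs m hρ (inv_mem hu) hc' e'
  have he : e₂⁻¹ * e₁ ∈ h.C r := mul_mem (inv_mem m.m2) m.m1
  have hd := h.Q_comm (Dl.UQ h hρ) (Dl.UQ h hu)
  have hD : c''⁻¹ * c⁻¹ * (ρ * u * ρ⁻¹ * u⁻¹) ∈ h.C x := mul_mem (mul_mem (inv_mem hc'') (inv_mem hc)) hd
  have k1 : e₂⁻¹ * e₁ * u * (e₂⁻¹ * e₁)⁻¹ = c''⁻¹ * c⁻¹ * (ρ * u * ρ⁻¹ * u⁻¹) * u := by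
    have h1 : e₂⁻¹ * ρ * e₂ = ρ := by rw [mul_assoc, ← (Dl.CU h xy a a' m.m2 hρ).eq, inv_mul_cancel_left]
    have h2 : e₂⁻¹ * c'' * e₂ = c'' := by rw [mul_assoc, (Dl.cc h a hc'' m.m2).eq, inv_mul_cancel_left]
    have h3 : e₂⁻¹ * c * e₂ = c := by rw [mul_assoc, (Dl.cc h a hc m.m2).eq, inv_mul_cancel_left]
    have h4 : e₂⁻¹ * u * e₂ = u * c⁻¹ * ρ⁻¹ := by
      have : u = (e₂⁻¹ * u * e₂) * (e₂⁻¹ * ρ * e₂) * (e₂⁻¹ * c * e₂) :=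
        calc u = e₂⁻¹ * (e₂ * u * e₂⁻¹) * e₂ := by group
          _ = _ := by rw [e]; group
      rw [h1, h3] at this
      calc _ = e₂⁻¹ * u * e₂ * ρ * c * c⁻¹ * ρ⁻¹ := by group
        _ = _ := by rw [← this]
    calc _ = e₂⁻¹ * (e₁ * u⁻¹ * e₁⁻¹)⁻¹ * e₂ := by group
      _ = (e₂⁻¹ * c'' * e₂)⁻¹ * (e₂⁻¹ * ρ * e₂) * (e₂⁻¹ * u * e₂) := by rw [e'']; group
      _ = c''⁻¹ * ((ρ * u) * c⁻¹) * ρ⁻¹ := by rw [h1, h2, h4]; group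
      _ = _ := by rw [← (h.C_cen (inv_mem hc) (mul_mem (Dl.UQ h hρ) (Dl.UQ h hu))).eq]; group
  have ey := he y (h.symm a')
  have k2 : (e₂⁻¹ * e₁) • u • y = (c''⁻¹ * c⁻¹ * (ρ * u * ρ⁻¹ * u⁻¹)) • u • y := by
    rw [← mul_smul _ u y, ← mul_smul _ u y, ← k1, mul_smul _ (e₂⁻¹ * e₁)⁻¹ y, (h.C r).inv_mem he y (h.symm a')]
  have uy := Dl.Uy h xy d d' hu
  have k3 := h.C_nbr hD xy (w := u • y) (fun o => xy (by
    rwa [h.smul_right, show u⁻¹ • x = x from Dl.Qx h (inv_mem (Dl.UQ h hu))] at o)) uy (by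
      rw [← k2]; exact h.symm (by have := h.smul (e₂⁻¹ * e₁) (h.symm uy); rwa [ey] at this))
  rw [k3, one_smul] at k2
  exact (inv_mul_eq_one.1 (h.C_semi he (fun o => nu (by
    rw [h.U_semi xy d d' a' rs hu (h.J_fix (h.Q_le_J x (Dl.UQ h hu)) xy a a' (h.symm o))]; exact one_mem _)) k2)).symm
/-- `special_aux` with the base pair `r, s ∈ Σ(x,y)` opposite (`sg_ex`, `sg_opp`) -/
theorem special {a b a₂ : G} (xy : ¬ h.perp x y) (m : h.Mu x y a b a₂) : a = a₂ := by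
  obtain ⟨r, k, l⟩ := h.sg_ex xy
  obtain ⟨s, k', l', o⟩ := h.sg_opp xy k (Dl.ne h xy l)
  exact h.special_aux o (h.symm k) (h.symm k') (h.symm l) (h.symm l') xy m
namespace Dl

variable {a a' b g u : G} {w : P}

theorem key (m : h.Mu x y a b a) (hg : g ∈ h.Q y) (gx : g • x = w) (o : h.perp x w) :
    (a * b * a) • w = (a * (g * a⁻¹ * g⁻¹)) • y := by
  have bx : b • x = a⁻¹ • y := by
    have := m.sx
    rw [mul_smul, mul_smul, m.m1 x (h.refl x)] at this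
    rw [← this, inv_smul_smul]
  rw [mul_smul, m.m1 w o, mul_smul, ← gx, ← mul_smul b, (h.C_cen m.mb hg).eq, mul_smul, bx]
  simp only [mul_smul, Qx h (inv_mem hg)]

theorem Cw (ha : a ∈ h.C x) (gx : g • x = w) : g * a⁻¹ * g⁻¹ ∈ h.C w := gx ▸ h.C_conj g (inv_mem ha)

theorem kmul (ha : a ∈ h.C x) (ha' : a' ∈ h.C x) (gx : g • x = w) (o : h.perp x w) :
    a * a' * (g * (a * a')⁻¹ * g⁻¹) = a * (g * a⁻¹ * g⁻¹) * (a' * (g * a'⁻¹ * g⁻¹)) :=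
  calc _ = a * (a' * ((g * a'⁻¹ * g⁻¹) * (g * a⁻¹ * g⁻¹))) := by group
    _ = a * ((a' * (g * a⁻¹ * g⁻¹)) * (g * a'⁻¹ * g⁻¹)) := by
      rw [(cc h (h.refl w) (Cw h ha' gx) (Cw h ha gx)).eq, ← mul_assoc a']
    _ = _ := by rw [(cc h o ha' (Cw h ha gx)).eq]; simp only [mul_assoc]

theorem kU (xy : ¬ h.perp x y) (k : h.perp x r) (l : h.perp y r) (c : h.col x r w) (ha : a ∈ h.C x) (gx : g • x = w)
    (hu : u ∈ h.U x y r) : Commute (a * (g * a⁻¹ * g⁻¹)) u :=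
  (h.C_cen ha (UQ h hu)).mul_left
    (h.C_Z (h.symm (c.perp_left k)) (h.symm (c.perp_right k)) (Cw h ha gx) (h.U_le_Z xy k l hu))

end Dl

/-- Additivity of the torus.  `μ a₁ = a₁ b a₁`.  For `w` on the line `x r`, `w ≠ r`, write `w = g • x`, `g ∈ U y x r` (commutes with `C y`, fixes the line `y r` pointwise).  `μ a₁ • w = a₁ g b • x = a₁ g a₁⁻¹ • y = κ(a₁) • y` with `κ(a₁) = a₁ (g a₁⁻¹ g⁻¹) ∈ C x C w`;
`κ` is multiplicative and commutes with `U x y r ≤ Z x r` (`C_Z`).  `u, u', u'' ∈ U x y r` are the elements with `u • y = μ a • w` etc.; `u'' • y = κ(a) κ(a') • y = κ(a) u' • y = u' u • y`, `Q_reg`. -/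
theorem mu_add {a b a' b' b'' u u' u'' : G} {w : P} (xy : ¬ h.perp x y) (k : h.perp x r) (l : h.perp y r) (c : h.col x r w) (n : w ≠ r)
    (m : h.Mu x y a b a) (m' : h.Mu x y a' b' a') (m'' : h.Mu x y (a * a') b'' (a * a')) (hu : u ∈ h.U x y r) (hu' : u' ∈ h.U x y r)
    (hu'' : u'' ∈ h.U x y r) (e : u • y = (a * b * a) • w) (e' : u' • y = (a' * b' * a') • w) (e'' : u'' • y = (a * a' * b'' * (a * a')) • w) :
    u'' = u * u' := by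
  have yx : ¬ h.perp y x := fun e => xy (h.symm e)
  obtain ⟨g, hg, gx⟩ := h.U_tr yx l k c n
  have o := c.perp_left k
  rw [Dl.key h m (Dl.UQ h hg) gx o] at e
  rw [Dl.key h m' (Dl.UQ h hg) gx o] at e'
  rw [Dl.key h m'' (Dl.UQ h hg) gx o, Dl.kmul h m.m1 m'.m1 gx o, mul_smul, ← e', ← mul_smul,
    (Dl.kU h xy k l c m.m1 gx hu').eq, mul_smul, ← e] at e''
  have := h.Q_reg xy (mul_mem (inv_mem (mul_mem (Dl.UQ h hu') (Dl.UQ h hu))) (Dl.UQ h hu''))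
    (by rw [mul_smul, e'', ← mul_smul u', inv_smul_smul])
  rw [← inv_mul_eq_one.1 this, (h.Z_comm k (h.U_le_Z xy k l hu) (h.U_le_Z xy k l hu')).eq]
/-- the case `a a' = 1` of the same computation -/
theorem mu_neg {a b u u' : G} {w : P} (xy : ¬ h.perp x y) (k : h.perp x r) (l : h.perp y r) (c : h.col x r w) (n : w ≠ r)
    (m : h.Mu x y a b a) (hu : u ∈ h.U x y r) (hu' : u' ∈ h.U x y r)
    (e : u • y = (a * b * a) • w) (e' : u' • y = (a * b * a)⁻¹ • w) : u * u' = 1 := by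
  have yx : ¬ h.perp y x := fun e => xy (h.symm e)
  obtain ⟨g, hg, gx⟩ := h.U_tr yx l k c n
  have o := c.perp_left k
  rw [Dl.key h m (Dl.UQ h hg) gx o] at e
  rw [show (a * b * a)⁻¹ = a⁻¹ * b⁻¹ * a⁻¹ by group, Dl.key h (h.mu_inv m) (Dl.UQ h hg) gx o] at e'
  refine h.Q_reg xy (mul_mem (Dl.UQ h hu) (Dl.UQ h hu')) ?_
  rw [mul_smul, e', ← mul_smul, ← (Dl.kU h xy k l c (inv_mem m.m1) gx hu).eq, mul_smul, e, ← mul_smul,
    ← Dl.kmul h (inv_mem m.m1) m.m1 gx o, inv_mul_cancel, inv_one, mul_one, mul_inv_cancel, mul_one, one_smul]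

end Geo

end CL.PT
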