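/- S3235: the subspaces L r and the maps delta. -/
import Mathlib
import Cfsg.Agent.CHEV.PT.Dl
import Cfsg.Agent.CHEV.PT.Md1

set_option autoImplicit false
set_option linter.unusedSectionVars false

namespace CL.PT

open Subgroup

variable {p : ℕ} {G P : Type*} [Group G] [MulAction G P] [Finite G] [Finite P] {h : Geo p G P} {x y : P}
  {K V : Type*} [Field K] [AddCommGroup V] [Module K V]

theorem Mod1.ex_neg (m : Mod1 h x y K V) (v : V) : m.ex (-v) = (m.ex v)⁻¹ := eq_inv_of_mul_eq_one_left (by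
  rw [m.ex_mul, neg_add_cancel, m.ex_zero, map_neg, LinearMap.neg_apply, m.alt, neg_zero, mul_zero, m.χ_zero, one_mul])
theorem Mod1.dec (m : Mod1 h x y K V) {g : G} (hg : g ∈ h.Q x) : ∃ c, g = m.ex (m.π g) * m.χ c := by
  obtain ⟨c, e⟩ := m.χ_surj _ ((m.π_ker (mul_mem (inv_mem (m.ex_mem (m.π g))) hg)).1 (by
    rw [m.π_mul (inv_mem (m.ex_mem _)) hg, m.π_inv (m.ex_mem _), m.π_ex, neg_add_cancel]))
  exact ⟨c, by rw [e, mul_inv_cancel_left]⟩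
theorem Mod1.skew (m : Mod1 h x y K V) (u v : V) : m.β u v = -m.β v u := by
  have := m.alt (u + v)
  simp only [map_add, LinearMap.add_apply, m.alt, zero_add, add_zero] at this
  exact eq_neg_of_add_eq_zero_right this

namespace LinA

variable (m : Mod1 h x y K V) {r s : P} {e g : G}
include m

theorem πC {c : G} (hg : g ∈ h.Q x) (hc : c ∈ h.C x) : m.π (g * c) = m.π g := by
  rw [m.π_mul hg (h.C_le_Q x hc), (m.π_ker (h.C_le_Q x hc)).2 hc, add_zero]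
theorem ne (b : h.perp y r) : r ≠ x := fun e => m.opp (h.symm (e ▸ b))
theorem cmC (a : h.perp x r) (b : h.perp y r) (he : e ∈ h.C r) : ∀ c ∈ h.C x, Commute e c :=
  fun _ hc => h.C_comm (h.symm a) (ne m b) he hc
omit m in
theorem nQ (a : h.perp x r) (he : e ∈ h.C r) (hg : g ∈ h.Q x) : e * g * e⁻¹ ∈ h.Q x := by
  have := h.Q_conj e hg; rwa [he x (h.symm a)] at this
theorem cjπ (a : h.perp x r) (b : h.perp y r) (he : e ∈ h.C r) (hg : g ∈ h.Q x) : m.π (e * m.ex (m.π g) * e⁻¹) = m.π (e * g * e⁻¹) := by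
  obtain ⟨c, k⟩ := m.dec hg
  conv_rhs => rw [k, ← mul_assoc, mul_assoc _ (m.χ c), ← (cmC m a b he _ (m.χ_mem c)).inv_left.eq, ← mul_assoc,
    πC m (nQ a he (m.ex_mem _)) (m.χ_mem c)]

theorem exδ (e : G) : ∃ d : V →ₗ[K] V, ∀ {r g}, h.perp x r → h.perp y r → e ∈ h.C r → g ∈ h.Q x →
    m.π (e * g * e⁻¹) = m.π g + d (m.π g) := by
  by_cases k : ∃ r, h.perp x r ∧ h.perp y r ∧ e ∈ h.C r
  · obtain ⟨r, a, b, he⟩ := k
    refine ⟨⟨⟨fun v => m.π (e * m.ex v * e⁻¹), fun u v => ?_⟩, fun t v => ?_⟩ - LinearMap.id, fun _ _ _ hg => by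
      simp [cjπ m a b he hg]⟩
    · conv_lhs => rw [← m.π_ex u, ← m.π_ex v, ← m.π_mul (m.ex_mem u) (m.ex_mem v), cjπ m a b he (mul_mem (m.ex_mem u) (m.ex_mem v)),
        ← conj_mul, m.π_mul (nQ a he (m.ex_mem u)) (nQ a he (m.ex_mem v))]
    · by_cases t0 : t = 0
      · simp [t0, m.ex_zero, m.π_one]
      have q := h.Q_conj (m.hh t) (m.ex_mem v)
      rw [m.hx] at q
      have c := h.K_comm m.opp (m.hK t) a b he
      change m.π (e * m.ex (t • v) * e⁻¹) = t • m.π (e * m.ex v * e⁻¹)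
      conv_lhs => rw [← m.π_ex v, ← m.hπ t0 (m.ex_mem v), cjπ m a b he q]
      rw [← m.hπ t0 (nQ a he (m.ex_mem v)), ← mul_assoc, ← mul_assoc, ← c.eq, mul_assoc _ _ e⁻¹,
        c.inv_inv.eq]
      simp only [mul_assoc]
  · exact ⟨0, fun a b he _ => (k ⟨_, a, b, he⟩).elim⟩

theorem πU (a : h.perp x r) (b : h.perp y r) (hg : g ∈ h.U x y r) : m.ex (m.π g) ∈ h.U x y r := (m.ex_U a b hg).symm ▸ hg

theorem exL (r : P) : ∃ L : Submodule K V, h.perp x r → h.perp y r → ∀ v, v ∈ L ↔ m.ex v ∈ h.U x y r := by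
  by_cases k : h.perp x r ∧ h.perp y r
  · have z : m.ex 0 ∈ h.U x y r := m.ex_zero ▸ one_mem _
    refine ⟨⟨⟨⟨{v | m.ex v ∈ h.U x y r}, fun {u v} hu hv => ?_⟩, z⟩, fun t v hv => ?_⟩, fun _ _ _ => Iff.rfl⟩
    · have := πU m k.1 k.2 (mul_mem hu hv)
      rwa [m.π_mul (m.ex_mem u) (m.ex_mem v), m.π_ex, m.π_ex] at this
    · by_cases t0 : t = 0
      · rw [t0, zero_smul]; exact z
      have q := h.U_conj (m.hh t) hv
      rw [m.hx, m.hy, h.K_fix (m.hK t) k.1 k.2] at q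
      have := πU m k.1 k.2 q
      rwa [m.hπ t0 (m.ex_mem v), m.π_ex] at this
  · exact ⟨⊥, fun a b => (k ⟨a, b⟩).elim⟩

theorem fix1 {v ρ : V} (a : h.perp x r) (b : h.perp y r) (k : m.ex v • r = r) (hρ : m.ex ρ ∈ h.U x y r) : m.β ρ v = 0 := by
  have := m.β_comm (m.ex_mem ρ) (m.ex_mem v)
  rw [m.π_ex, m.π_ex, ← (h.Q_Z (m.ex_mem v) a (ne m b) k (h.U_le_Z m.opp a b hρ)).eq, left_eq_mul, ← m.χ_zero] at this
  exact m.χ_inj this

theorem pres (a : h.perp x r) (b : h.perp y r) (he : e ∈ h.C r) (u v : V) :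
    m.β (m.π (e * m.ex u * e⁻¹)) (m.π (e * m.ex v * e⁻¹)) = m.β u v := by
  have k := m.β_comm (nQ a he (m.ex_mem u)) (nQ a he (m.ex_mem v))
  rw [conj_mul, conj_mul, m.β_comm (m.ex_mem u) (m.ex_mem v), m.π_ex, m.π_ex, ← mul_assoc, mul_assoc _ (m.χ _),
    ← (cmC m a b he _ (m.χ_mem _)).inv_left.eq, ← mul_assoc] at k
  exact (m.χ_inj (mul_left_cancel k)).symm

end LinA

open LinA in
/-- `L r = {v | ex v ∈ U x y r}` for `r ∈ Σ` (`⊥` otherwise): `ex_U`; scalars: `hh t` normalises `U x y r` (`U_conj`, `K_fix`).  `span`: `Q_gen`.  `δ e v = π (e (ex v) e⁻¹) - v` if `e ∈ C r` for some `r ∈ Σ` (else `0`); linear as `e` commutes with `hh t` (`K_comm`) and with `C x`.  `δ_mem`: `dl`.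
`L_perp`: `U s ≤ Z x s` fixes `r`; `fix` (→): `Q_Z`.  `e` preserves `β` (it centralises `C x`), so `δ_symm`.  For `g = ex v`: `e g⁻¹ e⁻¹ = ex (-v - δ e v)` (`ex_conj`), `κ = g (e g⁻¹ e⁻¹) = ex (-δ e v) χ (2⁻¹ β (δ e v) v)`; `dl_an` gives `δ_an` and `fix` (←) (use `1 ≠ e ∈ E r`);
`δ_ω`: `dl_om`, `U_C`.  `nondeg`: `fix`, `Q_C`.  `L_opp`: `U_semi`.  `δ_inv`: `mu_ex`, `special`, `mu_a`, `mu_swap`.  `δ_L`: `U_conj`. -/
theorem Mod1.exists_lin (m : Mod1 h x y K V) : Nonempty (Lin h x y K V) := by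
  choose δ hδ using exδ m
  choose L hL using exL m
  have xy := m.opp
  have dv : ∀ {r e} v, h.perp x r → h.perp y r → e ∈ h.C r → m.π (e * m.ex v * e⁻¹) = v + δ e v := fun v a b he => by
    rw [hδ _ a b he (m.ex_mem v), m.π_ex]
  have du : ∀ {r e g u c}, h.perp x r → h.perp y r → e ∈ h.C r → g ∈ h.Q x → u ∈ h.Q x → c ∈ h.C x → e * g * e⁻¹ = g * u * c →
      δ e (m.π g) = m.π u := fun a b he hg hu hc k => by
    have := hδ _ a b he hg
    rw [k, πC m (mul_mem hg hu) hc, m.π_mul hg hu] at this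
    exact (add_left_cancel this).symm
  have dm : ∀ {r e} v, h.perp x r → h.perp y r → e ∈ h.C r → δ e v ∈ L r := fun v a b he => by
    obtain ⟨u, hu, c, hc, k⟩ := h.dl xy a b he (m.ex_mem v)
    rw [← m.π_ex v, du a b he (m.ex_mem v) hu.1 hc k, hL _ a b]
    exact πU m a b hu
  have ka : ∀ {r e} v, h.perp x r → h.perp y r → e ∈ h.C r →
      m.ex v * (e * (m.ex v)⁻¹ * e⁻¹) = m.ex (-δ e v) * m.χ (2⁻¹ * m.β (δ e v) v) := fun v a b he => by
    rw [← m.ex_neg, m.ex_conj _ (he x (h.symm a)) (he y (h.symm b)) (cmC m a b he), dv _ a b he, m.ex_mul, m.skew _ v]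
    simp [m.alt]
  have an : ∀ {r e} v, h.perp x r → h.perp y r → e ∈ h.C r → e ≠ 1 → m.β (δ e v) v = 0 → m.ex v • r = r := fun v a b he n k =>
    (h.dl_an xy a b he (m.ex_mem v) (by
      rw [ka v a b he, k, mul_zero, m.χ_zero, mul_one, ← hL _ a b]; exact neg_mem (dm v a b he))).resolve_left n
  have fx : ∀ {r} v, h.perp x r → h.perp y r → (m.ex v • r = r ↔ ∀ ρ ∈ L r, m.β ρ v = 0) := fun {r} v a b =>
    ⟨fun k ρ hρ => fix1 m a b k ((hL _ a b _).1 hρ), fun k => let ⟨e, he, n⟩ := h.Ene r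
      an v a b (h.E_le_C r he) n (k _ (dm v a b (h.E_le_C r he)))⟩
  have lp : ∀ {r s}, h.perp x r → h.perp y r → h.perp x s → h.perp y s → h.perp r s → ∀ ρ ∈ L r, ∀ σ ∈ L s, m.β ρ σ = 0 :=
    fun a b a' b' o ρ hρ σ hσ => (fx σ a b).1 (h.Z_fix (h.U_le_Z xy a' b' ((hL _ a' b' _).1 hσ)) (h.symm a) o) ρ hρ
  have iv : ∀ {r s e₁ b e₂}, h.perp x r → h.perp y r → h.perp x s → h.perp y s → ¬ h.perp r s → h.Mu r s e₁ b e₂ →
      ∀ ρ ∈ L r, δ e₁ (δ b ρ) = -ρ := fun a b a' b' o μ ρ hρ => by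
    obtain ⟨u, hu, c, hc, k⟩ := h.dl xy a' b' μ.mb (m.ex_mem ρ)
    obtain ⟨c', hc', k'⟩ := h.mu_a xy a b a' b' o μ ((hL _ a b _).1 hρ) hu hc k
    rw [← m.π_ex ρ, du a' b' μ.mb (m.ex_mem ρ) hu.1 hc k, du a b μ.m1 hu.1 (inv_mem (m.ex_mem ρ)) hc' k', m.π_inv (m.ex_mem ρ)]
  refine ⟨⟨m, L, δ, fun a b => hL _ a b _, eq_top_iff.2 fun v _ => ?_, fun v k => ?_, fx, lp, fun a b a' b' o σ hσ n => ?_,
    fun a b k => ?_, hδ _, dm, fun u v a b he => ?_, fun v a b he n k => (fx v a b).1 (an v a b he n k),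
    fun a b a' b' o he n => ?_, fun {r} v a b n => ?_, fun {t r e} a b a' b' he ρ hρ => ?_⟩⟩
  · have : (⨆ (r : P) (_ : h.perp x r ∧ h.perp y r), h.U x y r) ≤
        ⟨⟨⟨{g | g ∈ h.Q x ∧ m.π g ∈ ⨆ (r : P) (_ : h.perp x r ∧ h.perp y r), L r},
          fun a b => ⟨mul_mem a.1 b.1, m.π_mul a.1 b.1 ▸ add_mem a.2 b.2⟩⟩, one_mem _, m.π_one ▸ zero_mem _⟩,
          fun a => ⟨inv_mem a.1, m.π_inv a.1 ▸ neg_mem a.2⟩⟩ := iSup₂_le fun r k g hg =>
      ⟨hg.1, le_iSup₂_of_le (f := fun r (_ : h.perp x r ∧ h.perp y r) => L r) r k le_rfl ((hL _ k.1 k.2 _).2 (πU m k.1 k.2 hg))⟩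
    exact m.π_ex v ▸ (this (h.Q_gen xy ▸ m.ex_mem v)).2
  · rw [← m.π_ex v, m.π_ker (m.ex_mem v)]
    exact h.Q_C xy (m.ex_mem v) fun r a b => (fx v a b).2 fun ρ _ => k ρ
  · by_contra! k
    exact n (by rw [← m.π_ex σ, h.U_semi xy a' b' b o ((hL _ a' b' _).1 hσ) ((fx σ a b).2 k), m.π_one])
  · obtain ⟨g, hg, n⟩ := h.U_ne xy a b
    exact n ((m.π_ker hg.1).1 ((Submodule.mem_bot K).1 (k ▸ (hL _ a b _).2 (πU m a b hg))))
  · have := pres m a b he u v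
    rw [dv u a b he, dv v a b he] at this
    simp only [map_add, LinearMap.add_apply, lp a b a b (h.refl _) _ (dm u a b he) _ (dm v a b he)] at this
    rw [m.skew _ u]; linear_combination this
  · obtain ⟨e', a₂, μ⟩ := h.mu_ex o he n
    obtain rfl := h.special o μ
    obtain ⟨b₃, μ', -⟩ := h.mu_swap μ
    exact ⟨e', μ.mb, iv a b a' b' o μ, iv a' b' a b (fun k => o (h.symm k)) μ'⟩
  · obtain ⟨ω, e, k⟩ := h.dl_om xy a b (m.ex_mem v) n
    refine ⟨ω, e, fun c hc => ?_⟩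
    have q := h.C_conj ω⁻¹ hc
    rw [← e, inv_smul_smul, inv_inv] at q
    have := k c hc
    rw [ka v a b hc, ← mul_assoc, (h.C_cen (inv_mem q) (m.ex_mem _)).eq, mul_assoc,
      mul_mem_cancel_left ((hL _ a b _).1 (neg_mem (dm v a b hc)))] at this
    exact inv_mul_eq_one.1 (h.U_C xy a b this (mul_mem (inv_mem q) (m.χ_mem _)))
  · have q := h.U_conj e ((hL _ a' b' _).1 hρ)
    have a2 := h.smul e a'
    have b2 := h.smul e b'
    rw [he x (h.symm a)] at q a2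
    rw [he y (h.symm b)] at q b2
    rw [hL _ a2 b2, ← dv ρ a b he]
    exact πU m a2 b2 q

end CL.PT
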