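/- S3235: the embedding. -/
import Mathlib
import Cfsg.Agent.CHEV.PT.LinA

set_option autoImplicit false

namespace CL.PT

open Subgroup

variable {p : ℕ} {G P : Type*} [Group G] [MulAction G P] [Finite G] [Finite P] {h : Geo p G P} {x y : P}
  {K V : Type*} [Field K] [AddCommGroup V] [Module K V]
 {l : Lin h x y K V} {F : Type*} [Field F] [Module F V]

namespace Emb

theorem q_mem (m : Mod1 h x y K V) (v : V) (c : K) : m.ex v * m.χ c ∈ h.Q x :=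
  mul_mem (m.ex_mem v) (h.C_le_Q x (m.χ_mem c))

theorem π_q (m : Mod1 h x y K V) (v : V) (c : K) : m.π (m.ex v * m.χ c) = v := by
  rw [m.π_mul (m.ex_mem v) (h.C_le_Q x (m.χ_mem c)), m.π_ex, m.toMod0.π_χ, add_zero]

/-- quotient of two coordinates -/
theorem q_div (m : Mod1 h x y K V) (v v' : V) (c c' : K) :
    (m.ex v' * m.χ c')⁻¹ * (m.ex v * m.χ c) = m.ex (v - v') * m.χ (2⁻¹ * m.β (-v') v + c - c') := by
  have h1 : Commute (m.χ (-c')) (m.ex (v - v')) := h.C_cen (m.χ_mem _) (m.ex_mem _)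
  have h2 : (m.ex v' * m.χ c')⁻¹ * (m.ex v * m.χ c) = m.χ (-c') * (m.ex (-v') * m.ex v) * m.χ c := by
    rw [m.ex_neg, m.toMod0.χ_neg]; group
  rw [h2, m.ex_mul, show -v' + v = v - v' by abel, ← mul_assoc, h1.eq, mul_assoc, mul_assoc, ← m.χ_add, ← m.χ_add]
  congr 2; ring

theorem π_mem (l : Lin h x y K V) {r : P} {g : G} (a : h.perp x r) (b : h.perp y r) (hg : g ∈ h.U x y r) : l.π g ∈ l.L r := by
  rw [l.mem_L a b, l.ex_U a b hg]; exact hg

end Emb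

/-- `U_nbr`, `ex_U`, `mem_U` -/
theorem Lin.perp_y (l : Lin h x y K V) (v : V) (c : K) :
    h.perp y ((l.ex v * l.χ c) • y) ↔ c = 0 ∧ ∃ r, h.perp x r ∧ h.perp y r ∧ v ∈ l.L r := by
  refine ⟨fun o => ?_, fun ⟨e, r, a, b, hv⟩ => ?_⟩
  · obtain ⟨r, a, b, hg⟩ := h.U_nbr l.opp (Emb.q_mem l.toMod1 v c) o
    have k := l.ex_U a b hg
    rw [Emb.π_q l.toMod1] at k
    refine ⟨l.χ_inj ?_, r, a, b, (l.mem_L a b).2 (k ▸ hg)⟩
    rw [l.toMod0.χ_zero]
    exact (mul_eq_left.1 k.symm)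
  · rw [e, l.toMod0.χ_zero, mul_one]
    exact ((h.toGeo0.mem_U l.opp a b).1 ((l.mem_L a b).1 hv)).2.perp_left b
theorem Sq.two_ne (s : Sq l F) : (2 : F) ≠ 0 := by
  have := (map_ne_zero s.ι).2 l.toMod0.two_ne
  rwa [map_ofNat] at this
namespace Emb

theorem H_zero_left (s : Sq l F) (w : V) : s.H 0 w = 0 := by
  have := s.H_smul 0 0 w
  rwa [zero_smul, zero_mul] at this
theorem H_zero_right (s : Sq l F) (w : V) : s.H w 0 = 0 := by
  rw [s.H_skew, H_zero_left, map_zero, neg_zero]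
theorem H_neg_left (s : Sq l F) (u w : V) : s.H (-u) w = -s.H u w := by
  rw [← neg_one_smul F u, s.H_smul, neg_one_mul]
theorem H_sub_left (s : Sq l F) (u v w : V) : s.H (u - v) w = s.H u w - s.H v w := by
  rw [sub_eq_add_neg, s.H_add, H_neg_left, sub_eq_add_neg]
theorem H_sub_right (s : Sq l F) (u v w : V) : s.H w (u - v) = s.H w u - s.H w v := by
  rw [s.H_skew, H_sub_left, s.H_skew u w, s.H_skew v w, map_sub]; ring
theorem H_smul_right (s : Sq l F) (a : F) (u w : V) : s.H u (a • w) = s.σ a * s.H u w := by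
  rw [s.H_skew, s.H_smul, s.H_skew w u, map_mul]; ring
theorem σ_self (s : Sq l F) (v : V) : s.σ (s.H v v) = -s.H v v := by
  have := s.H_skew v v
  linear_combination this
theorem σ_ι (s : Sq l F) (c : K) : s.σ (s.ι c) = s.ι c := (s.fix_iff _).2 ⟨c, rfl⟩
theorem smul_mem (s : Sq l F) {r : P} (a : h.perp x r) (b : h.perp y r) (t : F) {ρ : V} (hρ : ρ ∈ l.L r) : t • ρ ∈ l.L r := by
  obtain ⟨ρ₀, -, k⟩ := s.line a b
  obtain ⟨u, rfl⟩ := (k ρ).1 hρ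
  exact (k _).2 ⟨t * u, by rw [mul_smul]⟩
theorem prop (s : Sq l F) {r : P} (a : h.perp x r) (b : h.perp y r) {ρ ρ' : V} (hρ : ρ ∈ l.L r) (n : ρ ≠ 0) (hρ' : ρ' ∈ l.L r) :
    ∃ t : F, ρ' = t • ρ := by
  obtain ⟨ρ₀, -, k⟩ := s.line a b
  obtain ⟨u, rfl⟩ := (k ρ).1 hρ
  obtain ⟨u', rfl⟩ := (k ρ').1 hρ'
  have hu : u ≠ 0 := fun e => n (by rw [e, zero_smul])
  exact ⟨u' * u⁻¹, by rw [smul_smul, mul_assoc, inv_mul_cancel₀ hu, mul_one]⟩

end Emb

/-- `L r = F ρ`; `a H + σ (a H) = 0` for all `a` forces `H = 0` -/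
theorem Sq.H_zero (s : Sq l F) {r : P} (a : h.perp x r) (b : h.perp y r) {ρ : V} (hρ : ρ ∈ l.L r) (n : ρ ≠ 0) (v : V) :
    s.H ρ v = 0 ↔ ∀ ρ' ∈ l.L r, l.β ρ' v = 0 := by
  refine ⟨fun e ρ' k => ?_, fun k => ?_⟩
  · obtain ⟨t, rfl⟩ := Emb.prop s a b hρ n k
    have r := s.H_re (t • ρ) v
    rw [s.H_smul, e, mul_zero, map_zero, add_zero, eq_comm, map_eq_zero] at r
    exact (mul_eq_zero.1 r).resolve_left l.toMod0.two_ne
  · by_contra e
    have r := s.H_re ((s.H ρ v)⁻¹ • ρ) v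
    rw [k _ (Emb.smul_mem s a b _ hρ), s.H_smul, inv_mul_cancel₀ e, map_one, mul_zero, map_zero] at r
    exact s.two_ne (by linear_combination r)
namespace Emb

theorem β_of_H (s : Sq l F) {u w : V} (e : s.H u w = 0) : l.β u w = 0 := by
  have k := s.H_re u w
  rw [e, map_zero, add_zero, eq_comm, map_eq_zero] at k
  exact (mul_eq_zero.1 k).resolve_left l.toMod0.two_ne

theorem iso_of (s : Sq l F) {r : P} (a : h.perp x r) (b : h.perp y r) {v : V} (hv : v ∈ l.L r) : s.H v v = 0 := by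
  by_cases n : v = 0
  · rw [n, H_zero_left]
  · exact (s.H_zero a b hv n v).2 fun ρ' k => l.L_perp a b a b (h.refl r) ρ' k v hv

end Emb

/-- Some `r ∈ Σ` has `H ρ v ≠ 0` (`span`, `nondeg`), so `w = ex v • y` is opposite `r` (`fix`, `J_fix`/`uniq`).  The point of the line `y r` perpendicular to `w` is `ex ρ' • y`, `ρ' ∈ L r` (`U_tr`); `perp_y` for `ex (-ρ') ex v`: `β ρ' v = 0` and `v - ρ'` is isotropic; so `H ρ' v = σ (H ρ' v)`, `H ρ' v = 0`, `ρ' = 0`. -/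
theorem Sq.iso_mem (s : Sq l F) {v : V} (n : v ≠ 0) (k : s.H v v = 0) : ∃ r, h.perp x r ∧ h.perp y r ∧ v ∈ l.L r := by
  obtain ⟨r, a, b, ρ, hρ, e⟩ : ∃ r, h.perp x r ∧ h.perp y r ∧ ∃ ρ ∈ l.L r, l.β ρ v ≠ 0 := by
    by_contra hh
    push Not at hh
    refine n (l.nondeg v fun u => ?_)
    have : (⊤ : Submodule K V) ≤ LinearMap.ker (l.β.flip v) := by
      rw [← l.span]
      exact iSup₂_le fun r hr ρ hρ => hh r hr.1 hr.2 ρ hρ
    exact this Submodule.mem_top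
  have wr : ¬ h.perp (l.ex v • y) r := fun o =>
    e ((l.fix v a b).1 (h.toGeo0.J_fix (h.Q_le_J x (l.ex_mem v)) l.opp a b o) ρ hρ)
  have yr : y ≠ r := fun e => l.opp (e ▸ a)
  obtain ⟨y', c, o⟩ := h.one b yr (l.ex v • y)
  obtain ⟨g, hg, rfl⟩ := h.U_tr l.opp a b c (fun e => wr (e ▸ o))
  have hρ' := Emb.π_mem l a b hg
  rw [← l.ex_U a b hg] at o
  generalize l.π g = ρ' at o hρ'
  have d := Emb.q_div l.toMod1 v ρ' 0 0
  rw [l.toMod0.χ_zero, mul_one, mul_one] at d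
  rw [h.comm, h.smul_left, smul_smul, d, l.perp_y] at o
  obtain ⟨o₁, r', a', b', hv⟩ := o
  have β0 : l.β ρ' v = 0 := by
    rw [add_zero, sub_zero, map_neg, LinearMap.neg_apply, mul_eq_zero, neg_eq_zero] at o₁
    exact o₁.resolve_left (inv_ne_zero l.toMod0.two_ne)
  have i₁ := Emb.iso_of s a' b' hv
  have r₁ := s.H_re ρ' v
  rw [β0, mul_zero, map_zero] at r₁
  rw [Emb.H_sub_left, Emb.H_sub_right, Emb.H_sub_right, k, Emb.iso_of s a b hρ', s.H_skew ρ' v] at i₁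
  have H0 : s.H ρ' v = 0 := by
    have : 2 * s.H ρ' v = 0 := by linear_combination r₁ - i₁
    exact (mul_eq_zero.1 this).resolve_left s.two_ne
  have ρ0 : ρ' = 0 := by
    by_contra n'
    exact e ((s.H_zero a b hρ' n' v).1 H0 ρ hρ)
  rw [ρ0, sub_zero] at hv
  exact ⟨r', a', b', hv⟩
namespace Emb

theorem iso_iff (s : Sq l F) (v : V) : s.H v v = 0 ↔ ∃ r, h.perp x r ∧ h.perp y r ∧ v ∈ l.L r := by
  refine ⟨fun k => ?_, fun ⟨r, a, b, hv⟩ => iso_of s a b hv⟩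
  by_cases n : v = 0
  · obtain ⟨r, a, b⟩ := h.toGeo0.sg_ex l.opp
    exact ⟨r, a, b, n ▸ zero_mem _⟩
  · exact s.iso_mem n k

/-- the form on `F × V × F` -/
def HH (s : Sq l F) (u w : F × V × F) : F := u.1 * s.σ w.2.2 - u.2.2 * s.σ w.1 + s.H u.2.1 w.2.1

theorem HH_skew (s : Sq l F) (u w : F × V × F) : HH s w u = -s.σ (HH s u w) := by
  simp only [HH, map_add, map_sub, map_mul, s.σσ]
  rw [s.H_skew u.2.1 w.2.1]; ring

theorem HH_symm (s : Sq l F) (u w : F × V × F) : HH s w u = 0 ↔ HH s u w = 0 := by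
  rw [HH_skew, neg_eq_zero, map_eq_zero]

/-- the vectors representing a point -/
inductive Rep (s : Sq l F) : P → F × V × F → Prop
  | top : Rep s x (1, 0, 0)
  | far (v : V) (c : K) : Rep s ((l.ex v * l.χ c) • y) (-(2⁻¹ * s.H v v) + s.ι (2 * c), v, 1)
  | near (r : P) (ρ τ : V) (a : h.perp x r) (b : h.perp y r) (hρ : ρ ∈ l.L r) (n : ρ ≠ 0) : Rep s (l.ex τ • r) (-s.H ρ τ, ρ, 0)

theorem far_opp (l : Lin h x y K V) (v : V) (c : K) : ¬ h.perp x ((l.ex v * l.χ c) • y) := fun o => by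
  have e : (l.ex v * l.χ c) • x = x := (h.Q_le_J x (q_mem l.toMod1 v c)).1
  exact l.opp ((h.smul_iff (l.ex v * l.χ c)).1 (by rw [e]; exact o))

theorem near_perp (l : Lin h x y K V) (τ : V) {r : P} (a : h.perp x r) : h.perp x (l.ex τ • r) := by
  have e : l.ex τ • x = x := (h.Q_le_J x (l.ex_mem τ)).1
  have := h.smul (l.ex τ) a
  rwa [e] at this

theorem near_ne (l : Lin h x y K V) (τ : V) {r : P} (b : h.perp y r) : l.ex τ • r ≠ x := fun k => by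
  have e : l.ex τ • x = x := (h.Q_le_J x (l.ex_mem τ)).1
  have : r = x := MulAction.injective (l.ex τ) (k.trans e.symm)
  exact l.opp (h.symm (this ▸ b))

theorem rep_ex (s : Sq l F) (z : P) : ∃ w, Rep s z w := by
  by_cases zx : z = x
  · exact ⟨_, by rw [zx]; exact Rep.top⟩
  by_cases o : h.perp x z
  · obtain ⟨r, c, b⟩ := h.one o (Ne.symm zx) y
    have a : h.perp x r := c.perp_left o
    have rx : r ≠ x := fun e => l.opp (h.symm (e ▸ b))
    have c' : h.col x r z := (h.toGeo0.col_iff o (Ne.symm zx) c rx).2 (h.col_right x z)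
    obtain ⟨t, a', b', rt⟩ := h.toGeo0.sg_opp l.opp a rx
    obtain ⟨g, hg, e⟩ := h.U_reg l.opp a' b' a b rt c' zx
    obtain ⟨ρ, n, k⟩ := s.line a b
    refine ⟨(-s.H ρ (l.π g), ρ, 0), ?_⟩
    have := Rep.near (s := s) r ρ (l.π g) a b ((k ρ).2 ⟨1, (one_smul _ _).symm⟩) n
    rwa [l.ex_U a' b' hg, e] at this
  · obtain ⟨g, hg, e⟩ := h.Q_tr l.opp o
    obtain ⟨c, k⟩ := l.toMod1.dec hg
    have := Rep.far (s := s) (l.π g) c
    rw [← k, e] at this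
    exact ⟨_, this⟩

theorem far_far (s : Sq l F) (v v' : V) (c c' : K) :
    h.perp ((l.ex v * l.χ c) • y) ((l.ex v' * l.χ c') • y) ↔
      HH s (-(2⁻¹ * s.H v v) + s.ι (2 * c), v, 1) (-(2⁻¹ * s.H v' v') + s.ι (2 * c'), v', 1) = 0 := by
  have t2 := s.two_ne
  have k2 := l.toMod0.two_ne
  rw [h.comm, h.smul_left, smul_smul, q_div l.toMod1, l.perp_y, ← iso_iff s]
  have e : HH s (-(2⁻¹ * s.H v v) + s.ι (2 * c), v, 1) (-(2⁻¹ * s.H v' v') + s.ι (2 * c'), v', 1) =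
      2 * s.ι (2⁻¹ * l.β (-v') v + c - c') - 2⁻¹ * s.H (v - v') (v - v') := by
    have r := s.H_re v v'
    have hb : l.β (-v') v = l.β v v' := by rw [l.toMod1.skew v v', map_neg, LinearMap.neg_apply]
    have h2 : s.σ 2⁻¹ = 2⁻¹ := by rw [map_inv₀, map_ofNat]
    rw [hb]
    simp only [HH, map_add, map_sub, map_mul, map_neg, map_one, σ_ι, σ_self, H_sub_left, H_sub_right, h2, map_ofNat,
      map_inv₀] at r ⊢
    rw [s.H_skew v v']
    field_simp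
    linear_combination r
  rw [e]
  constructor
  · rintro ⟨a, b⟩
    rw [a, b, map_zero]; ring
  · intro k
    have k' := congrArg s.σ k
    have h2 : s.σ 2⁻¹ = 2⁻¹ := by rw [map_inv₀, map_ofNat]
    rw [map_sub, map_mul, map_mul, σ_ι, σ_self, h2, map_ofNat, map_zero] at k'
    constructor
    · have : (2 * 2 : F) * s.ι (2⁻¹ * l.β (-v') v + c - c') = 0 := by linear_combination k + k'
      exact (map_eq_zero s.ι).1 ((mul_eq_zero.1 this).resolve_left (mul_ne_zero t2 t2))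
    · have : (2 * 2⁻¹ : F) * s.H (v - v') (v - v') = 0 := by linear_combination k' - k
      rwa [mul_inv_cancel₀ t2, one_mul] at this

theorem fix_iff (s : Sq l F) {r : P} {ρ : V} (a : h.perp x r) (b : h.perp y r) (hρ : ρ ∈ l.L r) (n : ρ ≠ 0) (v : V) (c : K) :
    (l.ex v * l.χ c) • r = r ↔ s.H ρ v = 0 := by
  rw [mul_smul, l.χ_mem c r a, l.fix v a b, s.H_zero a b hρ n]

theorem near_far (s : Sq l F) {r : P} {ρ : V} (τ v : V) (c : K) (a : h.perp x r) (b : h.perp y r) (hρ : ρ ∈ l.L r) (n : ρ ≠ 0) :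
    h.perp (l.ex τ • r) ((l.ex v * l.χ c) • y) ↔
      HH s (-s.H ρ τ, ρ, 0) (-(2⁻¹ * s.H v v) + s.ι (2 * c), v, 1) = 0 := by
  have e : HH s (-s.H ρ τ, ρ, 0) (-(2⁻¹ * s.H v v) + s.ι (2 * c), v, 1) = s.H ρ (v - τ) := by
    simp only [HH, map_one, H_sub_right]; ring
  have d := q_div l.toMod1 v τ c 0
  rw [l.toMod0.χ_zero, mul_one] at d
  rw [e, h.smul_left, smul_smul, d, ← fix_iff s a b hρ n (v - τ) (2⁻¹ * l.β (-τ) v + c - 0)]
  refine ⟨fun o => h.toGeo0.J_fix (h.Q_le_J x (q_mem l.toMod1 _ _)) l.opp a b (h.symm o), fun k => ?_⟩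
  rw [← k]
  nth_rewrite 1 [k]
  rw [← k]
  exact h.smul _ (h.symm b)

theorem near_near (s : Sq l F) {r r' : P} {ρ ρ' : V} (τ τ' : V) (a : h.perp x r) (b : h.perp y r) (hρ : ρ ∈ l.L r) (n : ρ ≠ 0)
    (a' : h.perp x r') (b' : h.perp y r') (hρ' : ρ' ∈ l.L r') (n' : ρ' ≠ 0) :
    h.perp (l.ex τ • r) (l.ex τ' • r') ↔ HH s (-s.H ρ τ, ρ, 0) (-s.H ρ' τ', ρ', 0) = 0 := by
  have e : HH s (-s.H ρ τ, ρ, 0) (-s.H ρ' τ', ρ', 0) = s.H ρ ρ' := by
    simp only [HH, map_zero]; ring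
  rw [e, ← (h.Q_le_J x (l.ex_mem τ')).2 r' _ a' (near_perp l τ a), h.comm, ← (h.Q_le_J x (l.ex_mem τ)).2 r _ a a', h.comm,
    s.H_zero a b hρ n]
  refine ⟨fun o ρ₁ k => l.L_perp a b a' b' o ρ₁ k ρ' hρ', fun k => ?_⟩
  by_contra o
  obtain ⟨ρ₁, k₁, k₂⟩ := l.L_opp a b a' b' o ρ' hρ' n'
  exact k₂ (k ρ₁ k₁)

theorem rep_perp (s : Sq l F) {z z' : P} {w w' : F × V × F} (m : Rep s z w) (m' : Rep s z' w') : h.perp z z' ↔ HH s w w' = 0 := by
  have tf : ∀ v c, h.perp x ((l.ex v * l.χ c) • y) ↔ HH s (1, 0, 0) (-(2⁻¹ * s.H v v) + s.ι (2 * c), v, 1) = 0 := fun v c =>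
    iff_of_false (far_opp l v c) (by simp [HH, H_zero_left])
  have tn : ∀ r ρ τ, h.perp x r → (h.perp x (l.ex τ • r) ↔ HH s (1, 0, 0) (-s.H ρ τ, ρ, 0) = 0) := fun r ρ τ a =>
    iff_of_true (near_perp l τ a) (by simp [HH, H_zero_left])
  cases m with
  | top =>
    cases m' with
    | top => exact iff_of_true (h.refl _) (by simp [HH, H_zero_left])
    | far v c => exact tf v c
    | near r ρ τ a b hρ n => exact tn r ρ τ a
  | far v c =>
    cases m' with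
    | top => rw [h.comm, HH_symm]; exact tf v c
    | far v' c' => exact far_far s v v' c c'
    | near r ρ τ a b hρ n => rw [h.comm, HH_symm]; exact near_far s τ v c a b hρ n
  | near r ρ τ a b hρ n =>
    cases m' with
    | top => rw [h.comm, HH_symm]; exact tn r ρ τ a
    | far v c => exact near_far s τ v c a b hρ n
    | near r' ρ' τ' a' b' hρ' n' => exact near_near s τ τ' a b hρ n a' b' hρ' n'

theorem rep_ne (s : Sq l F) {z : P} {w : F × V × F} (m : Rep s z w) : w ≠ 0 := by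
  cases m with
  | top => simp
  | far v c => simp
  | near r ρ τ a b hρ n => simp [n]

theorem rep_cases (s : Sq l F) {z : P} {w : F × V × F} (m : Rep s z w) :
    (z = x ∧ w = (1, 0, 0)) ∨ (∃ v c, z = (l.ex v * l.χ c) • y ∧ w = (-(2⁻¹ * s.H v v) + s.ι (2 * c), v, 1)) ∨
      ∃ r ρ τ, h.perp x r ∧ h.perp y r ∧ ρ ∈ l.L r ∧ ρ ≠ 0 ∧ z = l.ex τ • r ∧ w = (-s.H ρ τ, ρ, 0) := by
  cases m with
  | top => exact Or.inl ⟨rfl, rfl⟩
  | far v c => exact Or.inr (Or.inl ⟨v, c, rfl, rfl⟩)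
  | near r ρ τ a b hρ n => exact Or.inr (Or.inr ⟨r, ρ, τ, a, b, hρ, n, rfl, rfl⟩)

theorem rep_uniq (s : Sq l F) {z : P} {w w' : F × V × F} (m : Rep s z w) (m' : Rep s z w') : ∃ t : F, w = t • w' := by
  rcases rep_cases s m with ⟨e, rfl⟩ | ⟨v, c, e, rfl⟩ | ⟨r, ρ, τ, a, b, hρ, n, e, rfl⟩ <;>
    rcases rep_cases s m' with ⟨e', rfl⟩ | ⟨v', c', e', rfl⟩ | ⟨r', ρ', τ', a', b', hρ', n', e', rfl⟩
  · exact ⟨1, (one_smul _ _).symm⟩
  · exact absurd (e' ▸ e ▸ h.refl x) (far_opp l v' c')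
  · exact absurd (e'.symm.trans e) (near_ne l τ' b')
  · exact absurd (e ▸ e' ▸ h.refl x) (far_opp l v c)
  · have k : ((l.ex v' * l.χ c')⁻¹ * (l.ex v * l.χ c)) • y = y := by rw [mul_smul, ← e, e', inv_smul_smul]
    have k1 := h.Q_reg l.opp (mul_mem (inv_mem (q_mem l.toMod1 v' c')) (q_mem l.toMod1 v c)) k
    rw [inv_mul_eq_one] at k1
    have hv : v' = v := by rw [← π_q l.toMod1 v' c', k1, π_q]
    subst hv
    have hc : c' = c := l.χ_inj (mul_left_cancel k1)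
    subst hc
    exact ⟨1, (one_smul _ _).symm⟩
  · exact absurd (e ▸ e' ▸ near_perp l τ' a') (far_opp l v c)
  · exact absurd (e.symm.trans e') (near_ne l τ b)
  · exact absurd (e' ▸ e ▸ near_perp l τ a) (far_opp l v' c')
  · have d := q_div l.toMod1 τ τ' 0 0
    rw [l.toMod0.χ_zero, mul_one, mul_one] at d
    have k : (l.ex (τ - τ') * l.χ (2⁻¹ * l.β (-τ') τ + 0 - 0)) • r = r' := by rw [← d, mul_smul, ← e, e', inv_smul_smul]
    have rx : x ≠ r := fun e => l.opp (h.symm (e ▸ b))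
    have rr : r = r' := h.toGeo0.uniq a rx l.opp (h.col_right x r)
      (k ▸ h.toGeo0.J_col (h.Q_le_J x (q_mem l.toMod1 _ _)) a) b b'
    subst rr
    obtain ⟨t, rfl⟩ := prop s a b hρ' n' hρ
    rw [fix_iff s a b hρ' n', H_sub_right, sub_eq_zero] at k
    exact ⟨t, by simp [s.H_smul, k]⟩

theorem H_nd (s : Sq l F) {v : V} (k : ∀ u, s.H u v = 0) : v = 0 := l.nondeg v fun u => β_of_H s (k u)

theorem rep_onto (s : Sq l F) {w : F × V × F} (n : w ≠ 0) (k : HH s w w = 0) : ∃ z w₀, ∃ t : F, Rep s z w₀ ∧ w = t • w₀ := by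
  obtain ⟨a, v, b⟩ := w
  have t2 := s.two_ne
  by_cases hb : b = 0
  · subst hb
    have k' : s.H v v = 0 := by simpa [HH] using k
    by_cases hv : v = 0
    · exact ⟨x, _, a, Rep.top, by simp [hv]⟩
    · obtain ⟨r, a', b', hr⟩ := s.iso_mem hv k'
      obtain ⟨u, hu⟩ : ∃ u, s.H v u ≠ 0 := by
        by_contra hh
        push Not at hh
        exact hv (H_nd s fun u => by rw [s.H_skew, hh, map_zero, neg_zero])
      refine ⟨_, _, 1, Rep.near r v (s.σ (-a / s.H v u) • u) a' b' hr hv, ?_⟩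
      rw [one_smul, H_smul_right, s.σσ, div_mul_cancel₀ _ hu, neg_neg]
  · have hσ : s.σ b ≠ 0 := (map_ne_zero s.σ).2 hb
    have k' : a * s.σ b - b * s.σ a + s.H v v = 0 := k
    have e1 : s.H (b⁻¹ • v) (b⁻¹ • v) = b⁻¹ * (s.σ b)⁻¹ * s.H v v := by
      rw [s.H_smul, H_smul_right, map_inv₀]; ring
    obtain ⟨c, hc⟩ := (s.fix_iff (b⁻¹ * a + 2⁻¹ * s.H (b⁻¹ • v) (b⁻¹ • v))).1 (by
      rw [map_add, map_mul, map_mul, σ_self, e1, map_inv₀, map_inv₀, map_ofNat]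
      field_simp
      linear_combination (-2 : F) * k')
    refine ⟨_, _, b, Rep.far (b⁻¹ • v) (2⁻¹ * c), ?_⟩
    rw [← mul_assoc, mul_inv_cancel₀ l.toMod0.two_ne, one_mul, hc]
    refine Prod.ext ?_ (Prod.ext ?_ ?_)
    · simp only [Prod.smul_mk, smul_eq_mul]; field_simp; ring
    · simp only [Prod.smul_mk, smul_smul, mul_inv_cancel₀ hb, one_smul]
    · simp

end Emb

/-- `W = F × V × F`, `H ((a,v,b), (a',v',b')) = a σ b' - b σ a' + H v v'`.  `ψ x = (1,0,0)`; `ψ ((ex v χ c) • y) = (-2⁻¹ H v v + ι (2 c), v, 1)` (`Q_tr`, `Q_reg`, `dec`); for `z ⊥ x`, `z ≠ x`: `r ∈ Σ` on the line `x z` (unique), `ρ` spanning `L r`, `z = ex τ • r` (`U_reg`), `ψ z = (-H ρ τ, ρ, 0)`.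
`H (ψ y₁) (ψ y₂) = ι (2 c - 2 c' + β v v') - 2⁻¹ H (v - v') (v - v')` (a `σ`-fixed and a `σ`-skew summand), and `y₁ ⊥ y₂ ↔ (ex v' χ c')⁻¹ (ex v χ c) • y ⊥ y` (`perp_y`, `iso_mem`).  `H (ψ z) (ψ y₁) = H ρ (v - τ)`, `z ⊥ y₁ ↔ ex (τ - v) • r = r` (`fix`).
`z ⊥ z' ↔ r ⊥ r' ↔ H ρ ρ' = 0` (`L_perp`, `L_opp`).  `cardC`: `card_C`, `fix_iff`. -/
theorem Sq.exists_emb (s : Sq l F) : ∃ m : Emb h F (F × V × F), m.σ = s.σ := by
  choose ψ hψ using Emb.rep_ex s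
  have mem : ∀ {z w}, Emb.Rep s z w → w ∈ Submodule.span F (Set.range ψ) := fun {z w} m => by
    obtain ⟨t, rfl⟩ := Emb.rep_uniq s m (hψ z)
    exact Submodule.smul_mem _ _ (Submodule.subset_span ⟨z, rfl⟩)
  refine ⟨⟨s.σ, Emb.HH s, ψ, s.σσ, fun u v w => ?_, fun a u w => ?_, Emb.HH_skew s, fun w k => ?_, fun z => Emb.rep_ne s (hψ z),
    fun z w => Emb.rep_perp s (hψ z) (hψ w), fun w n k => ?_, ?_, fun z => ?_⟩, rfl⟩
  · simp only [Emb.HH, Prod.fst_add, Prod.snd_add, s.H_add]; ring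
  · simp only [Emb.HH, Prod.smul_fst, Prod.smul_snd, smul_eq_mul, s.H_smul]; ring
  · obtain ⟨a, v, b⟩ := w
    have k1 := k (1, 0, 0)
    have k2 := k (0, 0, 1)
    have k3 : v = 0 := Emb.H_nd s fun u => by simpa [Emb.HH] using k (0, u, 0)
    simp only [Emb.HH, Emb.H_zero_left, one_mul, zero_mul, sub_zero, add_zero, zero_sub, neg_eq_zero, map_eq_zero] at k1 k2
    rw [k1, k2, k3]; rfl
  · obtain ⟨z, w₀, t, m, rfl⟩ := Emb.rep_onto s n k
    obtain ⟨t', rfl⟩ := Emb.rep_uniq s m (hψ z)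
    exact ⟨z, t * t', by rw [mul_smul]⟩
  · refine eq_top_iff.2 fun w _ => ?_
    obtain ⟨a, v, b⟩ := w
    have m1 := mem (Emb.Rep.top (s := s))
    have m2 := mem (Emb.Rep.far (s := s) 0 0)
    have m3 := mem (Emb.Rep.far (s := s) v 0)
    have e : ((a, v, b) : F × V × F) = (a + 2⁻¹ * s.H v v) • ((1, 0, 0) : F × V × F) +
        (b - 1) • ((-(2⁻¹ * s.H 0 0) + s.ι (2 * 0), 0, 1) : F × V × F) + (-(2⁻¹ * s.H v v) + s.ι (2 * 0), v, 1) := by
      simp [Emb.H_zero_left]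
    rw [e]
    exact add_mem (add_mem (Submodule.smul_mem _ _ m1) (Submodule.smul_mem _ _ m2)) m3
  · rw [l.toMod0.card_C z]
    exact Nat.card_congr (Equiv.ofBijective (fun c => (⟨s.ι c, Emb.σ_ι s c⟩ : {a : F // s.σ a = a}))
      ⟨fun c d e => s.ι.injective (congrArg Subtype.val e), fun a => by
        obtain ⟨c, hc⟩ := (s.fix_iff a.1).1 a.2
        exact ⟨c, Subtype.ext hc⟩⟩)

end CL.PT
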