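/- S3235: the field. -/
import Mathlib
import Cfsg.Agent.CHEV.PT.Dl
import Cfsg.Agent.CHEV.FS.QJ

set_option autoImplicit false

namespace CL.PT

open Subgroup

universe u

variable {p : ℕ} {G P : Type u} [Group G] [MulAction G P] [Finite G] [Finite P]

namespace FldX

/-- an additive group of endomorphisms closed under inverses is a field -/
theorem field_of {A V : Type u} [Group A] [AddCommGroup V] [Finite V] (ne : ∃ v : V, v ≠ 0) (T : A → AddMonoid.End V)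
    (Tmul : ∀ a b, T (a * b) = T a + T b) (e : A) (Te : T e = 1)
    (Tu : ∀ a, a ≠ 1 → ∃ b, T a * T b = 1 ∧ T b * T a = 1) :
    ∃ (K : Type) (_ : Field K) (_ : Module K V) (x : K ≃ A), (∀ t u, x (t + u) = x t * x u) ∧ ∀ t v, T (x t) v = t • v := by
  classical
  have T1 : T 1 = 0 := by simpa using Tmul 1 1
  have Tinv : ∀ a, T a⁻¹ = -T a := fun a => eq_neg_of_add_eq_zero_left (by rw [← Tmul, inv_mul_cancel, T1])
  have nt : (1 : AddMonoid.End V) ≠ 0 := fun h => by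
    obtain ⟨v, hv⟩ := ne
    exact hv (DFunLike.congr_fun h v)
  have T0 : ∀ a, T a = 0 → a = 1 := fun a h => by
    by_contra ha
    obtain ⟨b, hb, -⟩ := Tu a ha
    rw [h, zero_mul] at hb
    exact nt hb.symm
  have inj : Function.Injective T := fun a b h => mul_inv_eq_one.1 (T0 _ (by rw [Tmul, Tinv, h, add_neg_cancel]))
  let J : AddSubgroup (AddMonoid.End V) :=
    { carrier := Set.range T
      add_mem' := by rintro _ _ ⟨a, rfl⟩ ⟨b, rfl⟩; exact ⟨_, Tmul a b⟩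
      zero_mem' := ⟨1, T1⟩
      neg_mem' := by rintro _ ⟨a, rfl⟩; exact ⟨_, Tinv a⟩ }
  have hi : ∀ a ∈ J, a ≠ 0 → ∃ b ∈ J, a * b = 1 ∧ b * a = 1 := by
    rintro _ ⟨a, rfl⟩ h
    obtain ⟨b, hb⟩ := Tu a fun h' => h (h' ▸ T1)
    exact ⟨_, ⟨b, rfl⟩, hb⟩
  have : Finite (AddMonoid.End V) := DFunLike.finite _
  have hj := CL.FS.jd J ⟨e, Te⟩ hi
  let R : Subring (AddMonoid.End V) :=
    { J with mul_mem' := fun {a b} ha hb => (hj a ha b hb).1, one_mem' := ⟨e, Te⟩ }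
  have hf : IsField R := ⟨⟨1, 0, fun h => nt (congrArg Subtype.val h)⟩, fun a b => Subtype.ext (hj _ a.2 _ b.2).2,
    fun {a} h => by
      obtain ⟨b, hb, h1, -⟩ := hi a a.2 fun h' => h (Subtype.ext h')
      exact ⟨⟨b, hb⟩, Subtype.ext h1⟩⟩
  let x : R ≃ A := (Equiv.ofInjective T inj).symm
  have hx : ∀ t : R, T (x t) = t := fun t => Equiv.apply_ofInjective_symm inj t
  have : Small.{0} R := inferInstance
  let j : Shrink.{0} R ≃+* R := Shrink.ringEquiv.{0} R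
  let _ := (j.toMulEquiv.isField hf).toField
  refine ⟨Shrink.{0} R, inferInstance, Module.compHom _ (R.subtype.comp j.toRingHom), j.toEquiv.trans x,
    fun t u => inj ?_, fun t v => DFunLike.congr_fun (hx (j t)) v⟩
  change T (x (j (t + u))) = T (x (j t) * x (j u))
  rw [Tmul, hx, hx, hx, map_add]
  rfl

/-- the quotient `Q x / C x` with the action of the stabiliser of `x` -/
structure Qv (h : Geo p G P) (x : P) (V : Type u) [AddCommGroup V] where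
  π : G → V
  T : G → AddMonoid.End V
  π_mul : ∀ {g g'}, g ∈ h.Q x → g' ∈ h.Q x → π (g * g') = π g + π g'
  π_ker : ∀ {g}, g ∈ h.Q x → (π g = 0 ↔ g ∈ h.C x)
  π_surj : ∀ v, ∃ g ∈ h.Q x, π g = v
  T_π : ∀ {k g}, k • x = x → g ∈ h.Q x → T k (π g) = π (k * g * k⁻¹)

variable {h : Geo p G P} {x y : P}

theorem Qc {k g : G} (hk : k • x = x) (hg : g ∈ h.Q x) : k * g * k⁻¹ ∈ h.Q x := by
  have := h.Q_conj k hg
  rwa [hk] at this

theorem Cc {k g : G} (hk : k • x = x) (hg : g ∈ h.C x) : k * g * k⁻¹ ∈ h.C x := by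
  have := h.C_conj k hg
  rwa [hk] at this

theorem exists_Qv (h : Geo p G P) (x : P) :
    ∃ (V : Type u) (_ : AddCommGroup V) (_ : Finite V), Nonempty (Qv h x V) := by
  classical
  let Z : Subgroup (h.Q x) := (h.C x).subgroupOf (h.Q x)
  have : Z.Normal := ⟨fun c hc g => Cc (h.Q_le_J x g.2).1 hc⟩
  have hq : ∀ a b : h.Q x ⧸ Z, a * b = b * a := fun a b => by
    obtain ⟨v, rfl⟩ := QuotientGroup.mk_surjective a
    obtain ⟨w, rfl⟩ := QuotientGroup.mk_surjective b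
    rw [← mul_inv_eq_one, mul_inv_rev, ← mul_assoc]
    exact (QuotientGroup.eq_one_iff (v * w * v⁻¹ * w⁻¹)).2 (h.Q_comm v.2 w.2)
  let _ : CommGroup (h.Q x ⧸ Z) := { (inferInstance : Group (h.Q x ⧸ Z)) with mul_comm := hq }
  let S : ∀ k : G, k • x = x → (h.Q x →* h.Q x) := fun k hk =>
    MonoidHom.mk' (fun g => ⟨k * g * k⁻¹, Qc hk g.2⟩) fun a b => Subtype.ext (by simp [mul_assoc])
  have hS : ∀ k hk, Z ≤ Z.comap (S k hk) := fun k hk z hz => Cc hk hz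
  let T₀ : ∀ k : G, k • x = x → AddMonoid.End (Additive (h.Q x ⧸ Z)) := fun k hk =>
    MonoidHom.toAdditive (QuotientGroup.map Z Z (S k hk) (hS k hk))
  let T : G → AddMonoid.End (Additive (h.Q x ⧸ Z)) := fun k => if hk : k • x = x then T₀ k hk else 0
  have hT : ∀ k hk, T k = T₀ k hk := fun k hk => dif_pos hk
  refine ⟨Additive (h.Q x ⧸ Z), inferInstance, inferInstance,
    ⟨{ π := fun g => if hg : g ∈ h.Q x then Additive.ofMul ((⟨g, hg⟩ : h.Q x) : h.Q x ⧸ Z) else 0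
       T := T
       π_mul := fun {g g'} hg hg' => ?_
       π_ker := fun {g} hg => ?_
       π_surj := fun v => ?_
       T_π := fun {k g} hk hg => ?_ }⟩⟩
  · rw [dif_pos hg, dif_pos hg', dif_pos (mul_mem hg hg')]
    rfl
  · rw [dif_pos hg]
    exact QuotientGroup.eq_one_iff (⟨g, hg⟩ : h.Q x)
  · obtain ⟨g, e⟩ := QuotientGroup.mk_surjective v.toMul
    exact ⟨g, g.2, by rw [dif_pos g.2]; exact congrArg Additive.ofMul e⟩
  · rw [hT k hk, dif_pos hg, dif_pos (Qc hk hg)]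
    rfl

/-- `m = μ a` -/
def M (h : Geo p G P) (x y : P) (a m : G) : Prop := ∃ b, h.Mu x y a b a ∧ m = a * b * a

variable {a a' m m' k : G}

theorem M.ex (xy : ¬ h.perp x y) (ha : a ∈ h.C x) (a1 : a ≠ 1) : ∃ m, M h x y a m := by
  obtain ⟨b, a₂, e⟩ := h.mu_ex xy ha a1
  obtain rfl := h.special xy e
  exact ⟨_, b, e, rfl⟩

theorem M.uniq (xy : ¬ h.perp x y) (e : M h x y a m) (e' : M h x y a m') : m = m' := by
  obtain ⟨b, e, rfl⟩ := e
  obtain ⟨b', e', rfl⟩ := e'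
  rw [(h.mu_uniq xy e e').1]

theorem M.inv (e : M h x y a m) : M h x y a⁻¹ m⁻¹ := by
  obtain ⟨b, e, rfl⟩ := e
  exact ⟨_, h.mu_inv e, by group⟩

theorem M.conj (e : M h x y a m) (kx : k • x = x) (ky : k • y = y) : M h x y (k * a * k⁻¹) (k * m * k⁻¹) := by
  obtain ⟨b, e, rfl⟩ := e
  have := h.mu_conj k e
  rw [kx, ky] at this
  exact ⟨_, this, by group⟩

theorem M.swap (xy : ¬ h.perp x y) (e : M h x y a m) (kx : k • x = y) (ky : k • y = x) :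
    ∃ a', M h x y a' (k * m * k⁻¹) := by
  obtain ⟨b, e, rfl⟩ := e
  obtain ⟨b₃, e', f⟩ := h.mu_swap e
  obtain rfl := h.special (fun o => xy (h.symm o)) e'
  have := h.mu_conj k e'
  rw [kx, ky] at this
  exact ⟨_, _, this, by rw [← f]; group⟩

theorem M.mem (e : M h x y a m) : a ∈ h.C x := let ⟨_, e, _⟩ := e; e.m1
theorem M.ne (xy : ¬ h.perp x y) (e : M h x y a m) : a ≠ 1 := let ⟨_, e, _⟩ := e; (h.mu_ne xy e).1
theorem M.sx (e : M h x y a m) : m • x = y := let ⟨_, e, f⟩ := e; f ▸ e.sx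
theorem M.sy (e : M h x y a m) : m • y = x := let ⟨_, e, f⟩ := e; f ▸ e.sy
theorem M.K (e : M h x y a m) : m ∈ h.C x ⊔ h.C y :=
  let ⟨_, e, f⟩ := e
  f ▸ mul_mem (mul_mem (mem_sup_left e.m1) (mem_sup_right e.mb)) (mem_sup_left e.m1)
theorem M.fx (e : M h x y a m) (e' : M h x y a' m') : (m * m') • x = x := by rw [mul_smul, e'.sx, e.sy]
theorem M.fy (e : M h x y a m) (e' : M h x y a' m') : (m * m') • y = y := by rw [mul_smul, e'.sy, e.sx]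

/-- the point `w` of `mu_add` -/
theorem tw (xy : ¬ h.perp x y) {r : P} (k : h.perp x r) (l : h.perp y r) {u a₀ m₀ : G} (hu : u ∈ h.U x y r)
    (e₀ : M h x y a₀ m₀) : h.col x r (m₀⁻¹ • u • y) ∧ m₀⁻¹ • u • y ≠ r ∧ ∀ {a m}, M h x y a m →
      m * m₀⁻¹ * u * (m * m₀⁻¹)⁻¹ ∈ h.U x y r ∧ (m * m₀⁻¹ * u * (m * m₀⁻¹)⁻¹) • y = m • m₀⁻¹ • u • y := by
  have f0 : m₀⁻¹ • r = r := h.K_fix e₀.inv.K k l
  refine ⟨?_, fun e => ?_, fun {a m} e => ⟨?_, ?_⟩⟩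
  · have := (h.col_smul m₀⁻¹).2 ((h.mem_U xy k l).1 hu).2
    rwa [e₀.inv.sy, f0] at this
  · rw [← f0, smul_left_cancel_iff] at e
    rw [← e, ← (h.Q_le_J x hu.1).1] at k
    exact xy ((h.smul_iff u).1 k)
  · have := h.U_conj (m * m₀⁻¹) hu
    rwa [e.fx e₀.inv, e.fy e₀.inv, h.K_fix (mul_mem e.K e₀.inv.K) k l] at this
  · rw [mul_smul, mul_smul, inv_smul_eq_iff.2 (e.fy e₀.inv).symm, mul_smul]

namespace Qv

variable {V : Type u} [AddCommGroup V] (q : Qv h x V)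

theorem π_one : q.π 1 = 0 := (q.π_ker (one_mem _)).2 (one_mem _)

theorem ext {f g : AddMonoid.End V} (e : ∀ u ∈ h.Q x, f (q.π u) = g (q.π u)) : f = g :=
  AddMonoidHom.ext fun v => by
    obtain ⟨u, hu, rfl⟩ := q.π_surj v
    exact e u hu

theorem ext_U (xy : ¬ h.perp x y) {f g : AddMonoid.End V}
    (e : ∀ r, h.perp x r → h.perp y r → ∀ u ∈ h.U x y r, f (q.π u) = g (q.π u)) : f = g := by
  refine q.ext fun u hu => ?_
  rw [h.Q_gen xy] at hu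
  refine (iSup_induction (C := fun u => u ∈ h.Q x ∧ f (q.π u) = g (q.π u)) _ hu (fun r u hu => ?_)
    ⟨one_mem _, by rw [q.π_one, map_zero, map_zero]⟩ fun a b ha hb => ⟨mul_mem ha.1 hb.1, ?_⟩).2
  · by_cases o : h.perp x r ∧ h.perp y r
    · rw [iSup_pos o] at hu
      exact ⟨hu.1, e r o.1 o.2 u hu⟩
    · rw [iSup_neg o, mem_bot] at hu
      exact hu ▸ ⟨one_mem _, by rw [q.π_one, map_zero, map_zero]⟩
  · rw [q.π_mul ha.1 hb.1, map_add, map_add, ha.2, hb.2]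

theorem T_one : q.T 1 = 1 := q.ext fun u hu => by
  rw [q.T_π (one_smul _ _) hu, one_mul, inv_one, mul_one]
  rfl

theorem T_mul {k k' : G} (hk : k • x = x) (hk' : k' • x = x) : q.T (k * k') = q.T k * q.T k' := q.ext fun u hu => by
  change _ = q.T k (q.T k' _)
  rw [q.T_π (by rw [mul_smul, hk', hk]) hu, q.T_π hk' hu, q.T_π hk (Qc hk' hu)]
  congr 1
  group

variable {a₀ m₀ m'' : G}

theorem T_add (xy : ¬ h.perp x y) (e₀ : M h x y a₀ m₀) (e : M h x y a m) (e' : M h x y a' m')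
    (e'' : M h x y (a * a') m'') : q.T (m'' * m₀⁻¹) = q.T (m * m₀⁻¹) + q.T (m' * m₀⁻¹) :=
  q.ext_U xy fun r k l u hu => by
    obtain ⟨c, n, t⟩ := tw xy k l hu e₀
    change _ = q.T _ _ + q.T _ _
    rw [q.T_π (e''.fx e₀.inv) hu.1, q.T_π (e.fx e₀.inv) hu.1, q.T_π (e'.fx e₀.inv) hu.1, ← q.π_mul (t e).1.1 (t e').1.1]
    have t1 := t e
    have t2 := t e'
    have t3 := t e''
    obtain ⟨b, e, rfl⟩ := e
    obtain ⟨b', e', rfl⟩ := e'
    obtain ⟨b'', e'', rfl⟩ := e''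
    rw [h.mu_add xy k l c n e e' e'' t1.1 t2.1 t3.1 t1.2 t2.2 t3.2]

theorem T_neg (xy : ¬ h.perp x y) (e₀ : M h x y a₀ m₀) (e : M h x y a m) :
    q.T (m * m₀⁻¹) + q.T (m⁻¹ * m₀⁻¹) = 0 :=
  q.ext_U xy fun r k l u hu => by
    obtain ⟨c, n, t⟩ := tw xy k l hu e₀
    change q.T _ _ + q.T _ _ = 0
    rw [q.T_π (e.inv.fx e₀.inv) hu.1, q.T_π (e.fx e₀.inv) hu.1, ← q.π_mul (t e).1.1 (t e.inv).1.1]
    have t1 := t e
    have t2 := t e.inv
    obtain ⟨b, e, rfl⟩ := e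
    rw [h.mu_neg xy k l c n e t1.1 t2.1 t1.2 t2.2, q.π_one]

theorem T_sq (xy : ¬ h.perp x y) (e : M h x y a m) : q.T (m * m) = -1 := by
  have := q.T_neg xy e.inv e.inv
  rw [inv_inv, inv_mul_cancel, q.T_one] at this
  exact eq_neg_of_add_eq_zero_right this

theorem T_inv (xy : ¬ h.perp x y) (e₀ : M h x y a₀ m₀) (e : M h x y a m) :
    q.T (m₀ * m * m₀⁻¹ * m₀⁻¹) = q.T (m₀ * m⁻¹) := by
  rw [show m₀ * m * m₀⁻¹ * m₀⁻¹ = m₀ * m⁻¹ * (m * m * (m₀⁻¹ * m₀⁻¹)) by group,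
    q.T_mul (e₀.fx e.inv) (by rw [mul_smul, e₀.inv.fx e₀.inv, e.fx e]), q.T_mul (e.fx e) (e₀.inv.fx e₀.inv),
    q.T_sq xy e, q.T_sq xy e₀.inv, neg_mul_neg, one_mul, mul_one]

theorem T_cj (xy : ¬ h.perp x y) (e₀ : M h x y a₀ m₀) (e : M h x y a m) (e' : M h x y a' m') :
    q.T (m * m₀⁻¹ * m' * (m * m₀⁻¹)⁻¹ * m₀⁻¹) = q.T (m * m₀⁻¹) * (q.T (m' * m₀⁻¹) * q.T (m * m₀⁻¹)) := by
  have f1 := e.fx e₀.inv
  have f2 : (m⁻¹ * m⁻¹ * (m * m₀⁻¹)) • x = x := by rw [mul_smul, f1, e.inv.fx e.inv]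
  have f3 : (m₀ * m₀ * (m⁻¹ * m⁻¹ * (m * m₀⁻¹))) • x = x := by rw [mul_smul, f2, e₀.fx e₀]
  rw [show m * m₀⁻¹ * m' * (m * m₀⁻¹)⁻¹ * m₀⁻¹ =
      m * m₀⁻¹ * (m' * m₀⁻¹ * (m₀ * m₀ * (m⁻¹ * m⁻¹ * (m * m₀⁻¹)))) by group,
    q.T_mul f1 (by rw [mul_smul, f3, e'.fx e₀.inv]), q.T_mul (e'.fx e₀.inv) f3, q.T_mul (e₀.fx e₀) f2,
    q.T_mul (e.inv.fx e.inv) f1, q.T_sq xy e₀, q.T_sq xy e.inv, ← mul_assoc (-1), neg_mul_neg, one_mul, one_mul]

end Qv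

end FldX

open FldX in
/-- The torus elements `μ a * μ₀⁻¹` act on `Q x / C x` as a field. -/
theorem Geo.exists_mod0 (h : Geo p G P) {x y : P} (xy : ¬ h.perp x y) :
    ∃ (K : Type) (_ : Field K) (V : Type u) (_ : AddCommGroup V) (_ : Module K V), Nonempty (Mod0 h x y K V) := by
  classical
  obtain ⟨V, _, _, ⟨q⟩⟩ := exists_Qv h x
  obtain ⟨a₀, ha₀, n₀⟩ := h.Ene x
  obtain ⟨m₀, e₀⟩ := M.ex xy (h.E_le_C x ha₀) n₀
  have ne : ∃ v : V, v ≠ 0 := by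
    obtain ⟨r, k, l⟩ := h.sg_ex xy
    obtain ⟨g, hg, n⟩ := h.U_ne xy k l
    exact ⟨q.π g, fun e => n ((q.π_ker hg.1).1 e)⟩
  choose! μ hμ using fun a (ha : a ∈ h.C x) (n : a ≠ 1) => M.ex (h := h) xy ha n
  let S : h.C x → AddMonoid.End V := fun a => if (a : G) = 1 then 0 else q.T (μ a * m₀⁻¹)
  have S1 : S 1 = 0 := if_pos rfl
  have SM : ∀ (a : h.C x) {m}, M h x y a m → S a = q.T (m * m₀⁻¹) := fun a m e => by
    rw [e.uniq xy (hμ a a.2 (e.ne xy))]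
    exact if_neg (e.ne xy)
  have hμ' : ∀ a : h.C x, a ≠ 1 → M h x y a (μ a) := fun a n => hμ a a.2 fun e => n (Subtype.ext e)
  obtain ⟨K, _, _, χ, χa, χs⟩ := field_of ne S (fun a b => by
      by_cases a1 : a = 1
      · rw [a1, one_mul, S1, zero_add]
      by_cases b1 : b = 1
      · rw [b1, mul_one, S1, add_zero]
      by_cases c1 : a * b = 1
      · obtain rfl : b = a⁻¹ := eq_inv_of_mul_eq_one_right c1
        rw [c1, S1, SM a (hμ' a a1), SM a⁻¹ (hμ' a a1).inv, q.T_neg xy e₀ (hμ' a a1)]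
      · rw [SM a (hμ' a a1), SM b (hμ' b b1), SM _ (hμ' _ c1)]
        exact q.T_add xy e₀ (hμ' a a1) (hμ' b b1) (hμ' _ c1))
    ⟨a₀, e₀.mem⟩ (by rw [SM _ e₀, mul_inv_cancel, q.T_one]) fun a a1 => by
      have e := hμ' a a1
      obtain ⟨a', e'⟩ := e.swap xy e₀.sx e₀.sy
      refine ⟨⟨a', e'.mem⟩, ?_, ?_⟩
      · rw [SM a e, SM ⟨a', e'.mem⟩ e', q.T_inv xy e₀ e, ← q.T_mul (e.fx e₀.inv) (e₀.fx e.inv), ← q.T_one]
        congr 1
        group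
      · rw [SM a e, SM ⟨a', e'.mem⟩ e', q.T_inv xy e₀ e, ← q.T_mul (e₀.fx e.inv) (e.fx e₀.inv), ← q.T_one]
        congr 1
        group
  have χ0 : χ 0 = 1 := by simpa using χa 0 0
  have χn : ∀ {t}, t ≠ 0 → χ t ≠ 1 := fun n e => n (χ.injective (e.trans χ0.symm))
  have χi : Function.Injective fun c => (χ c : G) := fun c d e => χ.injective (Subtype.ext e)
  let hh : K → G := fun t => if t = 0 then 1 else μ (χ t) * m₀⁻¹
  have hM : ∀ {t}, t ≠ 0 → M h x y (χ t) (μ (χ t)) ∧ hh t = μ (χ t) * m₀⁻¹ := fun n => ⟨hμ' _ (χn n), if_neg n⟩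
  have Mh : ∀ {a m}, M h x y a m → ∃ t, t ≠ 0 ∧ (χ t : G) = a ∧ hh t = m * m₀⁻¹ := fun {a m} e => by
    obtain ⟨t, f⟩ := χ.surjective ⟨a, e.mem⟩
    have f' : (χ t : G) = a := congrArg Subtype.val f
    have n : t ≠ 0 := fun z => e.ne xy (by rw [← f', z, χ0]; rfl)
    exact ⟨t, n, f', by rw [(hM n).2, (hM n).1.uniq xy (f' ▸ e)]⟩
  have hT : ∀ {t}, t ≠ 0 → ∀ v, q.T (hh t) v = t • v := fun {t} n v => by
    rw [(hM n).2, ← SM _ (hM n).1, χs]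
  have hχ : ∀ {t} c, t ≠ 0 → hh t * χ c * (hh t)⁻¹ = χ (t * t * c) := fun {t} c n => by
    by_cases c0 : c = 0
    · rw [c0, mul_zero, χ0]
      simp
    obtain ⟨e, f⟩ := hM n
    obtain ⟨e', f'⟩ := hM c0
    obtain ⟨d, d0, g1, g2⟩ := Mh (e'.conj (e.fx e₀.inv) (e.fy e₀.inv))
    obtain ⟨v, hv⟩ := ne
    have := hT d0 v
    rw [g2, q.T_cj xy e₀ e e', ← f, ← f'] at this
    change q.T _ (q.T _ (q.T _ v)) = _ at this
    rw [hT n, hT c0, hT n, smul_smul, smul_smul] at this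
    rw [f, ← g1, ← smul_left_injective K hv this, mul_right_comm]
  refine ⟨K, inferInstance, V, inferInstance, inferInstance,
    ⟨{ opp := xy
       π := q.π
       χ := fun c => χ c
       hh := hh
       π_mul := q.π_mul
       π_ker := q.π_ker
       π_surj := q.π_surj
       χ_add := fun c d => congrArg Subtype.val (χa c d)
       χ_inj := χi
       χ_mem := fun c => (χ c).2
       χ_surj := fun a ha => let ⟨t, f⟩ := χ.surjective ⟨a, ha⟩; ⟨t, congrArg Subtype.val f⟩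
       hK := fun t => ?_
       hx := fun t => ?_
       hy := fun t => ?_
       hπ := fun {t g} n hg => ?_
       hχ := hχ
       sq := fun g {t c c₀ c₁} gx f₀ f₁ => ?_ }⟩⟩
  · by_cases n : t = 0
    · rw [show hh t = 1 from if_pos n]; exact one_mem _
    · exact (hM n).2 ▸ mul_mem (hM n).1.K e₀.inv.K
  · by_cases n : t = 0
    · rw [show hh t = 1 from if_pos n, one_smul]
    · exact (hM n).2 ▸ (hM n).1.fx e₀.inv
  · by_cases n : t = 0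
    · rw [show hh t = 1 from if_pos n, one_smul]
    · exact (hM n).2 ▸ (hM n).1.fy e₀.inv
  · rw [← q.T_π ((hM n).2 ▸ (hM n).1.fx e₀.inv) hg, hT n]
  · by_cases n : t = 0
    · refine ⟨0, χi ?_⟩
      simp only [n, mul_zero, zero_mul, χ0] at f₁ ⊢
      simpa using f₁.symm
    obtain ⟨u, hu, uy⟩ := h.Q_tr xy (y' := g • y) (by rw [← gx, h.smul_iff]; exact xy)
    have kx : (u⁻¹ * g) • x = x := by rw [mul_smul, gx, inv_smul_eq_iff, (h.Q_le_J x hu).1]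
    have ky : (u⁻¹ * g) • y = y := by rw [mul_smul, ← uy, inv_smul_smul]
    have kc : ∀ {a b : h.C x}, g * a * g⁻¹ = b → u⁻¹ * g * a * (u⁻¹ * g)⁻¹ = b := fun {a b} f => by
      rw [show u⁻¹ * g * a * (u⁻¹ * g)⁻¹ = u⁻¹ * (g * a * g⁻¹ * u) by group, f, (h.C_cen b.2 hu).eq, inv_mul_cancel_left]
    have f₀ := kc f₀
    have f₁ := kc f₁
    generalize u⁻¹ * g = k at kx ky f₀ f₁
    obtain ⟨e, f⟩ := hM n
    obtain ⟨t₁, n₁, -, g₁⟩ := Mh (e.conj kx ky)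
    obtain ⟨t₂, n₂, -, g₂⟩ := Mh (e₀.conj kx ky)
    refine ⟨t₁ * t₂⁻¹, χi ?_⟩
    have a1 := hχ (t₂⁻¹ * t₂⁻¹ * c₀) n₂
    have a2 := hχ (t₂⁻¹ * t₂⁻¹ * c₀) n₁
    rw [show t₂ * t₂ * (t₂⁻¹ * t₂⁻¹ * c₀) = c₀ by field_simp, mul_inv_eq_iff_eq_mul, ← eq_inv_mul_iff_mul_eq] at a1
    change (χ c₁ : G) = χ _
    rw [show t₁ * t₂⁻¹ * (t₁ * t₂⁻¹) * c₀ = t₁ * t₁ * (t₂⁻¹ * t₂⁻¹ * c₀) by ring, ← a2, a1, ← f₀, ← f₁, ← hχ c n, f, g₁, g₂]
    group

end CL.PT
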