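/- S3235: the sesquilinear form. -/
import Mathlib
import Cfsg.Agent.CHEV.PT.Cx

set_option autoImplicit false
set_option linter.unusedSectionVars false

namespace CL.PT

open Subgroup

variable {p : ℕ} {G P : Type*} [Group G] [MulAction G P] [Finite G] [Finite P] {h : Geo p G P} {x y : P}
  {K : Type} {V : Type*} [Field K] [AddCommGroup V] [Module K V] (l : Lin h x y K V)

theorem Lin.her_skew (u w : V) : l.β w u = -l.β u w := by
  have := l.alt (u + w)
  simp only [map_add, LinearMap.add_apply, l.alt] at this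
  linear_combination this

include l in
theorem Lin.her_char : ringChar K ≠ 2 := by
  have := h.p5
  rw [l.char]
  omega

/-- `F = K`, `σ = id`, `H = β` -/
theorem Lin.sq_one (d1 : ∀ r, h.perp x r → h.perp y r → Module.finrank K (l.L r) = 1) : ∃ s : Sq l K, ∀ a, s.σ a = a :=
  ⟨{ ι := RingHom.id K
     σ := RingHom.id K
     H := fun u w => l.β u w
     σσ := fun _ => rfl
     fix_iff := fun a => ⟨fun _ => ⟨a, rfl⟩, fun _ => rfl⟩
     ι_smul := fun _ _ => rfl
     H_add := fun u v w => by simp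
     H_smul := fun a u w => by simp
     H_skew := l.her_skew
     H_re := fun u w => (two_mul _).symm
     line := fun a b => by
      obtain ⟨ρ, h0, k⟩ := finrank_eq_one_iff'.1 (d1 _ a b)
      exact ⟨ρ, fun e => h0 (Subtype.ext e), fun v => ⟨fun hv => let ⟨c, e⟩ := k ⟨v, hv⟩; ⟨c, (congrArg Subtype.val e).symm⟩,
        fun ⟨c, e⟩ => e ▸ Submodule.smul_mem _ c ρ.2⟩⟩ }, fun _ => rfl⟩

open QuadraticAlgebra in
/-- `F = QuadraticAlgebra K ε 0`, `θ² = ε`, `(a + b θ) • v = a • v + b • J v`, `σ = star`, `H u w = β u w + θ⁻¹ β (J u) w`. -/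
theorem Lin.sq_two [Fintype K] (ε : K) (J : V →ₗ[K] V) (ns : ¬ IsSquare ε) (jj : ∀ v, J (J v) = ε • v)
    (sk : ∀ u v, l.β (J u) v = -l.β u (J v)) (jL : ∀ r, h.perp x r → h.perp y r → ∀ ρ ∈ l.L r, J ρ ∈ l.L r)
    (d2 : ∀ r, h.perp x r → h.perp y r → Module.finrank K (l.L r) = 2) :
    ∃ (F : Type) (_ : Field F) (_ : Fintype F) (_ : Module F V) (s : Sq l F), ringChar F = p ∧
      Fintype.card F = Fintype.card K ^ 2 ∧ ∀ a, s.σ a = a ^ Fintype.card K := by
  have : Fact (∀ r : K, r ^ 2 ≠ ε + 0 * r) := ⟨fun r e => ns ⟨r, by linear_combination -e⟩⟩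
  have e0 : ε ≠ 0 := fun e => ns (e ▸ IsSquare.zero)
  have h2 : (2 : K) ≠ 0 := Ring.two_ne_zero l.her_char
  let φ : QuadraticAlgebra K ε 0 →ₐ[K] Module.End K V := lift ⟨J, by ext v; simp [jj]⟩
  let : Module (QuadraticAlgebra K ε 0) V := Module.compHom V φ.toRingHom
  have sm : ∀ (a : QuadraticAlgebra K ε 0) (v : V), a • v = a.re • v + a.im • J v := fun a v => by
    change φ a v = _
    simp [φ, lift]
  let : Fintype (QuadraticAlgebra K ε 0) := Fintype.ofEquiv _ (equivProd ε 0).symm
  refine ⟨QuadraticAlgebra K ε 0, inferInstance, inferInstance, inferInstance,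
    { ι := algebraMap K _
      σ := starRingEnd _
      H := fun u w => ⟨l.β u w, ε⁻¹ * l.β (J u) w⟩
      σσ := star_star
      fix_iff := fun a => ⟨fun e => ⟨a.re, ?_⟩, fun ⟨c, e⟩ => by rw [← e]; ext <;> simp [starRingEnd_apply]⟩
      ι_smul := fun c v => by simp [sm]
      H_add := fun u v w => by ext <;> simp [mul_add]
      H_smul := fun a u w => by ext <;> simp [sm, jj] <;> field_simp <;> ring
      H_skew := fun u w => by ext <;> simp [starRingEnd_apply, l.her_skew u w, sk w u, l.her_skew (J u) w]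
      H_re := fun u w => by ext <;> simp [starRingEnd_apply, two_mul]
      line := fun {r} a b => ?_ }, ?_, ?_, fun a => ?_⟩
  · have := congrArg QuadraticAlgebra.im e
    simp only [starRingEnd_apply, im_star] at this
    ext
    · simp
    · simpa using mul_left_cancel₀ h2 (by linear_combination this : 2 * 0 = 2 * a.im)
  · obtain ⟨ρ, hρ, h0⟩ := (Submodule.ne_bot_iff _).1 (l.L_ne a b)
    have li : LinearIndependent K ![ρ, J ρ] := (LinearIndependent.pair_iff' h0).2 fun c e => ns ⟨c, by
      have := jj ρ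
      rw [← e, map_smul, ← e, smul_smul] at this
      exact (smul_left_injective K h0 this).symm⟩
    have := Module.finite_of_finrank_eq_succ (d2 r a b)
    have e : Submodule.span K {ρ, J ρ} = l.L r := Submodule.eq_of_le_of_finrank_eq
      (Submodule.span_le.2 (Set.pair_subset hρ (jL r a b ρ hρ))) (by
        rw [d2 r a b, ← Matrix.range_cons_cons_empty ρ (J ρ) ![], finrank_span_eq_card li]; rfl)
    refine ⟨ρ, h0, fun v => ?_⟩
    rw [← e, Submodule.mem_span_pair]
    exact ⟨fun ⟨c, d, k⟩ => ⟨⟨c, d⟩, by rw [sm, k]⟩, fun ⟨c, k⟩ => ⟨c.re, c.im, by rw [k, sm]⟩⟩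
  · rw [← Algebra.ringChar_eq K, l.char]
  · rw [Fintype.card_congr (equivProd ε 0), Fintype.card_prod, sq]
  · have hω : (ω : QuadraticAlgebra K ε 0) ^ Fintype.card K = -ω := by
      have h1 := (FiniteField.pow_dichotomy l.her_char e0).resolve_left
        fun e => ns ((FiniteField.isSquare_iff l.her_char e0).2 e)
      rw [← Nat.div_add_mod (Fintype.card K) 2, FiniteField.odd_card_of_char_ne_two l.her_char, pow_succ, pow_mul, sq,
        omega_mul_omega_eq_algebraMap, map_zero, zero_mul, add_zero, ← map_pow, h1]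
      simp
    change star a = FiniteField.frobeniusAlgHom K _ a
    obtain ⟨c, d⟩ := a
    conv_rhs => rw [mk_eq_add_smul_omega, map_add, map_smul, AlgHom.commutes]
    rw [show FiniteField.frobeniusAlgHom K _ ω = -ω from hω]
    ext <;> simp

end CL.PT
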