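/- S3235: the polar space. -/
import Mathlib
import Cfsg.Agent.CHEV.PT.Chain

set_option autoImplicit false
set_option linter.unusedSectionVars false

namespace CL.PT

open Subgroup

variable {p : ℕ} {G P : Type*} [Group G] [MulAction G P] [Finite G] [Finite P]
 (h : Br p G P)

namespace Lnx

theorem ex_opp (x : P) : ∃ y, ¬ h.perp x y := by
  by_contra k
  push Not at k
  obtain ⟨a, ha, n⟩ := h.Ene x
  exact n (h.faith a fun z => h.Efix (k z) ha)

theorem fix_iff {g : G} {t w : P} (e : g • t = t) : h.perp t (g • w) ↔ h.perp t w := by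
  conv_lhs => rw [← e]
  exact h.smul_iff g

theorem par {α : Type*} [Finite α] (S : Set α) (f : α → α) (m : ∀ w ∈ S, f w ∈ S) (i : ∀ w ∈ S, f (f w) = w) :
    S.ncard ≡ {w ∈ S | f w = w}.ncard [MOD 2] := by
  classical
  have := Fintype.ofFinite S
  let F : Function.End S := fun w => ⟨f w, m _ w.2⟩
  have k := Equiv.Perm.card_fixedPoints_modEq (f := F) (p := 2) (n := 1) (funext fun w => Subtype.ext (i _ w.2))
  rw [← Nat.card_eq_fintype_card, ← Nat.card_eq_fintype_card] at k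
  rwa [← Nat.card_coe_set_eq, ← Nat.card_coe_set_eq, ← Nat.card_congr (α := Function.fixedPoints F) (β := {w ∈ S | f w = w})
    ⟨fun w => ⟨w.1.1, w.1.2, congrArg Subtype.val w.2⟩, fun w => ⟨⟨w.1, w.2.1⟩, Subtype.ext w.2.2⟩, fun _ => rfl, fun _ => rfl⟩]

theorem ptn {x y : P} (o : ¬ h.perp x y) : ∃ a b, a ∈ h.S x ∧ b ∈ h.S y ∧ a * b * a = b * a * b ∧ (a * b) ^ 6 = 1 :=
  let ⟨a, ha⟩ := h.S_ex x
  let ⟨b, hb, e⟩ := h.partner o ha
  ⟨a, b, ha, hb, e⟩

theorem ii {a b : G} (e : (a * b) ^ 6 = 1) (w : P) : (a * b) ^ 3 • (a * b) ^ 3 • w = w := by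
  rw [smul_smul, ← pow_add, e, one_smul]

end Lnx

open Lnx

/-- Every point has an opposite point (else `E x` fixes all points; `faith`, `Ene`).  The graph of opposite points is connected: a set `Y ≠ ∅` closed under taking opposite points is invariant under each `a ∈ E t` (`a • w = w` if `t ⊥ w`, else `w`, `a • w` are both opposite to `t`), so under `G` (`gen`), so is everything (`trans`). -/
theorem Br.opp_conn (Y : P → Prop) (cl : ∀ w w', Y w → ¬ h.perp w w' → Y w') {z : P} (hz : Y z) : ∀ w, Y w := by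
  have k : ∀ t, ∀ a ∈ h.E t, ∀ w, Y w → Y (a • w) := fun t a ha w hw => by
    by_cases o : h.perp t w
    · rwa [h.Efix o ha]
    · exact cl t _ (cl w t hw fun e => o (h.symm e)) fun e => o ((fix_iff h (h.Efix (h.refl t) ha)).1 e)
  let K : Subgroup G :=
    { carrier := {g | ∀ w, Y w ↔ Y (g • w)}
      mul_mem' := fun {a b} ha hb w => by rw [mul_smul, ← ha, ← hb]
      one_mem' := fun w => by rw [one_smul]
      inv_mem' := fun {a} ha w => by rw [ha (a⁻¹ • w), smul_inv_smul] }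
  have t : ⊤ ≤ K := h.gen ▸ iSup_le fun t a ha w => ⟨k t a ha w, fun e => by simpa using k t _ (inv_mem ha) _ e⟩
  intro w
  obtain ⟨g, rfl⟩ := h.trans z w
  exact (t (mem_top g) z).1 hz

/-- Aux: if `t`, `t'` are opposite, `e' ∈ S t'`, `z' ⊥ t`, `z'` opposite `t'`, then `e' • t` is opposite `z'` (`e' • t = e⁻¹ • t'` with the partner `e ∈ S t`, which fixes `z'`), and it is opposite every `w ⊥ t'` opposite `t`.
Suppose no point is opposite both `z` and `z'`.  `Y w := w ⊥ z' ∧ ∀ t' opposite z', w ⊥ t'` holds for `z` and is closed under opposition (`w'` opposite `w`: `w' ⊥ z'`; if `w'` is opposite some `t'` opposite `z'` then `e' • w'` is opposite `z'` and `w`).  So `Y z'`, but `z'` has an opposite point. -/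
theorem Br.opp_two {z z' : P} (o : h.perp z z') : ∃ w, ¬ h.perp w z ∧ ¬ h.perp w z' := by
  by_contra k
  push Not at k
  obtain ⟨y, hy⟩ := ex_opp h z'
  refine hy ((h.opp_conn (fun w => h.perp w z' ∧ ∀ t', ¬ h.perp t' z' → h.perp w t') (fun w w' hw n => ?_)
    ⟨o, fun t' n => by_contra fun e => n (k t' fun e' => e (h.symm e'))⟩ z').2 y fun e => hy (h.symm e))
  have a : h.perp w' z' := by_contra fun e => n (hw.2 w' e)
  refine ⟨a, fun t' n' => by_contra fun m => ?_⟩
  obtain ⟨e', e, he', he, br, -⟩ := ptn h fun q => m (h.symm q)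
  refine n ((fix_iff h (h.Efix (h.symm (hw.2 t' n')) (h.S_E he'))).1 (hw.2 _ fun q => n' ?_))
  rw [h.a_y he' he br] at q
  exact h.symm ((fix_iff h (h.Efix a (inv_mem (h.S_E he)))).1 (h.symm q))

/-- `cls = {w | x ⊥ w, w ≠ x, col x z w, col x w z}`.  Take `t ⊥ x` opposite `z` (`nd`), `i' = (c e)³` for partners `c ∈ S z`, `e ∈ S t`: it fixes `x`, `z`, preserves `cls`, and moves every `w ∈ cls`, `w ≠ z` (`third` for `z, t, w`: `z ⊥ w`, `t` opposite `w`).  So `|cls|` is odd.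
If `y ⊥ z` take `r = z`.  Else `i = (a b)³` for partners in `S x`, `S y` preserves `cls` (`third` (i), (i')), so fixes some `r ∈ cls`, and `y ⊥ r` by `third`.  (Involution on a finite set: `IsPGroup.card_modEq_card_fixedPoints`, or `Function.Involutive.card_fixedPoints`-type lemma, or `Finset.card_involution`.) -/
theorem Br.one0 {x z y : P} (o : h.perp x z) (n : z ≠ x) (xy : ¬ h.perp x y) : ∃ r, h.col x z r ∧ h.perp y r := by
  by_contra k
  push Not at k
  let C : Set P := {w | h.perp x w ∧ w ≠ x ∧ h.col x z w ∧ h.col x w z}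
  have zC : z ∈ C := ⟨o, n, h.col_right _ _, h.col_right _ _⟩
  obtain ⟨t, xt, zt⟩ := h.nd n.symm
  obtain ⟨c, e, hc, he, br, six⟩ := ptn h zt
  have fx : (c * e) ^ 3 • x = x := (MulAction.stabilizer G x).pow_mem
    (mul_mem (h.Efix (h.symm o) (h.S_E hc)) (h.Efix (h.symm xt) (h.S_E he))) 3
  have fz : (c * e) ^ 3 • z = z := by rw [← braid_sq br, mul_smul, h.n_x hc he br, h.n_y hc he br]
  have k1 := par C ((c * e) ^ 3 • ·) (fun w hw => ⟨(fix_iff h fx).2 hw.1, fun q => hw.2.1 (smul_left_cancel _ (q.trans fx.symm)),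
    by have := (h.col_smul ((c * e) ^ 3)).2 hw.2.2.1; rwa [fx, fz] at this,
    by have := (h.col_smul ((c * e) ^ 3)).2 hw.2.2.2; rwa [fx, fz] at this⟩) fun w _ => ii six w
  rw [show {w ∈ C | (c * e) ^ 3 • w = w} = {z} from Set.eq_singleton_iff_unique_mem.2 ⟨⟨zC, fz⟩, fun w hw => by_contra fun q =>
    (h.third (hw.1.2.2.1.perp_right o) q (fun r => zt (h.symm (hw.1.2.2.2 t (h.symm xt) r))) hc he br six).2.2.2.1 hw.2⟩,
    Set.ncard_singleton] at k1
  obtain ⟨a, b, ha, hb, br, six⟩ := ptn h xy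
  have th := fun w (hw : w ∈ C) => h.third hw.1 hw.2.1 (k w hw.2.2.1) ha hb br six
  have k2 := par C ((a * b) ^ 3 • ·) (fun w hw => ⟨(th w hw).1.perp_left hw.1, (th w hw).2.2.2.2,
    (h.col_left _ _).trans hw.2.2.1 (th w hw).1, (h.col_left _ _).trans (th w hw).2.1 hw.2.2.2⟩) fun w _ => ii six w
  rw [show {w ∈ C | (a * b) ^ 3 • w = w} = ∅ from Set.eq_empty_of_forall_notMem fun w hw => (th w hw.1).2.2.2.1 hw.2,
    Set.ncard_empty] at k2
  exact absurd (k1.symm.trans k2) (by decide)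

/-- Opposite points of `x^⊥` are exchanged by `swap` inside the stabiliser of `x` (`Efix`).  For `z ⊥ z'`, `z ≠ z'`: `t, t' ⊥ x` with `t` opposite `z`, `t'` opposite `z'` (`nd`).  If `t` is opposite `z'` or `t'` opposite `z`: path of length two.
Else take `w` opposite `z`, `z'` (`opp_two`), `z₂ = i • z'` from `third` for `(z, w, z')`: `z₂ ⊥ x`, it is opposite `t` (by (ii)) and `t'` (by (i')); path `z, t, z₂, t', z'`. -/
theorem Br.trans_nb {x z z' : P} (o : h.perp x z) (n : z ≠ x) (o' : h.perp x z') (n' : z' ≠ x) : ∃ g : G, g • x = x ∧ g • z = z' := by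
  let R : P → P → Prop := fun u v => ∃ g : G, g • x = x ∧ g • u = v
  have tr : ∀ {u v w}, R u v → R v w → R u w := fun ⟨g, a, b⟩ ⟨g', a', b'⟩ =>
    ⟨g' * g, by rw [mul_smul, a, a'], by rw [mul_smul, b, b']⟩
  have op : ∀ {u v}, h.perp x u → h.perp x v → ¬ h.perp u v → R u v := fun {u v} a b c =>
    let ⟨g, hg, e, _⟩ := h.swap c
    ⟨g, (sup_le (fun _ k => h.Efix (h.symm a) k) (fun _ k => h.Efix (h.symm b) k) : _ ≤ MulAction.stabilizer G x) hg, e⟩
  by_cases zz : h.perp z z'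
  swap
  · exact op o o' zz
  rcases eq_or_ne z' z with rfl | d
  · exact ⟨1, one_smul _ _, one_smul _ _⟩
  obtain ⟨t, xt, zt⟩ := h.nd n.symm
  obtain ⟨t', xt', zt'⟩ := h.nd n'.symm
  by_cases a : h.perp t z'
  swap
  · exact tr (op o xt zt) (op xt o' a)
  have l := op xt' o' fun q => zt' (h.symm q)
  by_cases a' : h.perp z t'
  swap
  · exact tr (op o xt' a') l
  obtain ⟨w, wz, wz'⟩ := h.opp_two zz
  obtain ⟨c, e, hc, he, br, six⟩ := ptn h fun q => wz (h.symm q)
  obtain ⟨c1, c2, c3, -⟩ := h.third zz d wz' hc he br six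
  exact tr (op o xt zt) (tr (op xt (c1 x o o') fun q => zt (h.symm (c3 t a q)))
    (tr (op (c1 x o o') xt' fun q => zt' (h.symm (c2 t' (h.symm a') (h.symm q)))) l))

/-- `nb`: `trans`.  `two`: `G` is transitive on ordered pairs of distinct perpendicular points, so `|{w, w'}^⊥| = |{x, z}^⊥|`, and `{x, z}^⊥ ⊆ {w, w'}^⊥`.  `one`: `r = x` or `one0`.  `thick`: `opp_two`, `third`. -/
theorem Br.exists_geo0 (nc : ∃ x z, h.perp x z ∧ z ≠ x) : ∃ k : Geo0 p G P, k.toPre = h.toPre := by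
  refine ⟨{ toPre := h.toPre, nb := fun x => ?_, two := fun {x z w w'} o n c c' d => ?_, one := fun {x z} o n y => ?_
            thick := fun {x z} o n => ?_ }, rfl⟩
  · obtain ⟨x0, z, o, n⟩ := nc
    obtain ⟨g, rfl⟩ := h.trans x0 x
    exact ⟨g • z, h.smul g o, fun e => n (smul_left_cancel g e)⟩
  · obtain ⟨g, rfl⟩ := h.trans x w
    obtain ⟨g', e, rfl⟩ := h.trans_nb (h.smul g o) (fun e => n (smul_left_cancel g e).symm) (c.perp c' o) d.symm
    have k : {t | h.perp t x ∧ h.perp t z} = {t | h.perp t (g • x) ∧ h.perp t (g' • g • z)} :=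
      Set.eq_of_subset_of_ncard_le (fun t ht => ⟨c t ht.1 ht.2, c' t ht.1 ht.2⟩)
        (Set.ncard_le_ncard_of_injOn ((g' * g)⁻¹ • ·) (fun t ht => ⟨(h.smul_right _).1 (by rw [mul_smul, e]; exact ht.1),
          (h.smul_right _).1 (by rw [mul_smul]; exact ht.2)⟩) (MulAction.injective _).injOn)
    exact ⟨fun t a b => (k.ge ⟨a, b⟩).1, fun t a b => (k.ge ⟨a, b⟩).2⟩
  · by_cases xy : h.perp x y
    exacts [⟨x, h.col_left _ _, h.symm xy⟩, h.one0 o n.symm xy]
  · obtain ⟨w, wx, wz⟩ := h.opp_two o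
    obtain ⟨a, b, ha, hb, br, six⟩ := ptn h fun q => wx (h.symm q)
    obtain ⟨c, -, -, d, e⟩ := h.third o n.symm wz ha hb br six
    exact ⟨_, c, e, d⟩

end CL.PT
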