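/- S3235: the involutions. -/
import Mathlib
import Cfsg.Agent.CHEV.PT.Ln
import Cfsg.Agent.CHEV.PT.G0

set_option autoImplicit false

namespace CL.PT

open Subgroup

variable {p : ℕ} {G P : Type*} [Group G] [MulAction G P] [Finite G] [Finite P]

/-- Partners `a ∈ S x`, `b ∈ S y`; `i = (a b)³`, `n = a b a`.  `mv`: `third`.  `cen`: `b' = g b g⁻¹ ∈ S y` is again a partner of `a`, `b • x = a⁻¹ • y = b' • x`, `C_semi` (`g • x = x` is not needed).
`tr`: if `y' = y` take `g = 1`.  Else `z = n⁻¹ • y'` lies on the line `x r` (`n` fixes `r`), `z ≠ x, r`, so `z` is opposite `y`; `c ∈ S z` partner of `b`, `u = a c⁻¹`, `y' = n • z = a b • z = a c⁻¹ • y` (`b_x` for `z, y`).  `ζ = zt a b c ∈ Z x r` (`Ch.ic`, `third`), `ζ ^ p = 1`, `ζ` fixes `y`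
(it commutes with `b`, `S_inj`).  `g = u ζ^k` with `2 k ≡ -1 mod p`: `i g i⁻¹ = g⁻¹` (`Ch.iu`).  `g² = (g i g⁻¹) i⁻¹`; `i` and `g i g⁻¹ ∈ E x ⊔ E y'` lie in `J x` (`J_of_fix`, `K_fix`), so `g ∈ J x` (`g ^ p = 1`). -/
theorem Br.exists_inv (h : Br p G P) (k : Geo0 p G P) (e : k.toPre = h.toPre) {x y : P} (o : ¬ h.perp x y) :
    ∃ i n, h.toPre.Inv x y i n := by
  obtain ⟨k0, k1, k2, k3, k4⟩ := k
  obtain rfl : k0 = h.toPre := e
  set k : Geo0 p G P := ⟨h.toPre, k1, k2, k3, k4⟩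
  obtain ⟨a, b, ha, hb, br, six⟩ := Lnx.ptn h o
  have aK : a ∈ h.E x ⊔ h.E y := mem_sup_left (h.S_E ha)
  have bK : b ∈ h.E x ⊔ h.E y := mem_sup_right (h.S_E hb)
  have iK : (a * b) ^ 3 ∈ h.E x ⊔ h.E y := pow_mem (mul_mem aK bK) 3
  have ix : (a * b) ^ 3 • x = x := by rw [← braid_sq br, mul_smul, h.n_x ha hb br, h.n_y ha hb br]
  have ia := braid_ia br
  have ib := braid_ib br
  refine ⟨(a * b) ^ 3, a * b * a, by rw [← pow_add, six], iK, mul_mem (mul_mem aK bK) aK, h.n_x ha hb br, h.n_y ha hb br,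
    (ia.mul_right ib).mul_right ia, ix, by rw [← braid_sq br, mul_smul, h.n_y ha hb br, h.n_x ha hb br],
    fun z xz n yz => (h.third xz n yz ha hb br six).2.2.2.1, fun g ga gy => ?_, fun r y' xr yr c n => ?_⟩
  · have ca := ga a (h.S_E ha)
    have hb' : g * b * g⁻¹ ∈ h.S y := gy ▸ h.S_conj g hb
    have e := h.b_x ha hb' (by rw [← ca.mul_inv_cancel, conj_mul, conj_mul, conj_mul, conj_mul, br])
    rw [← h.b_x ha hb br, ← inv_smul_eq_iff, smul_smul] at e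
    have := k.C_semi (h.E_le_C y (mul_mem (inv_mem (h.S_E hb)) (h.S_E hb'))) (fun q => o (h.symm q)) e
    have cb : Commute g b := mul_inv_eq_iff_eq_mul.1 (inv_mul_eq_one.1 this).symm
    exact (ca.mul_right cb).pow_right 3
  rcases eq_or_ne y' y with rfl | d
  · exact ⟨1, one_mem _, one_mem _, one_smul _ _, by simp⟩
  obtain ⟨z, rfl⟩ : ∃ z, (a * b * a) • z = y' := MulAction.surjective (a * b * a) y'
  have nr : (a * b * a) • r = r := by
    rw [mul_smul, mul_smul, h.Efix xr (h.S_E ha), h.Efix yr (h.S_E hb), h.Efix xr (h.S_E ha)]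
  have nx := h.n_x ha hb br
  have cz : h.col x r z := (h.col_smul (a * b * a)).1 (by rwa [nr, nx])
  have zx : z ≠ x := fun q => d (by rw [q, nx])
  have xz := cz.perp_left xr
  have yz : ¬ h.perp y z := fun q =>
    n (by rw [← k.uniq xr (fun e => o (h.symm (e ▸ yr))) o (h.col_right _ _) cz yr q, nr])
  obtain ⟨c, hc, bc, -⟩ := h.partner yz hb
  have H : Ch a b c := ⟨br, bc.symm, h.Ecomm xz (h.S_E ha) (h.S_E hc), six⟩
  have uZ : a * c⁻¹ ∈ h.Z x r := mul_mem (h.E_le_Z (h.col_left _ _) (h.S_E ha)) (inv_mem (h.E_le_Z cz (h.S_E hc)))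
  have zZ : zt a b c ∈ h.Z x r := by
    have := h.E_le_Z ((h.col_left _ _).trans cz (h.third xz zx yz ha hb br six).1) (h.Econj ((a * b) ^ 3) (h.S_E hc))
    rw [H.ic] at this
    simpa [mul_assoc] using mul_mem (inv_mem this) (mul_mem (h.E_le_Z (h.col_left x r) (h.S_E ha)) uZ)
  have zy : zt a b c • y = y := h.S_inj (by simpa only [H.zt_b.mul_inv_cancel] using h.S_conj (zt a b c) hb) hb
  obtain ⟨m, hm⟩ := h.pr.odd_of_ne_two (by have := h.p5; omega)
  have zp : zt a b c ^ (2 * m + 1) = 1 := hm ▸ k.Z_pow xr zZ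
  have gZ := mul_mem uZ (pow_mem zZ m)
  have gi : (a * b) ^ 3 * (a * c⁻¹ * zt a b c ^ m) * ((a * b) ^ 3)⁻¹ = (a * c⁻¹ * zt a b c ^ m)⁻¹ := by
    have c1 : Commute ((a * b) ^ 3) (zt a b c ^ m) := (((H.zt_a.mul_right H.zt_b).pow_right 3).pow_left m).symm
    have c2 : Commute (zt a b c) (a * c⁻¹)⁻¹ := (H.zt_a.mul_right H.zt_c.inv_right).inv_right
    rw [← conj_mul, H.iu, c1.mul_inv_cancel, mul_inv_rev (a * c⁻¹), ((c2.pow_left m).inv_left).eq, c2.eq, mul_assoc,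
      mul_right_inj, eq_inv_iff_mul_eq_one, ← pow_succ', ← pow_add, ← zp]
    congr 1
    omega
  refine ⟨_, gZ, ?_, ?_, gi⟩
  · generalize a * c⁻¹ * zt a b c ^ m = g at *
    have iJ : (a * b) ^ 3 ∈ h.J x :=
      k.J_of_fix o ix fun r a b => k.K_fix (sup_le_sup (h.E_le_C x) (h.E_le_C y) iK) a b
    have gJ : g * (a * b) ^ 3 * g⁻¹ ∈ h.J x := by
      simpa only [k.Z_fix gZ (h.refl x) xr] using k.J_conj g iJ
    have g2 : g ^ 2 ∈ h.J x := by
      convert mul_mem (inv_mem gJ) iJ using 1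
      generalize (a * b) ^ 3 = i at gi
      calc g ^ 2 = g * i⁻¹ * (i * g * i⁻¹) * i := by rw [pow_two]; group
        _ = _ := by rw [gi]; group
    have gp : g ^ (2 * m + 1) = 1 := hm ▸ k.Z_pow xr gZ
    convert pow_mem g2 (m + 1) using 1
    rw [← pow_mul, show 2 * (m + 1) = 2 * m + 1 + 1 by ring, pow_succ, gp, one_mul]
  · rw [mul_smul, show zt a b c ^ m • y = y from (MulAction.stabilizer G y).pow_mem zy m, mul_smul (a * b), h.Efix xz (h.S_E ha),
      mul_smul, mul_smul, h.b_x hc hb bc.symm]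

theorem Br.exists_geo (h : Br p G P) (nc : ∃ x z, h.perp x z ∧ z ≠ x) : Nonempty (Geo p G P) :=
  let ⟨k, e⟩ := h.exists_geo0 nc
  ⟨⟨k, fun {x y} o => by rw [e]; exact h.exists_inv k e (by rw [← e]; exact o)⟩⟩

end CL.PT
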