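/- S3235: central elations are transvections. -/
import Mathlib
import Cfsg.Agent.CHEV.PT.Qb

set_option autoImplicit false
set_option linter.unusedSectionVars false

namespace CL.PT

open Subgroup

variable {p : ℕ} {G P : Type*} [Group G] [MulAction G P] [Finite G] [Finite P] {h : Geo p G P}
  {F W : Type*} [Field F] [AddCommGroup W] [Module F W] (m : Emb h F W)

theorem Emb.H_add' (u v w : W) : m.H u (v + w) = m.H u v + m.H u w := by
  rw [m.H_skew (v + w) u, m.H_add, map_add, m.H_skew v u, m.H_skew w u]; ring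

theorem Emb.H_smul' (a : F) (u w : W) : m.H u (a • w) = m.σ a * m.H u w := by
  rw [m.H_skew (a • w) u, m.H_smul, map_mul, m.H_skew w u]; ring

/-- `nd` -/
theorem Emb.inj {z w : P} {a : F} (e : m.ψ z = a • m.ψ w) : z = w := by
  by_contra n
  obtain ⟨t, a1, a2⟩ := h.nd n
  have a0 : a ≠ 0 := fun k => m.ψ_ne z (by rw [e, k, zero_smul])
  rw [m.perp_iff] at a1 a2
  rw [e, m.H_smul] at a1
  exact a2 ((mul_eq_zero.1 a1).resolve_left a0)

namespace Tv

theorem σ_ne {a : F} (n : a ≠ 0) : m.σ a ≠ 0 := fun k => n (by rw [← m.σσ a, k, map_zero])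

theorem self (z : P) : m.H (m.ψ z) (m.ψ z) = 0 := (m.perp_iff z z).1 (h.refl z)

theorem uq {v : W} (n : v ≠ 0) {a a' : F} {w w' : P} (e : v = a • m.ψ w) (e' : v = a' • m.ψ w') : w = w' := by
  have a0 : a ≠ 0 := fun k => n (by rw [e, k, zero_smul])
  exact m.inj (a := a⁻¹ * a') (by rw [mul_smul, ← e', e, smul_smul, inv_mul_cancel₀ a0, one_smul])

theorem T_ne (T : W ≃ₗ[F] W) (z : P) : T (m.ψ z) ≠ 0 := fun k => m.ψ_ne z (T.injective (by rw [k, map_zero]))

/-- the transvection as a linear map -/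
def tl (x : P) (t : F) : W →ₗ[F] W where
  toFun w := w + (t * m.H w (m.ψ x)) • m.ψ x
  map_add' u v := by rw [m.H_add, mul_add, add_smul]; abel
  map_smul' a u := by rw [m.H_smul, RingHom.id_apply, smul_add, smul_smul]; congr 2; ring

theorem tl_apply (x : P) (t : F) (w : W) : tl m x t w = w + (t * m.H w (m.ψ x)) • m.ψ x := rfl

theorem tl_tl (x : P) (t : F) (w : W) : tl m x t (tl m x (-t) w) = w := by
  rw [tl_apply, tl_apply, m.H_add, m.H_smul, self, mul_zero, add_zero, add_assoc, ← add_smul]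
  rw [show -t * m.H w (m.ψ x) + t * m.H w (m.ψ x) = 0 by ring, zero_smul, add_zero]

/-- the transvection as a linear equivalence -/
def te (x : P) (t : F) : W ≃ₗ[F] W :=
  { tl m x t with
    invFun := tl m x (-t)
    left_inv := fun w => by simpa using tl_tl m x (-t) w
    right_inv := fun w => tl_tl m x t w }

theorem te_apply (x : P) (t : F) (w : W) : te m x t w = w + (t * m.H w (m.ψ x)) • m.ψ x := rfl

theorem te_iso (x : P) {t : F} (ht : m.σ t = t) (u w : W) : m.H (te m x t u) (te m x t w) = m.H u w := by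
  rw [te_apply, te_apply, m.H_add, m.H_add', m.H_add', m.H_smul, m.H_smul, m.H_smul', m.H_smul', self, map_mul, ht,
    m.H_skew w (m.ψ x)]
  ring

end Tv

/-- a bijective isometry acts on the points (`onto`, `inj`) -/
theorem Emb.act (T : W ≃ₗ[F] W) (hT : ∀ u w, m.H (T u) (T w) = m.H u w) :
    ∃ f : Equiv.Perm P, (∀ a b, h.perp (f a) (f b) ↔ h.perp a b) ∧ ∀ z, ∃ a : F, T (m.ψ z) = a • m.ψ (f z) := by
  have ex : ∀ z, ∃ z', ∃ a : F, T (m.ψ z) = a • m.ψ z' := fun z =>
    m.onto _ (Tv.T_ne m T z) (by rw [hT, Tv.self])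
  choose f a hf using ex
  have a0 : ∀ z, a z ≠ 0 := fun z k => Tv.T_ne m T z (by rw [hf, k, zero_smul])
  have fi : Function.Injective f := fun z w e => by
    refine m.inj (a := a z * (a w)⁻¹) (T.injective ?_)
    rw [map_smul, hf, hf, e, smul_smul, mul_assoc, inv_mul_cancel₀ (a0 w), mul_one]
  refine ⟨Equiv.ofBijective f (Finite.injective_iff_bijective.1 fi), fun z w => ?_, fun z => ⟨a z, hf z⟩⟩
  change h.perp (f z) (f w) ↔ _
  rw [m.perp_iff, m.perp_iff, ← hT (m.ψ z), hf, hf, m.H_smul, m.H_smul']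
  simp [a0 z, Tv.σ_ne m (a0 w)]

/-- `g` acts on the points as the transvection with centre `x` and parameter `t` -/
def Emb.Tv (x : P) (t : F) (g : G) : Prop := ∀ z, ∃ a : F, m.ψ z + (t * m.H (m.ψ z) (m.ψ x)) • m.ψ x = a • m.ψ (g • z)
/-- `T w = w + t H(w, ψ x) ψ x` is an isometry, `f` from `act` fixes `x^⊥` pointwise; `y` opposite `x`, `c ∈ C x` with `c • y = f y` (`mouf`); `aut_id` for `c⁻¹ f`. -/
theorem Emb.tv1 (x : P) {t : F} (ht : m.σ t = t) : ∃ c ∈ h.C x, m.Tv x t c := by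
  obtain ⟨f, hf, ha⟩ := m.act (Tv.te m x t) (Tv.te_iso m x ht)
  have fx : ∀ z, h.perp x z → f z = z := fun z o => by
    obtain ⟨a, e⟩ := ha z
    rw [Tv.te_apply, (m.perp_iff z x).1 (h.symm o), mul_zero, zero_smul, add_zero] at e
    exact (m.inj e).symm
  obtain ⟨y, xy⟩ := h.toGeo0.exists_opp x
  have xw : ¬ h.perp x (f y) := fun o => xy ((hf x y).1 (by rw [fx x (h.refl x)]; exact o))
  obtain ⟨c, hc, e⟩ := h.mouf xy xw fun r a b => by rw [← fx r a]; exact (hf y r).2 b
  have key := h.toGeo0.aut_id ((MulAction.toPerm c)⁻¹ * f)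
    (fun a b => by
      change h.perp (c⁻¹ • f a) (c⁻¹ • f b) ↔ _
      rw [h.smul_iff, hf])
    (fun z o => by
      change c⁻¹ • f z = z
      rw [fx z o, inv_smul_eq_iff, hc z o]) xy
    (by change c⁻¹ • f y = y
        rw [inv_smul_eq_iff, e])
  refine ⟨c, hc, fun z => ?_⟩
  obtain ⟨a, e⟩ := ha z
  have k : c⁻¹ • f z = z := key z
  rw [inv_smul_eq_iff] at k
  exact ⟨a, by rw [← k, ← e, Tv.te_apply]⟩

/-- `t ↦ c` is injective (`ψ y`, `ψ x` are independent), `cardC` -/
theorem Emb.tv2 {x : P} {c : G} (hc : c ∈ h.C x) : ∃ t, m.σ t = t ∧ m.Tv x t c := by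
  have ex : ∀ t : {a : F // m.σ a = a}, ∃ c : h.C x, m.Tv x t.1 c.1 := fun t =>
    let ⟨c, a, b⟩ := m.tv1 x t.2; ⟨⟨c, a⟩, b⟩
  choose Φ hΦ using ex
  obtain ⟨y, xy⟩ := h.toGeo0.exists_opp x
  have H0 : m.H (m.ψ y) (m.ψ x) ≠ 0 := fun k => xy (h.symm ((m.perp_iff y x).2 k))
  have fi : Function.Injective Φ := fun t t' e => by
    obtain ⟨a, ha⟩ := hΦ t y
    obtain ⟨a', ha'⟩ := hΦ t' y
    rw [← e] at ha'
    have k := congrArg (m.H · (m.ψ x)) ha
    have k' := congrArg (m.H · (m.ψ x)) ha'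
    simp only [m.H_add, m.H_smul, Tv.self, mul_zero, add_zero] at k k'
    have n : m.H (m.ψ ((Φ t : G) • y)) (m.ψ x) ≠ 0 := fun z => H0 (by rw [k, z, mul_zero])
    have aa : a = a' := mul_right_cancel₀ n (k.symm.trans k')
    rw [← aa, ← ha, add_right_inj] at ha'
    have := smul_left_injective F (m.ψ_ne x) ha'
    exact Subtype.ext (mul_right_cancel₀ H0 this).symm
  obtain ⟨t, e⟩ := ((Nat.bijective_iff_injective_and_card Φ).2 ⟨fi, (m.cardC x).symm⟩).2 ⟨c, hc⟩
  exact ⟨t.1, t.2, by have := hΦ t; rwa [e] at this⟩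

/-- `Γ` acts on `W` by isometries and is generated by transvections.  `α : Γ →* Perm P` from `act`; its range is the image of `G` (`tv1`, `tv2`, `gen`, `E_le_C`), `G` acts faithfully.  `ker α = Z(Γ)`: an element of the kernel maps `ψ z` to `a_z ψ z` with `a_z σ a_y = 1` for opposite points; three mutually opposite points `z, y, e • y` (`1 ≠ e ∈ E z`, `C_opp`) give `a_z σ a_z = 1`, so it commutes with all transvections (`ρ` injective);
a central element commutes with the transvection `T(ψ z, 1)`, so fixes `z`. -/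
theorem Emb.recog {Γ : Type*} [Group Γ] (ρ : Γ →* (W ≃ₗ[F] W)) (inj : Function.Injective ρ) (iso : ∀ γ u w, m.H (ρ γ u) (ρ γ w) = m.H u w)
    (all : ∀ z t, m.σ t = t → ∃ γ, ∀ w, ρ γ w = w + (t * m.H w (m.ψ z)) • m.ψ z)
    (gen : closure {γ | ∃ z t, m.σ t = t ∧ ∀ w, ρ γ w = w + (t * m.H w (m.ψ z)) • m.ψ z} = ⊤) :
    Nonempty (G ≃* Γ ⧸ center Γ) := by
  have ex := fun γ => m.act (ρ γ) (iso γ)
  choose f _ hf using ex
  let α : Γ →* Equiv.Perm P := MonoidHom.mk' f fun γ δ => by
    ext z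
    obtain ⟨a, e⟩ := hf (γ * δ) z
    obtain ⟨b, e'⟩ := hf δ z
    obtain ⟨c, e''⟩ := hf γ (f δ z)
    refine Tv.uq m (Tv.T_ne m _ z) e (a' := b * c) ?_
    rw [map_mul, LinearEquiv.mul_apply, e', map_smul, e'', smul_smul]; rfl
  have αf : ∀ γ, α γ = f γ := fun _ => rfl
  let φ := MulAction.toPermHom G P
  have φi : Function.Injective φ := by
    rw [injective_iff_map_eq_one]
    exact fun g e => h.faith g fun z => congrArg (· z) e
  have link : ∀ {γ z t} {c : G}, (∀ w, ρ γ w = w + (t * m.H w (m.ψ z)) • m.ψ z) → m.Tv z t c → α γ = φ c :=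
    fun {γ z t c} e k => by
      ext w
      obtain ⟨a, ha⟩ := hf γ w
      obtain ⟨b, hb⟩ := k w
      exact Tv.uq m (Tv.T_ne m _ w) ha ((e _).trans hb)
  have rg : φ.range = α.range := by
    apply le_antisymm
    · have : (⊤ : Subgroup G) ≤ α.range.comap φ := by
        rw [← h.gen]
        refine iSup_le fun x a ha => ?_
        obtain ⟨t, ht, k⟩ := m.tv2 (h.E_le_C x ha)
        obtain ⟨γ, e⟩ := all x t ht
        exact ⟨γ, link e k⟩
      rintro _ ⟨g, rfl⟩
      exact this (mem_top g)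
    · have : (⊤ : Subgroup Γ) ≤ φ.range.comap α := by
        rw [← gen, closure_le]
        rintro γ ⟨z, t, ht, e⟩
        obtain ⟨c, -, k⟩ := m.tv1 z ht
        exact ⟨c, (link e k).symm⟩
      rintro _ ⟨g, rfl⟩
      exact this (mem_top g)
  have kr : α.ker = center Γ := by
    ext γ
    rw [MonoidHom.mem_ker]
    constructor
    · intro e
      have ex : ∀ z, ∃ a : F, ρ γ (m.ψ z) = a • m.ψ z := fun z => by
        obtain ⟨a, k⟩ := hf γ z
        rw [← αf, e] at k
        exact ⟨a, k⟩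
      choose a ha using ex
      have op : ∀ z y, ¬ h.perp z y → a z * m.σ (a y) = 1 := fun z y o => by
        have k := iso γ (m.ψ z) (m.ψ y)
        rw [ha, ha, m.H_smul, m.H_smul', ← mul_assoc] at k
        exact mul_right_cancel₀ (mt (m.perp_iff z y).2 o) (k.trans (one_mul _).symm)
      have nm : ∀ z, a z * m.σ (a z) = 1 := fun z => by
        obtain ⟨y, o⟩ := h.toGeo0.exists_opp z
        obtain ⟨c, hc, c1⟩ := h.Ene z
        have o1 : ¬ h.perp z (c • y) := fun k => o ((h.smul_iff c).1 (by rw [h.Efix (h.refl z) hc]; exact k))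
        have o2 : ¬ h.perp (c • y) y := fun k => c1 (h.toGeo0.C_opp (h.E_le_C z hc) o (h.symm k))
        have k1 := op _ _ o
        have k2 := op _ _ o1
        have k3 := op _ _ o2
        have n : m.σ (a y) ≠ 0 := fun k => by rw [k, mul_zero] at k1; exact zero_ne_one k1
        have : a z = a (c • y) := mul_right_cancel₀ n (k1.trans k3.symm)
        rw [← this] at k2; exact k2
      have : (⊤ : Subgroup Γ) ≤ centralizer {γ} := by
        rw [← gen, closure_le]
        rintro δ ⟨z, t, -, k⟩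
        refine mem_centralizer_singleton_iff.2 (inj ?_)
        ext w
        rw [map_mul, map_mul, LinearEquiv.mul_apply, LinearEquiv.mul_apply, k, k, map_add, map_smul, ha, smul_smul]
        have l := iso γ w (m.ψ z)
        rw [ha, m.H_smul'] at l
        congr 2
        rw [← l]
        linear_combination (-(t * m.H (ρ γ w) (m.ψ z))) * nm z
      exact mem_center_iff.2 fun δ => mem_centralizer_singleton_iff.1 (this (mem_top δ))
    · intro e
      ext z
      obtain ⟨δ, k⟩ := all z 1 (map_one _)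
      obtain ⟨y, o⟩ := h.toGeo0.exists_opp z
      have H0 : m.H (m.ψ y) (m.ψ z) ≠ 0 := fun k => o (h.symm ((m.perp_iff y z).2 k))
      have l := congrArg (fun g => ρ g (m.ψ y)) (mem_center_iff.1 e δ)
      simp only [map_mul, LinearEquiv.mul_apply] at l
      rw [k, k, map_add, map_smul, add_right_inj, one_mul, one_mul] at l
      obtain ⟨a, ha⟩ := hf γ z
      refine Tv.uq m (Tv.T_ne m _ z) ha (a' := (m.H (m.ψ y) (m.ψ z))⁻¹ * m.H (ρ γ (m.ψ y)) (m.ψ z)) ?_
      change _ = _ • m.ψ z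
      rw [mul_smul, l, smul_smul, inv_mul_cancel₀ H0, one_smul]
  exact ⟨((MonoidHom.ofInjective φi).trans (MulEquiv.subgroupCongr rg)).trans
    ((QuotientGroup.quotientKerEquivRange α).symm.trans (QuotientGroup.quotientMulEquivOfEq kr))⟩

end CL.PT
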