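/- S3235: the unitary case. -/
import Mathlib
import Cfsg.Agent.CHEV.PT.Tv
import Cfsg.Agent.S0780

set_option autoImplicit false

namespace CL.PT

open Subgroup

variable {p : ℕ} {G P : Type*} [Group G] [MulAction G P] [Finite G] [Finite P] {h : Geo p G P}
  {F : Type} {W : Type*} [Field F] [Fintype F] [AddCommGroup W] [Module F W] [Finite W]

open CL.Witt CL.Uni Module in
/-- `θ H` is a non-degenerate hermitian form `f` (`σ θ = -θ`); `Emb.recog` with `Γ = SO(f)`. -/
theorem Emb.rec_su (m : Emb h F W) (h2 : (2 : F) ≠ 0) {q : ℕ} (hF : Fintype.card F = q ^ 2) (hσ : ∀ a, m.σ a = a ^ q) :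
    ∃ n : ℕ, 2 ≤ n ∧ Nonempty (G ≃* Cfsg.PSU n F q) := by
  have hs : ∀ a, m.σ a = sig hF a := fun a => (hσ a).trans (sig_apply hF a).symm
  obtain ⟨θ, θ0, hθ⟩ : ∃ θ : F, θ ≠ 0 ∧ sig hF θ = -θ := by
    by_contra! k
    refine sig_ne_id hF (RingHom.ext fun a => ?_)
    by_contra e
    exact k (sig hF a - a) (sub_ne_zero.2 e) (by rw [map_sub, sig_sig, neg_sub])
  let f : Form (HT hF) W := Form.ofHerm (sig_ne_id hF) (sig_sig hF)
    (LinearMap.mk₂'ₛₗ (sig hF) (RingHom.id F) (fun x y => θ * m.H y x) (fun x x' y => by rw [m.H_add', mul_add])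
      (fun c x y => by rw [m.H_smul', hs, smul_eq_mul]; ring) (fun x y y' => by rw [m.H_add, mul_add])
      (fun c x y => by rw [m.H_smul, smul_eq_mul, RingHom.id_apply]; ring))
    ⟨fun x y => by
      change sig hF (θ * m.H y x) = θ * m.H x y
      rw [map_mul, hθ, m.H_skew y x, hs]; ring⟩
  have fB : ∀ x y, f.B x y = θ * m.H y x := fun _ _ => rfl
  have fq : ∀ x, f.q x = θ * m.H x x := fun _ => rfl
  have hf : f.Nondeg := fun x hx => m.nondeg x fun u => (mul_eq_zero.1 (hx u)).resolve_left θ0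
  have iso : ∀ z, m.H (m.ψ z) (m.ψ z) = 0 := fun z => (m.perp_iff z z).1 (h.refl z)
  have n2 : 2 ≤ finrank F W := by
    obtain ⟨z⟩ := h.ne
    by_contra! k
    obtain ⟨v, hv⟩ := finrank_le_one_iff.1 (Nat.lt_succ_iff.1 k)
    obtain ⟨c, e⟩ := hv (m.ψ z)
    refine m.ψ_ne z (m.nondeg _ fun u => ?_)
    obtain ⟨d, rfl⟩ := hv u
    have c0 : c ≠ 0 := fun a => m.ψ_ne z (by rw [← e, a, zero_smul])
    have := iso z
    rw [← e, m.H_smul, e] at this
    rw [m.H_smul, (mul_eq_zero.1 this).resolve_left c0, mul_zero]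
  have hT : f.Tv = f.SO := by
    rcases n2.eq_or_lt with a | a
    · rw [Tv_eq_E_two hf a.symm, E_eq_SO (sig_ne_id hF) hf]
    · exact Tv_eq_SO (sig_ne_id hF) hf a (.inr ⟨-1, by rw [map_neg, map_one], neg_ne_zero.2 one_ne_zero,
        fun e => h2 (by linear_combination -e)⟩)
  obtain ⟨e⟩ := m.recog f.SO.subtype Subtype.val_injective
    (fun γ u w => mul_left_cancel₀ θ0 (Form.mem_O_B ((Form.mem_SO _).1 γ.2).1 w u))
    (fun z t ht => ⟨⟨_, Form.ei_mem_SO f (m.ψ z) 0 (-t / θ)⟩, fun w => by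
      change f.ei _ 0 _ w = _
      rw [Form.ei_zero_apply (by rw [fq, iso, mul_zero]) (by
        rw [FormType.herm_π, map_div₀, map_neg, ← hs t, ht, hθ]; field_simp; ring), fB, HT_ε, sub_eq_add_neg, ← neg_smul]
      congr 2; field_simp⟩) (by
      rw [eq_top_iff]
      rintro A -
      refine (mem_map_iff_mem Subtype.val_injective (f := f.SO.subtype)).1 ((Form.Tv_le_iff.2 fun u a hu ha => ?_) (hT.ge A.2))
      refine ⟨⟨_, Form.ei_mem_SO f u 0 a⟩, ?_, rfl⟩
      by_cases u0 : u = 0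
      · rw [show (⟨_, Form.ei_mem_SO f u 0 a⟩ : f.SO) = 1 from Subtype.ext (LinearEquiv.ext fun x => by
          change f.ei u 0 a x = x
          rw [Form.ei_zero_apply hu ha, u0, smul_zero, sub_zero])]
        exact one_mem _
      obtain ⟨z, c, rfl⟩ := m.onto u u0 ((mul_eq_zero.1 hu).resolve_left θ0)
      have sa : sig hF a = -a := eq_neg_of_add_eq_zero_right ha
      refine subset_closure ⟨z, -(a * θ * (sig hF c * c)), by
        simp only [hs, map_neg, map_mul, sa, hθ, sig_sig]; ring, fun w => ?_⟩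
      change f.ei _ 0 a w = _
      rw [Form.ei_zero_apply hu ha, fB, HT_ε, m.H_smul', hs, smul_smul, sub_eq_add_neg, ← neg_smul]
      congr 2; ring)
  obtain ⟨e'⟩ := nonempty_SO_equiv_SU hf rfl
  exact ⟨_, n2, ⟨e.trans (Sp.quotientCenterCongr e')⟩⟩

end CL.PT
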