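/- S3235: the symplectic case. -/
import Mathlib
import Cfsg.Agent.CHEV.PT.Tv
import Cfsg.Agent.S0765

set_option autoImplicit false

namespace CL.PT

open Subgroup

variable {p : ℕ} {G P : Type*} [Group G] [MulAction G P] [Finite G] [Finite P] {h : Geo p G P}
  {F : Type} {W : Type*} [Field F] [Fintype F] [AddCommGroup W] [Module F W] [Finite W]

/-- `H` is a non-degenerate alternating bilinear form (`2 ≠ 0`); choose a symplectic basis (cf search symplectic basis, `CLAS/WittStd`, `SpForm`, `SpAlt`), `W ≃ₗ (Fin n ⊕ Fin n → F)`, `n ≥ 1` as `ψ z ≠ 0`; `Emb.recog` with `Γ = symplecticGroup`, `S0765` (every vector is `a • ψ z` or `0`). -/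
theorem Emb.rec_sp (m : Emb h F W) (h2 : (2 : F) ≠ 0) (hσ : ∀ a, m.σ a = a) : ∃ n : ℕ, 1 ≤ n ∧ Nonempty (G ≃* Cfsg.PSp n F) := by
  have sk : ∀ u w, m.H w u = -m.H u w := fun u w => by rw [m.H_skew u w, hσ]
  have al : ∀ w, m.H w w = 0 := fun w => by
    have := sk w w
    exact (mul_eq_zero.1 (show 2 * m.H w w = 0 by linear_combination this)).resolve_left h2
  let B : LinearMap.BilinForm F W := LinearMap.mk₂ F m.H m.H_add m.H_smul m.H_add'
    fun a u w => by rw [m.H_smul', hσ, smul_eq_mul]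
  have hA : B.IsAlt := al
  have nd : (CL.Witt.Form.ofAlt B hA).Nondeg := fun x hx => m.nondeg x fun u => by
    rw [sk]; exact neg_eq_zero.2 (hx u)
  obtain ⟨n, hn⟩ := nd.even_finrank_alt
  obtain ⟨e, he⟩ := nd.exists_isIsom_alt (CL.Sp.spForm_nondeg n F) (by rw [CL.Sp.finrank_sp, hn, two_mul])
  have eB : ∀ u w, (CL.Sp.spForm n F).B (e u) (e w) = m.H u w := he.B_eq
  obtain ⟨z₀⟩ := h.ne
  have : Nontrivial W := ⟨_, _, m.ψ_ne z₀⟩
  have n1 : 1 ≤ n := by have := Module.finrank_pos (R := F) (M := W); omega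
  let ρ : Matrix.symplecticGroup (Fin n) F →* (W ≃ₗ[F] W) := MonoidHom.mk'
    (fun A => (e.trans (CL.Sp.spEquiv n F A).1).trans e.symm) fun A A' => by
      ext w
      simp [LinearEquiv.mul_apply]
  have ρe : ∀ A w, e (ρ A w) = (CL.Sp.spEquiv n F A).1 (e w) := fun A w => e.apply_symm_apply _
  have inj : Function.Injective ρ := fun A A' k => (CL.Sp.spEquiv n F).injective (Subtype.ext (by
    ext1 v
    rw [← e.apply_symm_apply v, ← ρe, ← ρe, k]))
  have tv : ∀ (v : W) (c : F) w, ρ ⟨_, CL.Sp.sympTransvection_mem (e v) c⟩ w = w + (c * m.H w v) • v := fun v c w => by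
    apply e.injective
    rw [ρe, CL.Sp.spEquiv_apply, CL.Sp.sympTransvection_mulVec, CL.Witt.Form.tv_apply, eB, map_add, map_smul, sk w v]
    congr 2; ring
  refine ⟨n, n1, m.recog ρ inj (fun A u w => ?_) (fun z t _ => ⟨_, tv _ t⟩) ?_⟩
  · rw [← eB, ρe, ρe, ← eB, CL.Sp.spForm_B, CL.Sp.spForm_B]
    exact CL.Sp.mem_O_iff.1 (CL.Sp.spEquiv n F A).2 _ _
  · refine CL.Sp.eq_top_of_sympTransvection_mem fun v c => ?_
    obtain ⟨v, rfl⟩ := e.surjective v
    by_cases v0 : v = 0
    · have : (⟨_, CL.Sp.sympTransvection_mem (e v) c⟩ : Matrix.symplecticGroup (Fin n) F) = 1 := inj (by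
        ext w
        rw [tv, v0, smul_zero, add_zero, map_one]; rfl)
      rw [this]; exact one_mem _
    · obtain ⟨z, a, k⟩ := m.onto v v0 (al v)
      refine subset_closure ⟨z, c * a * a, hσ _, fun w => ?_⟩
      rw [tv]
      conv_lhs => rw [k, m.H_smul', hσ, smul_smul]
      congr 2; ring

end CL.PT
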